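import Mathlib
import Cfsg.Prelude.Def_Transfer
import Cfsg.Agent.Lib.Helper69.ClassSize

/-!
# S4130 farm, piece C2: counting `p`-singular elements when the centralizers of the
`p`-elements have normal `p`-complements and the Sylow `p`-subgroups are abelian
-/

set_option autoImplicit false

namespace Cfsg.Agent.Lib.Helper21.SqFree

open Subgroup Cfsg.Agent.Lib.Helper69

variable {G : Type*} [Group G] [Finite G] {p : ℕ} [Fact p.Prime]

/-- In a group with a normal `p`-complement, the number of `p'`-elements times the order of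
a Sylow `p`-subgroup is the order of the group. -/
theorem card_regular_mul_of_npc {L : Type*} [Group L] [Finite L]
    (h : Cfsg.HasNormalPComplement p L) :
    Nat.card {k : L // ¬ p ∣ orderOf k} * p ^ (Nat.card L).factorization p = Nat.card L := by
  have hp : p.Prime := Fact.out
  obtain ⟨P, K, hK, hc⟩ := h
  have h1 : Nat.card K * Nat.card P = Nat.card L := hc.card_mul_card
  have hKp : ¬ p ∣ Nat.card K := by
    rw [← hc.index_eq_card]; exact P.not_dvd_index
  have hset : ∀ k : L, ¬ p ∣ orderOf k ↔ k ∈ K := by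
    intro k
    constructor
    · intro hk
      -- the image of `k` in `L ⧸ K` has order a power of `p` and prime to `p`
      have hidx : K.index = Nat.card P := by
        have h2 := K.card_mul_index
        rw [← h1] at h2
        exact Nat.eq_of_mul_eq_mul_left Nat.card_pos h2
      obtain ⟨n, hn⟩ := P.2.exists_card_eq
      have e1 : ((k : L) : L ⧸ K) ^ (p ^ n) = 1 := by
        have : Nat.card (L ⧸ K) = p ^ n := by rw [← hn, ← hidx]; rfl
        rw [← this]; exact pow_card_eq_one'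
      have e2 : ((k : L) : L ⧸ K) ^ orderOf k = 1 := by
        rw [← QuotientGroup.mk_pow, pow_orderOf_eq_one]; rfl
      have hcop : (p ^ n).Coprime (orderOf k) :=
        Nat.Coprime.pow_left n ((Nat.Prime.coprime_iff_not_dvd hp).2 hk)
      have := pow_gcd_eq_one.mpr ⟨e1, e2⟩
      rw [hcop.gcd_eq_one, pow_one] at this
      exact (QuotientGroup.eq_one_iff k).1 this
    · intro hk hd
      apply hKp
      have : orderOf (⟨k, hk⟩ : K) ∣ Nat.card K := orderOf_dvd_natCard _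
      rw [← Subgroup.orderOf_coe] at this
      exact hd.trans this
  have h2 : Nat.card {k : L // ¬ p ∣ orderOf k} = Nat.card K :=
    Nat.card_congr (Equiv.subtypeEquivRight hset)
  rw [h2, ← P.card_eq_multiplicity, h1]

/-- uniform exponents extracting the `p`-part and the `p'`-part -/
theorem exists_uniform_exponents (G : Type*) [Group G] [Finite G] (p : ℕ) [Fact p.Prime] :
    ∃ a b : ℕ, (∀ g : G, g ^ a * g ^ b = g) ∧ (∀ g : G, ∃ k : ℕ, (g ^ a) ^ p ^ k = 1) ∧
      (∀ g : G, ¬ p ∣ orderOf (g ^ b)) ∧ (∀ s : G, (∃ k : ℕ, s ^ p ^ k = 1) → s ^ a = s ∧ s ^ b = 1) ∧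
      (∀ y : G, ¬ p ∣ orderOf y → y ^ a = 1 ∧ y ^ b = y) := by
  have hp : p.Prime := Fact.out
  obtain ⟨e, m, hm, hn⟩ := Nat.exists_eq_pow_mul_and_not_dvd (Nat.card_pos (α := G)).ne' p hp.ne_one
  have hcop : (p ^ e).Coprime m := Nat.Coprime.pow_left _ ((Nat.Prime.coprime_iff_not_dvd hp).2 hm)
  obtain ⟨a, ha1, ha2⟩ := Nat.chineseRemainder hcop 1 0
  obtain ⟨b, hb1, hb2⟩ := Nat.chineseRemainder hcop 0 1
  obtain ⟨c, rfl⟩ : m ∣ a := (Nat.modEq_zero_iff_dvd).1 ha2
  obtain ⟨d, rfl⟩ : p ^ e ∣ b := (Nat.modEq_zero_iff_dvd).1 hb1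
  have hcard : ∀ g : G, g ^ (p ^ e * m) = 1 := fun g => by rw [← hn]; exact pow_card_eq_one'
  have hpel : ∀ s : G, (∃ k : ℕ, s ^ p ^ k = 1) → s ^ p ^ e = 1 := by
    rintro s ⟨k, hk⟩
    have h1 : orderOf s ∣ p ^ k := orderOf_dvd_of_pow_eq_one hk
    have h2 : orderOf s ∣ p ^ e * m := orderOf_dvd_of_pow_eq_one (hcard s)
    have h3 : (orderOf s).Coprime m :=
      Nat.Coprime.coprime_dvd_left h1 (Nat.Coprime.pow_left _ ((Nat.Prime.coprime_iff_not_dvd hp).2 hm))
    exact orderOf_dvd_iff_pow_eq_one.1 (h3.dvd_of_dvd_mul_right h2)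
  have hreg : ∀ y : G, ¬ p ∣ orderOf y → y ^ m = 1 := by
    intro y hy
    have h2 : orderOf y ∣ p ^ e * m := orderOf_dvd_of_pow_eq_one (hcard y)
    have h3 : (orderOf y).Coprime (p ^ e) :=
      (Nat.Coprime.pow_left _ ((Nat.Prime.coprime_iff_not_dvd hp).2 hy)).symm
    exact orderOf_dvd_iff_pow_eq_one.1 (h3.dvd_of_dvd_mul_left h2)
  refine ⟨m * c, p ^ e * d, ?_, ?_, ?_, ?_, ?_⟩
  · intro g
    rw [← pow_add]
    conv_rhs => rw [← pow_one g]
    rw [pow_eq_pow_iff_modEq]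
    have h1 : m * c + p ^ e * d ≡ 1 [MOD p ^ e] := by simpa using ha1.add hb1
    have h2 : m * c + p ^ e * d ≡ 1 [MOD m] := by simpa using ha2.add hb2
    have h3 : m * c + p ^ e * d ≡ 1 [MOD p ^ e * m] :=
      (Nat.modEq_and_modEq_iff_modEq_mul hcop).1 ⟨h1, h2⟩
    exact h3.of_dvd (orderOf_dvd_of_pow_eq_one (hcard g))
  · intro g
    refine ⟨e, ?_⟩
    rw [← pow_mul, show m * c * p ^ e = (p ^ e * m) * c by ring, pow_mul, hcard, one_pow]
  · intro g hd
    apply hm
    apply hd.trans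
    apply orderOf_dvd_of_pow_eq_one
    rw [← pow_mul, show p ^ e * d * m = (p ^ e * m) * d by ring, pow_mul, hcard, one_pow]
  · intro s hs
    have h1 := hpel s hs
    constructor
    · conv_rhs => rw [← pow_one s]
      rw [pow_eq_pow_iff_modEq]
      exact ha1.of_dvd (orderOf_dvd_of_pow_eq_one h1)
    · rw [pow_mul, h1, one_pow]
  · intro y hy
    have h1 := hreg y hy
    constructor
    · rw [pow_mul, h1, one_pow]
    · conv_rhs => rw [← pow_one y]
      rw [pow_eq_pow_iff_modEq]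
      exact hb2.of_dvd (orderOf_dvd_of_pow_eq_one h1)

/-- the `p`-singular elements correspond to the pairs (nontrivial `p`-element, commuting
`p'`-element) -/
theorem card_singular_eq_card_pairs :
    Nat.card {g : G // p ∣ orderOf g} =
      Nat.card {x : G × G // (x.1 ≠ 1 ∧ ∃ k : ℕ, x.1 ^ p ^ k = 1) ∧
        (x.2 * x.1 = x.1 * x.2 ∧ ¬ p ∣ orderOf x.2)} := by
  have hp : p.Prime := Fact.out
  obtain ⟨a, b, h1, h2, h3, h4, h5⟩ := exists_uniform_exponents G p
  symm
  refine Nat.card_congr (Equiv.ofBijective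
    (fun x => ⟨x.1.1 * x.1.2, ?_⟩) ⟨?_, ?_⟩)
  · obtain ⟨⟨s, y⟩, ⟨hs1, hsp⟩, hc, hy⟩ := x
    simp only at hs1 hsp hc hy ⊢
    by_contra hcon
    have := (h5 _ hcon).1
    have hcm : Commute s y := hc.symm
    rw [hcm.mul_pow, (h4 s hsp).1, (h5 y hy).1, mul_one] at this
    exact hs1 this
  · rintro ⟨⟨s, y⟩, ⟨hs1, hsp⟩, hc, hy⟩ ⟨⟨s', y'⟩, ⟨hs1', hsp'⟩, hc', hy'⟩ h
    simp only [Subtype.mk.injEq] at h hc hc'
    have hcm : Commute s y := hc.symm
    have hcm' : Commute s' y' := hc'.symm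
    have e1 : (s * y) ^ a = (s' * y') ^ a := by rw [h]
    have e2 : (s * y) ^ b = (s' * y') ^ b := by rw [h]
    rw [hcm.mul_pow, hcm'.mul_pow, (h4 s hsp).1, (h5 y hy).1, (h4 s' hsp').1, (h5 y' hy').1,
      mul_one, mul_one] at e1
    rw [hcm.mul_pow, hcm'.mul_pow, (h4 s hsp).2, (h5 y hy).2, (h4 s' hsp').2, (h5 y' hy').2,
      one_mul, one_mul] at e2
    subst e1 e2
    rfl
  · rintro ⟨g, hg⟩
    refine ⟨⟨(g ^ a, g ^ b), ⟨?_, h2 g⟩, ?_, h3 g⟩, Subtype.ext (h1 g)⟩
    · intro h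
      have e := h1 g
      simp only at h
      rw [h, one_mul] at e
      have := h3 g
      rw [e] at this
      exact this hg
    · simp only
      rw [← pow_add, ← pow_add, add_comm]

theorem card_singular_mul_card_sylow (P : Sylow p G)
    (hab : ∀ Q : Sylow p G, ∀ a ∈ Q, ∀ b ∈ Q, a * b = b * a)
    (hnpc : ∀ s : G, s ≠ 1 → (∃ k : ℕ, s ^ p ^ k = 1) →
      Cfsg.HasNormalPComplement p (centralizer ({s} : Set G))) :
    Nat.card {g : G // p ∣ orderOf g} * Nat.card P =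
      Nat.card {x : G × G // x.1 ≠ 1 ∧ (∃ k : ℕ, x.1 ^ p ^ k = 1) ∧ x.2 * x.1 = x.1 * x.2} := by
  classical
  have hp : p.Prime := Fact.out
  rw [card_singular_eq_card_pairs]
  let S := {s : G // s ≠ 1 ∧ ∃ k : ℕ, s ^ p ^ k = 1}
  have : Fintype S := Fintype.ofFinite S
  -- both sides as sums over `S`
  have e1 : {x : G × G // (x.1 ≠ 1 ∧ ∃ k : ℕ, x.1 ^ p ^ k = 1) ∧
        (x.2 * x.1 = x.1 * x.2 ∧ ¬ p ∣ orderOf x.2)} ≃
      Σ s : S, {y : G // y * s.1 = s.1 * y ∧ ¬ p ∣ orderOf y} :=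
    { toFun := fun x => ⟨⟨x.1.1, x.2.1⟩, ⟨x.1.2, x.2.2⟩⟩
      invFun := fun x => ⟨(x.1.1, x.2.1), x.1.2, x.2.2⟩
      left_inv := fun x => rfl
      right_inv := fun x => rfl }
  have e2 : {x : G × G // x.1 ≠ 1 ∧ (∃ k : ℕ, x.1 ^ p ^ k = 1) ∧ x.2 * x.1 = x.1 * x.2} ≃
      Σ s : S, {y : G // y * s.1 = s.1 * y} :=
    { toFun := fun x => ⟨⟨x.1.1, x.2.1, x.2.2.1⟩, ⟨x.1.2, x.2.2.2⟩⟩
      invFun := fun x => ⟨(x.1.1, x.2.1), x.1.2.1, x.1.2.2, x.2.2⟩
      left_inv := fun x => rfl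
      right_inv := fun x => rfl }
  rw [Nat.card_congr e1, Nat.card_congr e2, Nat.card_sigma, Nat.card_sigma, Finset.sum_mul]
  refine Finset.sum_congr rfl (fun s _ => ?_)
  obtain ⟨s, hs1, hsp⟩ := s
  simp only
  set L := centralizer ({s} : Set G) with hL
  have hnp := hnpc s hs1 hsp
  have h1 := card_regular_mul_of_npc hnp
  -- the `p`-part of `#L` is `#P`
  have hfac : p ^ (Nat.card L).factorization p = Nat.card P := by
    obtain ⟨k, hk⟩ := hsp
    have hz : IsPGroup p (zpowers s) := by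
      apply IsPGroup.of_card_dvd_pow (n := k)
      rw [Nat.card_zpowers]
      exact orderOf_dvd_of_pow_eq_one hk
    obtain ⟨Q, hQ⟩ := hz.exists_le_sylow
    have hQL : (Q : Subgroup G) ≤ L := by
      intro x hx
      exact mem_cent_singleton.2 (hab Q x hx s (hQ (mem_zpowers s)))
    have hd1 : Nat.card Q ∣ Nat.card L := card_dvd_of_le hQL
    have hd2 : Nat.card L ∣ Nat.card G := card_subgroup_dvd_card L
    rw [Q.card_eq_multiplicity] at hd1
    rw [P.card_eq_multiplicity]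
    congr 1
    apply le_antisymm
    · exact (Nat.factorization_le_iff_dvd Nat.card_pos.ne' Nat.card_pos.ne').2 hd2 p
    · exact (hp.pow_dvd_iff_le_factorization Nat.card_pos.ne').1 hd1
  rw [hfac] at h1
  have e3 : {y : G // y * s = s * y ∧ ¬ p ∣ orderOf y} ≃ {k : L // ¬ p ∣ orderOf k} :=
    { toFun := fun y => ⟨⟨y.1, mem_cent_singleton.2 y.2.1⟩, by
        rw [← Subgroup.orderOf_coe]; exact y.2.2⟩
      invFun := fun k => ⟨k.1.1, mem_cent_singleton.1 k.1.2, by
        have := k.2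
        rwa [← Subgroup.orderOf_coe] at this⟩
      left_inv := fun y => rfl
      right_inv := fun k => rfl }
  have e4 : {y : G // y * s = s * y} ≃ L :=
    { toFun := fun y => ⟨y.1, mem_cent_singleton.2 y.2⟩
      invFun := fun k => ⟨k.1, mem_cent_singleton.1 k.2⟩
      left_inv := fun y => rfl
      right_inv := fun k => rfl }
  rw [Nat.card_congr e3, Nat.card_congr e4, h1]

end Cfsg.Agent.Lib.Helper21.SqFree
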