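import Mathlib

/-!
# S4130 farm, piece C3: counting commuting pairs against a Sylow subgroup
-/

set_option autoImplicit false

namespace Cfsg.Agent.Lib.Helper21.SqFree

open Subgroup

variable {G : Type*} [Group G] [Finite G] {p : ℕ} [Fact p.Prime]

theorem exists_conj_mem_sylow (P : Sylow p G) (s : G) (hs : ∃ k : ℕ, s ^ p ^ k = 1) :
    ∃ c : G, c * s * c⁻¹ ∈ P := by
  obtain ⟨k, hk⟩ := hs
  have hz : IsPGroup p (zpowers s) := by
    apply IsPGroup.of_card_dvd_pow (n := k)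
    rw [Nat.card_zpowers]
    exact orderOf_dvd_of_pow_eq_one hk
  obtain ⟨Q, hQ⟩ := hz.exists_le_sylow
  obtain ⟨c, hc⟩ := MulAction.exists_smul_eq G Q P
  refine ⟨c, ?_⟩
  have h1 : c * s * c⁻¹ ∈ (c • Q : Sylow p G) := by
    rw [← SetLike.mem_coe, Sylow.coe_smul]
    exact ⟨s, hQ (mem_zpowers _), rfl⟩
  rwa [hc] at h1

theorem card_ne_one_subtype {H : Type*} [Group H] [Finite H] :
    Nat.card {x : H // x ≠ 1} = Nat.card H - 1 := by
  classical
  have : Fintype H := Fintype.ofFinite H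
  rw [Nat.card_eq_fintype_card, Nat.card_eq_fintype_card, Fintype.card_subtype_compl,
    Fintype.card_subtype_eq]

theorem three_mul_card_pairs_le (P : Sylow p G)
    (h3 : ∀ s ∈ P, s ≠ 1 → 3 ≤ {x : G | x ∈ P ∧ ∃ g : G, g * s * g⁻¹ = x}.ncard) :
    3 * Nat.card {x : G × G // x.1 ≠ 1 ∧ (∃ k : ℕ, x.1 ^ p ^ k = 1) ∧ x.2 * x.1 = x.1 * x.2}
      ≤ (Nat.card P - 1) * Nat.card G := by
  classical
  have key : ∀ s : G, s ≠ 1 → (∃ k : ℕ, s ^ p ^ k = 1) →
      ∃ e : Fin 3 → G, Function.Injective e ∧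
        ∀ i, e i ∈ P ∧ e i ≠ 1 ∧ ∃ g : G, g * e i * g⁻¹ = s := by
    intro s hs1 hsp
    obtain ⟨c, hc⟩ := exists_conj_mem_sylow P s hsp
    have hc1 : c * s * c⁻¹ ≠ 1 := by
      intro h
      apply hs1
      have : s = c⁻¹ * (c * s * c⁻¹) * c := by group
      rw [this, h]; group
    have h := h3 _ hc hc1
    set X : Set G := {x : G | x ∈ P ∧ ∃ g : G, g * (c * s * c⁻¹) * g⁻¹ = x} with hX
    have : Fintype X := Fintype.ofFinite X
    have hcard : Fintype.card (Fin 3) ≤ Fintype.card X := by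
      rw [Fintype.card_fin, ← Nat.card_eq_fintype_card, Nat.card_coe_set_eq]
      exact h
    obtain ⟨f⟩ := Function.Embedding.nonempty_of_card_le hcard
    refine ⟨fun i => (f i : G), fun i j hij => f.injective (Subtype.ext hij), fun i => ?_⟩
    obtain ⟨hP, g, hg⟩ := (f i).2
    refine ⟨hP, ?_, (g * c)⁻¹, ?_⟩
    · show (f i : G) ≠ 1
      rw [← hg]
      intro h'
      apply hc1
      have : c * s * c⁻¹ = g⁻¹ * (g * (c * s * c⁻¹) * g⁻¹) * g := by group
      rw [this, h']; group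
    · show (g * c)⁻¹ * (f i : G) * (g * c)⁻¹⁻¹ = s
      rw [← hg]; group
  choose e he1 he2 using key
  choose hP hne g hg using he2
  let A := {x : G × G // x.1 ≠ 1 ∧ (∃ k : ℕ, x.1 ^ p ^ k = 1) ∧ x.2 * x.1 = x.1 * x.2}
  let f : Fin 3 × A → {x : P // x ≠ 1} × G := fun y =>
    (⟨⟨e y.2.1.1 y.2.2.1 y.2.2.2.1 y.1, hP _ _ _ _⟩, fun h => hne y.2.1.1 y.2.2.1 y.2.2.2.1 y.1
        (congrArg Subtype.val h)⟩,
      y.2.1.2 * g y.2.1.1 y.2.2.1 y.2.2.2.1 y.1)
  have hf : Function.Injective f := by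
    rintro ⟨i, ⟨⟨s, c⟩, hs1, hsp, hsc⟩⟩ ⟨j, ⟨⟨s', c'⟩, hs1', hsp', hsc'⟩⟩ h
    simp only [f, Prod.mk.injEq, Subtype.mk.injEq] at h
    obtain ⟨h1, h2⟩ := h
    simp only at hsc hsc'
    -- recover `s`
    have e1 : (c * g s hs1 hsp i) * e s hs1 hsp i * (c * g s hs1 hsp i)⁻¹ = s := by
      have := hg s hs1 hsp i
      calc (c * g s hs1 hsp i) * e s hs1 hsp i * (c * g s hs1 hsp i)⁻¹
          = c * (g s hs1 hsp i * e s hs1 hsp i * (g s hs1 hsp i)⁻¹) * c⁻¹ := by group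
        _ = c * s * c⁻¹ := by rw [this]
        _ = s := by rw [hsc]; group
    have e2 : (c' * g s' hs1' hsp' j) * e s' hs1' hsp' j * (c' * g s' hs1' hsp' j)⁻¹ = s' := by
      have := hg s' hs1' hsp' j
      calc (c' * g s' hs1' hsp' j) * e s' hs1' hsp' j * (c' * g s' hs1' hsp' j)⁻¹
          = c' * (g s' hs1' hsp' j * e s' hs1' hsp' j * (g s' hs1' hsp' j)⁻¹) * c'⁻¹ := by group
        _ = c' * s' * c'⁻¹ := by rw [this]
        _ = s' := by rw [hsc']; group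
    have hss : s = s' := by rw [← e1, ← e2, h1, h2]
    subst hss
    have hij : i = j := he1 s hs1 hsp h1
    subst hij
    have hcc : c = c' := mul_right_cancel h2
    subst hcc
    rfl
  have h := Nat.card_le_card_of_injective f hf
  rw [Nat.card_prod, Nat.card_prod, Nat.card_fin, card_ne_one_subtype] at h
  exact h

end Cfsg.Agent.Lib.Helper21.SqFree
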