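import Mathlib
import Cfsg.Agent.Lib.Helper69.ClassSize
import Cfsg.Agent.Lib.Helper69.SylowCent

/-!
# S4130 farm, piece P4: the derived subgroup of a Sylow subgroup is normal
-/

set_option autoImplicit false

namespace Cfsg.Agent.Lib.Helper21.SqFree

open Subgroup Cfsg.Agent.Lib.Helper69
open scoped commutatorElement

variable {G : Type*} [Group G] [Finite G] {p : ℕ} [Fact p.Prime]

/-- a subgroup of index dividing `p` of a `p`-group contains the derived subgroup -/
theorem commutator_le_of_relIndex_dvd (P S : Subgroup G) (hP : IsPGroup p P) (hSP : S ≤ P)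
    (hi : S.relIndex P ∣ p) : ⁅P, P⁆ ≤ S := by
  have hp : p.Prime := Fact.out
  rcases (Nat.dvd_prime hp).1 hi with h1 | h1
  · have : P ≤ S := relIndex_eq_one.1 h1
    exact (commutator_le_self P).trans this
  · -- `S.subgroupOf P` has index `p` in the `p`-group `P`, so it is normal
    have hidx : (S.subgroupOf P).index = p := h1
    have hn : (S.subgroupOf P).Normal := by
      have hP' : IsPGroup p P := hP
      apply normal_of_index_eq_minFac_card
      rw [hidx]
      obtain ⟨n, hn⟩ := hP'.exists_card_eq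
      have hn0 : n ≠ 0 := by
        rintro rfl
        have h2 : (S.subgroupOf P).index ∣ Nat.card P := index_dvd_card _
        rw [hidx, hn, pow_zero] at h2
        exact hp.one_lt.ne' (Nat.dvd_one.1 h2)
      rw [hn, hp.pow_minFac hn0]
    have hq : Nat.card (P ⧸ S.subgroupOf P) = p := hidx
    have hcyc : IsCyclic (P ⧸ S.subgroupOf P) := isCyclic_of_prime_card hq
    have hmc : IsMulCommutative (P ⧸ S.subgroupOf P) := IsCyclic.isMulCommutative
    have hcomm : ∀ a b : P ⧸ S.subgroupOf P, a * b = b * a := fun a b => mul_comm' a b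
    rw [commutator_le]
    intro a ha b hb
    have h2 : ⁅(⟨a, ha⟩ : P), ⟨b, hb⟩⁆ ∈ S.subgroupOf P := by
      rw [← QuotientGroup.eq_one_iff]
      rw [commutatorElement_def]
      simp only [QuotientGroup.mk_mul, QuotientGroup.mk_inv]
      rw [hcomm (a := ((⟨a, ha⟩ : P) : P ⧸ S.subgroupOf P))]
      group
    rw [mem_subgroupOf] at h2
    exact h2

theorem commutator_sylow_normal
    (h : ∀ y : G, ¬ p ∣ orderOf y → ¬ p ^ 2 ∣ (centralizer ({y} : Set G)).index)
    (P : Sylow p G) : (⁅(P : Subgroup G), (P : Subgroup G)⁆).Normal := by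
  have hp : p.Prime := Fact.out
  rw [← normalizer_eq_top_iff]
  apply eq_top_of_forall_conj_mem
  intro g
  obtain ⟨a, b, hab, ⟨k, hk⟩, hb⟩ := exists_p_decomp p g
  set u := g ^ a with hu
  set y := g ^ b with hy
  have huy : u * y = y * u := by
    rw [hu, hy, ← pow_add, ← pow_add, add_comm]
  set C := centralizer ({y} : Set G) with hC
  have huC : u ∈ C := mem_cent_singleton.2 huy
  -- a Sylow `p`-subgroup of `C` containing `u`
  have hz : IsPGroup p (zpowers (⟨u, huC⟩ : C)) := by
    apply IsPGroup.of_card_dvd_pow (n := k)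
    rw [Nat.card_zpowers]
    apply orderOf_dvd_of_pow_eq_one
    ext
    simpa using hk
  obtain ⟨S, hS⟩ := hz.exists_le_sylow
  set S' : Subgroup G := (S : Subgroup C).map C.subtype with hS'
  have hS'p : IsPGroup p S' := S.2.map _
  have huS' : u ∈ S' := ⟨⟨u, huC⟩, hS (mem_zpowers _), rfl⟩
  have hS'C : S' ≤ C := map_subtype_le _
  obtain ⟨P₁, hP₁⟩ := hS'p.exists_le_sylow
  -- the index of `S'` in `P₁` divides `p`
  have hcardS : Nat.card S' = p ^ (Nat.card C).factorization p := by
    rw [hS', card_map_of_injective C.subtype_injective, S.card_eq_multiplicity]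
  have hcardP : Nat.card P₁ = p ^ (Nat.card G).factorization p := P₁.card_eq_multiplicity
  have hfac : (Nat.card G).factorization p = (Nat.card C).factorization p + C.index.factorization p := by
    rw [← C.card_mul_index, Nat.factorization_mul Nat.card_pos.ne' C.index_ne_zero_of_finite]
    rfl
  have hle : C.index.factorization p ≤ 1 := by
    by_contra hcon
    rw [not_le] at hcon
    apply h y hb
    exact (pow_dvd_pow p hcon).trans (Nat.ordProj_dvd _ _)
  have hrel : S'.relIndex P₁ ∣ p := by
    have h1 : S'.relIndex P₁ * Nat.card S' = Nat.card P₁ := by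
      have := relIndex_mul_relIndex ⊥ S' (P₁ : Subgroup G) bot_le hP₁
      rw [relIndex_bot_left, relIndex_bot_left] at this
      rw [mul_comm]; exact this
    rw [hcardS, hcardP, hfac, pow_add, mul_comm] at h1
    have h2 : S'.relIndex P₁ = p ^ C.index.factorization p :=
      Nat.eq_of_mul_eq_mul_left (pow_pos hp.pos _) h1
    rw [h2]
    calc p ^ C.index.factorization p ∣ p ^ 1 := pow_dvd_pow p hle
      _ = p := pow_one p
  have hcomm : ⁅(P₁ : Subgroup G), (P₁ : Subgroup G)⁆ ≤ S' :=
    commutator_le_of_relIndex_dvd _ _ P₁.2 hP₁ hrel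
  -- `g` normalizes `⁅P₁, P₁⁆`
  have hyN : y ∈ normalizer ((⁅(P₁ : Subgroup G), (P₁ : Subgroup G)⁆ : Subgroup G) : Set G) := by
    rw [mem_normalizer_iff]
    intro x
    have key : ∀ x ∈ ⁅(P₁ : Subgroup G), (P₁ : Subgroup G)⁆, y * x * y⁻¹ = x := by
      intro x hx
      have := mem_cent_singleton.1 (hS'C (hcomm hx))
      rw [← this]; group
    constructor
    · intro hx
      rw [key x hx]; exact hx
    · intro hx
      have h2 := key _ hx
      have h3 : y * x * y⁻¹ = x := by
        have : y * x * y⁻¹ = y⁻¹ * (y * (y * x * y⁻¹) * y⁻¹) * y := by group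
        rw [this, h2]; group
      rwa [h3] at hx
  have huN : u ∈ normalizer ((⁅(P₁ : Subgroup G), (P₁ : Subgroup G)⁆ : Subgroup G) : Set G) := by
    have h1 : (P₁ : Subgroup G) ≤
        normalizer ((⁅(P₁ : Subgroup G), (P₁ : Subgroup G)⁆ : Subgroup G) : Set G) := by
      intro w hw
      rw [mem_normalizer_iff]
      intro x
      have hmap : ∀ w ∈ (P₁ : Subgroup G), ∀ x ∈ ⁅(P₁ : Subgroup G), (P₁ : Subgroup G)⁆,
          w * x * w⁻¹ ∈ ⁅(P₁ : Subgroup G), (P₁ : Subgroup G)⁆ := by
        intro w hw x hx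
        have hxP : x ∈ (P₁ : Subgroup G) := commutator_le_self _ hx
        have : w * x * w⁻¹ = ⁅w, x⁆ * x := by rw [commutatorElement_def]; group
        rw [this]
        exact mul_mem (commutator_mem_commutator hw hxP) hx
      constructor
      · exact hmap w hw x
      · intro hx
        have := hmap w⁻¹ (inv_mem hw) _ hx
        have e : w⁻¹ * (w * x * w⁻¹) * w⁻¹⁻¹ = x := by group
        rwa [e] at this
    exact h1 (hP₁ huS')
  have hgN : g ∈ normalizer ((⁅(P₁ : Subgroup G), (P₁ : Subgroup G)⁆ : Subgroup G) : Set G) := by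
    rw [← hab]; exact mul_mem huN hyN
  -- transport to `P`
  obtain ⟨c, hc⟩ := MulAction.exists_smul_eq G P₁ P
  refine ⟨c, ?_⟩
  have hPc : (P : Subgroup G) = (P₁ : Subgroup G).map (MulAut.conj c).toMonoidHom := by
    rw [← hc]; rfl
  have hcm : ⁅(P : Subgroup G), (P : Subgroup G)⁆ =
      (⁅(P₁ : Subgroup G), (P₁ : Subgroup G)⁆).map (MulAut.conj c).toMonoidHom := by
    rw [hPc, map_commutator]
  rw [hcm, mem_normalizer_iff]
  intro x
  rw [mem_normalizer_iff] at hgN
  have hm : ∀ x : G, x ∈ (⁅(P₁ : Subgroup G), (P₁ : Subgroup G)⁆).map (MulAut.conj c).toMonoidHom ↔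
      c⁻¹ * x * c ∈ ⁅(P₁ : Subgroup G), (P₁ : Subgroup G)⁆ := by
    intro x
    constructor
    · rintro ⟨w, hw, rfl⟩
      have : c⁻¹ * ((MulAut.conj c).toMonoidHom w) * c = w := by
        simp only [MulEquiv.coe_toMonoidHom, MulAut.conj_apply]; group
      rw [this]; exact hw
    · intro hx
      refine ⟨_, hx, ?_⟩
      simp [MulAut.conj_apply, mul_assoc]
  rw [hm, hm, hgN (c⁻¹ * x * c)]
  have : c⁻¹ * (c * g * c⁻¹ * x * (c * g * c⁻¹)⁻¹) * c = g * (c⁻¹ * x * c) * g⁻¹ := by group
  rw [this]

end Cfsg.Agent.Lib.Helper21.SqFree
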