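import Mathlib

set_option autoImplicit false

namespace Cfsg.Agent.Lib.Helper21.DihSyl

open DihedralGroup

section Dih
variable {m : ℕ}

/-- parity on `ZMod m`, `m` even. -/
def par (h : 2 ∣ m) : ZMod m →+* ZMod 2 := ZMod.castHom h (ZMod 2)

/-- the underlying function of the homomorphisms `D_m → Z/2`. -/
def phiFun (h : 2 ∣ m) (a b : ZMod 2) : DihedralGroup m → Multiplicative (ZMod 2)
  | r i => Multiplicative.ofAdd (a * par h i)
  | sr i => Multiplicative.ofAdd (a * par h i + b)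

theorem zmod2_aux1 : ∀ a u v : ZMod 2, a * (u + v) = a * u + a * v := by decide
theorem zmod2_aux2 : ∀ a b u v : ZMod 2, a * (v - u) + b = a * u + (a * v + b) := by decide
theorem zmod2_aux3 : ∀ a b u v : ZMod 2, a * (u + v) + b = a * u + b + a * v := by decide
theorem zmod2_aux4 : ∀ a b u v : ZMod 2, a * (v - u) = a * u + b + (a * v + b) := by decide

/-- the homomorphisms `D_m → Z/2`. -/
def phi (h : 2 ∣ m) (a b : ZMod 2) : DihedralGroup m →* Multiplicative (ZMod 2) :=
  MonoidHom.mk' (phiFun h a b) (by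
    rintro (i | i) (j | j)
    · show Multiplicative.ofAdd (a * par h (i + j)) = Multiplicative.ofAdd (a * par h i) * Multiplicative.ofAdd (a * par h j)
      rw [← ofAdd_add, map_add, zmod2_aux1]
    · show Multiplicative.ofAdd (a * par h (j - i) + b) = Multiplicative.ofAdd (a * par h i) * Multiplicative.ofAdd (a * par h j + b)
      rw [← ofAdd_add, map_sub, zmod2_aux2]
    · show Multiplicative.ofAdd (a * par h (i + j) + b) = Multiplicative.ofAdd (a * par h i + b) * Multiplicative.ofAdd (a * par h j)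
      rw [← ofAdd_add, (par h).map_add, zmod2_aux3]
    · show Multiplicative.ofAdd (a * par h (j - i)) = Multiplicative.ofAdd (a * par h i + b) * Multiplicative.ofAdd (a * par h j + b)
      rw [← ofAdd_add, map_sub, zmod2_aux4])

theorem phi_r (h : 2 ∣ m) (a b : ZMod 2) (i : ZMod m) :
    phi h a b (r i) = Multiplicative.ofAdd (a * par h i) := rfl

theorem phi_sr (h : 2 ∣ m) (a b : ZMod 2) (i : ZMod m) :
    phi h a b (sr i) = Multiplicative.ofAdd (a * par h i + b) := rfl

theorem mem_ker_phi_r (h : 2 ∣ m) (a b : ZMod 2) (i : ZMod m) :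
    r i ∈ (phi h a b).ker ↔ a * par h i = 0 := by
  rw [MonoidHom.mem_ker, phi_r]; exact ofAdd_eq_one

theorem mem_ker_phi_sr (h : 2 ∣ m) (a b : ZMod 2) (i : ZMod m) :
    sr i ∈ (phi h a b).ker ↔ a * par h i + b = 0 := by
  rw [MonoidHom.mem_ker, phi_sr]; exact ofAdd_eq_one

theorem index_ker_phi (h : 2 ∣ m) (a b : ZMod 2) (hab : a ≠ 0 ∨ b ≠ 0) :
    (phi h a b).ker.index = 2 := by
  have hsurj : Function.Surjective (phi h a b) := by
    intro y
    obtain ⟨y, rfl⟩ := Multiplicative.ofAdd.surjective y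
    have hy : y = 0 ∨ y = 1 := by revert y; decide
    rcases hy with rfl | rfl
    · exact ⟨1, map_one _⟩
    · by_cases hb : b = 0
      · have ha : a = 1 := by
          have h0 : a ≠ 0 := by tauto
          have : ∀ a : ZMod 2, a ≠ 0 → a = 1 := by decide
          exact this a h0
        refine ⟨r 1, ?_⟩
        rw [phi_r, ha, map_one]; rfl
      · have hb1 : b = 1 := by
          have : ∀ a : ZMod 2, a ≠ 0 → a = 1 := by decide
          exact this b hb
        refine ⟨sr 0, ?_⟩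
        rw [phi_sr, map_zero, hb1]; rfl
  rw [Subgroup.index_ker, MonoidHom.range_eq_top.mpr hsurj]
  simp [Nat.card_eq_fintype_card]

theorem cases_parity [NeZero m] (h : 2 ∣ m) (i : ZMod m) :
    (par h i = 0 ∧ ∃ q : ZMod m, i = q + q) ∨ (par h i = 1 ∧ ∃ q : ZMod m, i = q + q + 1) := by
  have hi : ((i.val : ℕ) : ZMod m) = i := ZMod.natCast_zmod_val i
  rcases Nat.even_or_odd' i.val with ⟨q, hq | hq⟩
  · left
    have e : i = (q : ZMod m) + q := by
      rw [← hi, hq]; push_cast; ring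
    refine ⟨?_, q, e⟩
    rw [e, map_add]
    generalize par h (q : ZMod m) = u
    revert u; decide
  · right
    have e : i = (q : ZMod m) + q + 1 := by
      rw [← hi, hq]; push_cast; ring
    refine ⟨?_, q, e⟩
    rw [e, map_add, map_add, map_one]
    generalize par h (q : ZMod m) = u
    revert u; decide

theorem conj_sr (q i : ZMod m) : r (-q) * sr i * (r (-q))⁻¹ = sr (q + q + i) := by
  simp only [inv_r, r_mul_sr, sr_mul_r, neg_neg]
  congr 1; ring

theorem half_add_half (k : ℕ) (hm : m = 2 * k) : ((k : ZMod m) + k) = 0 := by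
  have : ((2 * k : ℕ) : ZMod m) = 0 := by rw [← hm]; exact ZMod.natCast_self m
  rw [← this]; push_cast; ring

theorem eq_half_of_add_self [NeZero m] (k : ℕ) (hm : m = 2 * k) (i : ZMod m) (hi : i + i = 0) (h0 : i ≠ 0) :
    i = (k : ZMod m) := by
  have hv : ((i.val : ℕ) : ZMod m) = i := ZMod.natCast_zmod_val i
  have h1 : ((i.val + i.val : ℕ) : ZMod m) = 0 := by push_cast; rw [hv]; exact hi
  rw [ZMod.natCast_eq_zero_iff] at h1
  have h2 : i.val < m := ZMod.val_lt i
  have h3 : i.val ≠ 0 := by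
    intro e; apply h0; rw [← hv, e]; simp
  obtain ⟨c, hc⟩ := h1
  have hc1 : c = 1 := by
    have : c < 2 := by
      by_contra hcon
      push Not at hcon
      have : m * 2 ≤ m * c := Nat.mul_le_mul_left m hcon
      omega
    have : c ≠ 0 := by rintro rfl; omega
    omega
  subst hc1
  have : i.val = k := by omega
  rw [← hv, this]

theorem invol_cases [NeZero m] (k : ℕ) (hm : m = 2 * k) (d : DihedralGroup m) (hd : orderOf d = 2) :
    d = r (k : ZMod m) ∨ ∃ i, d = sr i := by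
  rcases d with i | i
  · left
    have h1 : r i * r i = 1 := by rw [← pow_two, ← hd]; exact pow_orderOf_eq_one _
    have h2 : r i ≠ 1 := by
      intro e; rw [e, orderOf_one] at hd; omega
    rw [r_mul_r, one_def] at h1
    have h1' : i + i = 0 := by injection h1
    have h2' : i ≠ 0 := by rintro rfl; exact h2 rfl
    rw [eq_half_of_add_self k hm i h1' h2']
  · right; exact ⟨i, rfl⟩

theorem orderOf_half [NeZero m] (k : ℕ) (hm : m = 2 * k) : orderOf (r (k : ZMod m)) = 2 := by
  have hk : k ≠ 0 := by rintro rfl; exact NeZero.ne m (by omega)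
  apply orderOf_eq_prime
  · rw [pow_two, r_mul_r, half_add_half k hm]; rfl
  · intro e
    rw [one_def] at e
    have e' : (k : ZMod m) = 0 := by injection e
    rw [ZMod.natCast_eq_zero_iff] at e'
    have := Nat.le_of_dvd (Nat.pos_of_ne_zero hk) e'
    omega

theorem half_central (k : ℕ) (hm : m = 2 * k) (d : DihedralGroup m) :
    d * r (k : ZMod m) = r (k : ZMod m) * d := by
  have h := half_add_half k hm
  rcases d with i | i
  · simp only [r_mul_r]; congr 1; ring
  · simp only [r_mul_sr, sr_mul_r]; congr 1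
    have : (k : ZMod m) = -k := by rw [eq_neg_iff_add_eq_zero]; exact h
    rw [sub_eq_add_neg, ← this]

end Dih

section Emb

variable {X : Type*} [Group X] {m : ℕ}

/-- the embedding of the dihedral group with image `S`. -/
def emb (S : Subgroup X) (eS : S ≃* DihedralGroup m) : DihedralGroup m →* X :=
  S.subtype.comp eS.symm.toMonoidHom

theorem emb_injective (S : Subgroup X) (eS : S ≃* DihedralGroup m) :
    Function.Injective (emb S eS) :=
  S.subtype_injective.comp eS.symm.injective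

theorem emb_mem (S : Subgroup X) (eS : S ≃* DihedralGroup m) (d : DihedralGroup m) :
    emb S eS d ∈ S := (eS.symm d).2

theorem exists_emb (S : Subgroup X) (eS : S ≃* DihedralGroup m) {x : X} (hx : x ∈ S) :
    ∃ d, emb S eS d = x := ⟨eS ⟨x, hx⟩, by simp [emb]⟩

theorem map_emb_top (S : Subgroup X) (eS : S ≃* DihedralGroup m) :
    (⊤ : Subgroup (DihedralGroup m)).map (emb S eS) = S := by
  ext x
  constructor
  · rintro ⟨d, -, rfl⟩; exact emb_mem S eS d
  · intro hx
    obtain ⟨d, rfl⟩ := exists_emb S eS hx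
    exact ⟨d, trivial, rfl⟩

theorem orderOf_emb (S : Subgroup X) (eS : S ≃* DihedralGroup m) (d : DihedralGroup m) :
    orderOf (emb S eS d) = orderOf d :=
  orderOf_injective _ (emb_injective S eS) d

/-- The data of a dihedral subgroup `S` of order `2m`, `m` even: central involution `z`,
noncentral involutions `s`, `t`, the three maximal subgroups `R` (cyclic), `Q1 ∋ s`, `Q2 ∋ t`. -/
structure Pkg (S : Subgroup X) (z s t : X) (R Q1 Q2 : Subgroup X) : Prop where
  z_mem : z ∈ S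
  s_mem : s ∈ S
  t_mem : t ∈ S
  oz : orderOf z = 2
  os : orderOf s = 2
  ot : orderOf t = 2
  z_comm : ∀ x ∈ S, x * z = z * x
  R_le : R ≤ S
  Q1_le : Q1 ≤ S
  Q2_le : Q2 ≤ S
  R_idx : R.relIndex S = 2
  Q1_idx : Q1.relIndex S = 2
  Q2_idx : Q2.relIndex S = 2
  z_mem_R : z ∈ R
  s_nmem_R : s ∉ R
  t_nmem_R : t ∉ R
  s_mem_Q1 : s ∈ Q1
  t_nmem_Q1 : t ∉ Q1
  t_mem_Q2 : t ∈ Q2
  s_nmem_Q2 : s ∉ Q2
  R_invol : ∀ x ∈ R, orderOf x = 2 → x = z
  nR_invol : ∀ x ∈ S, x ∉ R → orderOf x = 2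
  nR_Q1 : ∀ x ∈ Q1, x ∉ R → ∃ u ∈ S, u * s * u⁻¹ = x
  nR_Q2 : ∀ x ∈ Q2, x ∉ R → ∃ u ∈ S, u * t * u⁻¹ = x
  nR_cases : ∀ x ∈ S, x ∉ R → x ∈ Q1 ∨ x ∈ Q2
  mul_mem_R : ∀ a ∈ S, ∀ b ∈ S, a ∉ R → b ∉ R → a * b ∈ R
  R_norm : ∀ u ∈ S, ∀ x ∈ R, u * x * u⁻¹ ∈ R
  Q1_norm : ∀ u ∈ S, ∀ x ∈ Q1, u * x * u⁻¹ ∈ Q1
  Q2_norm : ∀ u ∈ S, ∀ x ∈ Q2, u * x * u⁻¹ ∈ Q2
  R_comm : ∀ a ∈ R, ∀ b ∈ R, a * b = b * a
  R_inv : ∀ a ∈ S, a ∉ R → ∀ x ∈ R, a * x * a⁻¹ = x⁻¹
  gen : S ≤ Subgroup.closure {s, t}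

theorem relIndex_map_ker (S : Subgroup X) (eS : S ≃* DihedralGroup m) (h : 2 ∣ m) (a b : ZMod 2)
    (hab : a ≠ 0 ∨ b ≠ 0) : ((phi h a b).ker.map (emb S eS)).relIndex S = 2 := by
  have h1 := Subgroup.relIndex_map_map_of_injective (phi h a b).ker ⊤ (emb_injective S eS)
  rw [map_emb_top S eS, Subgroup.relIndex_top_right, index_ker_phi h a b hab] at h1
  exact h1

theorem emb_mem_map_iff (S : Subgroup X) (eS : S ≃* DihedralGroup m) (K : Subgroup (DihedralGroup m))
    (d : DihedralGroup m) : emb S eS d ∈ K.map (emb S eS) ↔ d ∈ K :=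
  Subgroup.mem_map_iff_mem (emb_injective S eS)

theorem map_emb_le (S : Subgroup X) (eS : S ≃* DihedralGroup m) (K : Subgroup (DihedralGroup m)) :
    K.map (emb S eS) ≤ S := by
  rintro _ ⟨d, -, rfl⟩; exact emb_mem S eS d

theorem map_ker_norm (S : Subgroup X) (eS : S ≃* DihedralGroup m) (h : 2 ∣ m) (a b : ZMod 2) :
    ∀ u ∈ S, ∀ x ∈ (phi h a b).ker.map (emb S eS), u * x * u⁻¹ ∈ (phi h a b).ker.map (emb S eS) := by
  intro u hu x hx
  obtain ⟨d, rfl⟩ := exists_emb S eS hu
  obtain ⟨e, he, rfl⟩ := hx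
  rw [← map_inv, ← map_mul, ← map_mul, emb_mem_map_iff]
  exact (MonoidHom.normal_ker _).conj_mem e he d

theorem pkg [NeZero m] (S : Subgroup X) (eS : S ≃* DihedralGroup m) (k : ℕ) (hm : m = 2 * k) :
    Pkg S (emb S eS (r (k : ZMod m))) (emb S eS (sr 0)) (emb S eS (sr 1))
      ((phi ⟨k, hm⟩ 0 1).ker.map (emb S eS)) ((phi ⟨k, hm⟩ 1 0).ker.map (emb S eS))
      ((phi ⟨k, hm⟩ 1 1).ker.map (emb S eS)) where
  z_mem := emb_mem _ _ _
  s_mem := emb_mem _ _ _
  t_mem := emb_mem _ _ _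
  oz := by rw [orderOf_emb, orderOf_half k hm]
  os := by rw [orderOf_emb, orderOf_sr]
  ot := by rw [orderOf_emb, orderOf_sr]
  z_comm := by
    intro x hx
    obtain ⟨d, rfl⟩ := exists_emb S eS hx
    rw [← map_mul, ← map_mul, half_central k hm]
  R_le := map_emb_le _ _ _
  Q1_le := map_emb_le _ _ _
  Q2_le := map_emb_le _ _ _
  R_idx := relIndex_map_ker _ _ _ _ _ (by decide)
  Q1_idx := relIndex_map_ker _ _ _ _ _ (by decide)
  Q2_idx := relIndex_map_ker _ _ _ _ _ (by decide)
  z_mem_R := by rw [emb_mem_map_iff, mem_ker_phi_r]; simp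
  s_nmem_R := by rw [emb_mem_map_iff, mem_ker_phi_sr]; simp
  t_nmem_R := by rw [emb_mem_map_iff, mem_ker_phi_sr]; simp
  s_mem_Q1 := by rw [emb_mem_map_iff, mem_ker_phi_sr]; simp
  t_nmem_Q1 := by rw [emb_mem_map_iff, mem_ker_phi_sr]; simp
  t_mem_Q2 := by rw [emb_mem_map_iff, mem_ker_phi_sr, map_one]; decide
  s_nmem_Q2 := by rw [emb_mem_map_iff, mem_ker_phi_sr]; simp
  R_invol := by
    rintro _ ⟨d, hd, rfl⟩ ho
    rw [orderOf_emb] at ho
    rcases invol_cases k hm d ho with rfl | ⟨i, rfl⟩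
    · rfl
    · exfalso
      have := (mem_ker_phi_sr _ _ _ _).mp hd
      simp at this
  nR_invol := by
    intro x hx hxR
    obtain ⟨d, rfl⟩ := exists_emb S eS hx
    rw [emb_mem_map_iff] at hxR
    rw [orderOf_emb]
    rcases d with i | i
    · exfalso; apply hxR; rw [mem_ker_phi_r]; simp
    · exact orderOf_sr i
  nR_Q1 := by
    rintro _ ⟨d, hd, rfl⟩ hxR
    rw [emb_mem_map_iff] at hxR
    rcases d with i | i
    · exfalso; apply hxR; rw [mem_ker_phi_r]; simp
    · have h1 := (mem_ker_phi_sr _ _ _ _).mp hd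
      rcases cases_parity ⟨k, hm⟩ i with ⟨h2, q, hq⟩ | ⟨h2, q, hq⟩
      · refine ⟨emb S eS (r (-q)), emb_mem _ _ _, ?_⟩
        rw [← map_inv, ← map_mul, ← map_mul, conj_sr, hq, add_zero]
      · rw [h2] at h1; exact absurd h1 (by decide)
  nR_Q2 := by
    rintro _ ⟨d, hd, rfl⟩ hxR
    rw [emb_mem_map_iff] at hxR
    rcases d with i | i
    · exfalso; apply hxR; rw [mem_ker_phi_r]; simp
    · have h1 := (mem_ker_phi_sr _ _ _ _).mp hd
      rcases cases_parity ⟨k, hm⟩ i with ⟨h2, q, hq⟩ | ⟨h2, q, hq⟩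
      · rw [h2] at h1; exact absurd h1 (by decide)
      · refine ⟨emb S eS (r (-q)), emb_mem _ _ _, ?_⟩
        rw [← map_inv, ← map_mul, ← map_mul, conj_sr, hq]
  nR_cases := by
    intro x hx hxR
    obtain ⟨d, rfl⟩ := exists_emb S eS hx
    rw [emb_mem_map_iff] at hxR
    rw [emb_mem_map_iff, emb_mem_map_iff]
    rcases d with i | i
    · exfalso; apply hxR; rw [mem_ker_phi_r]; simp
    · rw [mem_ker_phi_sr, mem_ker_phi_sr]
      generalize par _ i = u
      revert u; decide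
  mul_mem_R := by
    intro a ha b hb haR hbR
    obtain ⟨d, rfl⟩ := exists_emb S eS ha
    obtain ⟨e, rfl⟩ := exists_emb S eS hb
    rw [emb_mem_map_iff] at haR hbR
    rw [← map_mul, emb_mem_map_iff]
    rcases d with i | i
    · exfalso; apply haR; rw [mem_ker_phi_r]; simp
    rcases e with j | j
    · exfalso; apply hbR; rw [mem_ker_phi_r]; simp
    rw [sr_mul_sr, mem_ker_phi_r]; simp
  R_norm := map_ker_norm _ _ _ _ _
  Q1_norm := map_ker_norm _ _ _ _ _
  Q2_norm := map_ker_norm _ _ _ _ _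
  R_comm := by
    rintro _ ⟨d, hd, rfl⟩ _ ⟨e, he, rfl⟩
    rw [← map_mul, ← map_mul]
    rcases d with i | i
    swap
    · exfalso
      have := (mem_ker_phi_sr _ _ _ _).mp hd
      simp at this
    rcases e with j | j
    swap
    · exfalso
      have := (mem_ker_phi_sr _ _ _ _).mp he
      simp at this
    rw [r_mul_r, r_mul_r, add_comm]
  R_inv := by
    intro a ha haR
    rintro _ ⟨e, he, rfl⟩
    obtain ⟨d, rfl⟩ := exists_emb S eS ha
    rw [emb_mem_map_iff] at haR
    rw [← map_inv, ← map_mul, ← map_mul, ← map_inv]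
    rcases d with i | i
    · exfalso; apply haR; rw [mem_ker_phi_r]; simp
    rcases e with j | j
    swap
    · exfalso
      have := (mem_ker_phi_sr _ _ _ _).mp he
      simp at this
    congr 1
    simp
  gen := by
    intro x hx
    obtain ⟨d, rfl⟩ := exists_emb S eS hx
    have hs : emb S eS (sr 0) ∈ Subgroup.closure {emb S eS (sr 0), emb S eS (sr 1)} :=
      Subgroup.subset_closure (by simp)
    have ht : emb S eS (sr 1) ∈ Subgroup.closure {emb S eS (sr 0), emb S eS (sr 1)} :=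
      Subgroup.subset_closure (by simp)
    have hr1 : emb S eS (r 1) ∈ Subgroup.closure {emb S eS (sr 0), emb S eS (sr 1)} := by
      have : (r 1 : DihedralGroup m) = sr 0 * sr 1 := by simp
      rw [this, map_mul]; exact Subgroup.mul_mem _ hs ht
    have hr : ∀ i : ZMod m, emb S eS (r i) ∈ Subgroup.closure {emb S eS (sr 0), emb S eS (sr 1)} := by
      intro i
      have : (r i : DihedralGroup m) = (r 1) ^ i.val := by
        rw [r_one_pow, ZMod.natCast_zmod_val]
      rw [this, map_pow]; exact Subgroup.pow_mem _ hr1 _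
    rcases d with i | i
    · exact hr i
    · have : (sr i : DihedralGroup m) = sr 0 * r i := by simp
      rw [this, map_mul]; exact Subgroup.mul_mem _ hs (hr i)

end Emb

end Cfsg.Agent.Lib.Helper21.DihSyl
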