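import Mathlib
import Cfsg.Agent.Lib.Helper21.DihSylow
import Cfsg.Agent.Lib.Helper90.FourGroup
import Cfsg.Agent.Lib.Helper4.KleinSylow
import Cfsg.Agent.S0111

set_option autoImplicit false

namespace Cfsg.Agent.Lib.Helper21.DihSyl

open Cfsg.Agent.Lib.Helper90 (Four fourSubgroup)
open Cfsg.Agent.Lib.Helper4 (klein_orderOf klein_comm klein_third exists_conj_le_sylow)

variable {X : Type*} [Group X]

theorem orderOf_conj (g x : X) : orderOf (g * x * g⁻¹) = orderOf x :=
  MulEquiv.orderOf_eq (MulAut.conj g) x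

theorem sq_of_order_two {x : X} (h : orderOf x = 2) : x * x = 1 := by
  rw [← pow_two, ← h]; exact pow_orderOf_eq_one x

theorem ne_one_of_order_two {x : X} (h : orderOf x = 2) : x ≠ 1 := by
  rintro rfl; rw [orderOf_one] at h; omega

theorem inv_of_order_two {x : X} (h : orderOf x = 2) : x⁻¹ = x :=
  inv_eq_of_mul_eq_one_right (sq_of_order_two h)

theorem exists_conj_mem_sylow [Finite X] (S : Sylow 2 X) {x : X} (hx : orderOf x = 2) :
    ∃ g : X, g * x * g⁻¹ ∈ S := by
  have : Fact (Nat.Prime 2) := ⟨Nat.prime_two⟩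
  have hp : IsPGroup 2 (Subgroup.zpowers x) := by
    apply IsPGroup.of_card (n := 1)
    rw [Nat.card_zpowers, hx, pow_one]
  obtain ⟨g, hg⟩ := exists_conj_le_sylow S hp
  exact ⟨g, hg x (Subgroup.mem_zpowers x)⟩

section PkgLemmas

variable {S : Subgroup X} {z s t : X} {R Q1 Q2 : Subgroup X}

theorem Pkg.swap (h : Pkg S z s t R Q1 Q2) : Pkg S z t s R Q2 Q1 where
  z_mem := h.z_mem
  s_mem := h.t_mem
  t_mem := h.s_mem
  oz := h.oz
  os := h.ot
  ot := h.os
  z_comm := h.z_comm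
  R_le := h.R_le
  Q1_le := h.Q2_le
  Q2_le := h.Q1_le
  R_idx := h.R_idx
  Q1_idx := h.Q2_idx
  Q2_idx := h.Q1_idx
  z_mem_R := h.z_mem_R
  s_nmem_R := h.t_nmem_R
  t_nmem_R := h.s_nmem_R
  s_mem_Q1 := h.t_mem_Q2
  t_nmem_Q1 := h.s_nmem_Q2
  t_mem_Q2 := h.s_mem_Q1
  s_nmem_Q2 := h.t_nmem_Q1
  R_invol := h.R_invol
  nR_invol := h.nR_invol
  nR_Q1 := h.nR_Q2
  nR_Q2 := h.nR_Q1
  nR_cases := fun x hx hxR => (h.nR_cases x hx hxR).symm
  mul_mem_R := h.mul_mem_R
  R_norm := h.R_norm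
  Q1_norm := h.Q2_norm
  Q2_norm := h.Q1_norm
  R_comm := h.R_comm
  R_inv := h.R_inv
  gen := by
    have : ({t, s} : Set X) = {s, t} := Set.pair_comm t s
    rw [this]; exact h.gen

theorem Pkg.nR_conj (h : Pkg S z s t R Q1 Q2) {x : X} (hx : x ∈ S) (hxR : x ∉ R) :
    (∃ u ∈ S, u * s * u⁻¹ = x) ∨ (∃ u ∈ S, u * t * u⁻¹ = x) := by
  rcases h.nR_cases x hx hxR with h1 | h1
  · exact Or.inl (h.nR_Q1 x h1 hxR)
  · exact Or.inr (h.nR_Q2 x h1 hxR)

theorem Pkg.invol_cases (h : Pkg S z s t R Q1 Q2) {x : X} (hx : x ∈ S) (ho : orderOf x = 2) :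
    x = z ∨ (∃ u ∈ S, u * s * u⁻¹ = x) ∨ (∃ u ∈ S, u * t * u⁻¹ = x) := by
  by_cases hxR : x ∈ R
  · exact Or.inl (h.R_invol x hxR ho)
  · exact Or.inr (h.nR_conj hx hxR)

theorem Pkg.z_ne_s (h : Pkg S z s t R Q1 Q2) : z ≠ s := by
  intro e; exact h.s_nmem_R (e ▸ h.z_mem_R)

theorem Pkg.zs_nmem_R (h : Pkg S z s t R Q1 Q2) {a : X} (ha : a ∉ R) : z * a ∉ R := by
  intro hc
  apply ha
  have := R.mul_mem (R.inv_mem h.z_mem_R) hc
  simpa using this

/-- a four-subgroup of `S` contains `z`. -/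
theorem Pkg.z_mem_of_four (h : Pkg S z s t R Q1 Q2) {U : Subgroup X} (hUS : U ≤ S)
    (hU : IsKleinFour U) : z ∈ U := by
  by_contra hz
  have : Finite U := IsKleinFour.instFinite
  have hnR : ∀ x ∈ U, x ≠ 1 → x ∉ R := by
    intro x hx hx1 hxR
    apply hz
    rw [← h.R_invol x hxR (klein_orderOf hU hx hx1)]; exact hx
  -- two distinct nonidentity elements
  have hcard : Nat.card U = 4 := hU.card_four
  have h1 : ∃ a : U, a ≠ 1 := by
    by_contra hcon
    push Not at hcon
    have : Subsingleton U := ⟨fun a b => by rw [hcon a, hcon b]⟩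
    have := Nat.card_eq_one_iff_unique.mpr ⟨this, ⟨1⟩⟩
    omega
  obtain ⟨a, ha⟩ := h1
  have h2 : ∃ b : U, b ≠ 1 ∧ b ≠ a := by
    by_contra hcon
    push Not at hcon
    classical
    have := Fintype.ofFinite U
    have : (Finset.univ : Finset U) ⊆ {1, a} := by
      intro b _
      by_cases hb : b = 1
      · simp [hb]
      · simp [hcon b hb]
    have h3 := Finset.card_le_card this
    have h4 : ({1, a} : Finset U).card ≤ 2 := Finset.card_le_two
    rw [Finset.card_univ, ← Nat.card_eq_fintype_card] at h3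
    omega
  obtain ⟨b, hb1, hba⟩ := h2
  have ha1 : (a : X) ≠ 1 := fun e => ha (Subtype.ext e)
  have hb1' : (b : X) ≠ 1 := fun e => hb1 (Subtype.ext e)
  have hab : (a : X) * b ∈ R :=
    h.mul_mem_R a (hUS a.2) b (hUS b.2) (hnR a a.2 ha1) (hnR b b.2 hb1')
  have hab1 : (a : X) * b ≠ 1 := by
    intro e
    apply hba
    apply Subtype.ext
    have h5 : (a : X) * a = 1 := sq_of_order_two (klein_orderOf hU a.2 ha1)
    calc (b : X) = (a * a) * b := by rw [h5, one_mul]
      _ = a * (a * b) := by group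
      _ = a := by rw [e, mul_one]
  exact hnR _ (U.mul_mem a.2 b.2) hab1 hab

theorem four_of_isKleinFour {U : Subgroup X} (hU : IsKleinFour U) {z a : X} (hz : z ∈ U)
    (ha : a ∈ U) (hz1 : z ≠ 1) (ha1 : a ≠ 1) (hza : z ≠ a) : Four U z a where
  z_ne := hz1
  s_ne := ha1
  zs_ne := hza
  z_sq := sq_of_order_two (klein_orderOf hU hz hz1)
  s_sq := sq_of_order_two (klein_orderOf hU ha ha1)
  comm := klein_comm hU hz ha
  mem := by
    intro v
    constructor
    · intro hv
      by_cases h1 : v = 1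
      · exact Or.inl h1
      by_cases h2 : v = z
      · exact Or.inr (Or.inl h2)
      by_cases h3 : v = a
      · exact Or.inr (Or.inr (Or.inl h3))
      exact Or.inr (Or.inr (Or.inr (klein_third hU hz ha hv hz1 ha1 hza h1 h2 h3)))
    · rintro (rfl | rfl | rfl | rfl)
      · exact U.one_mem
      · exact hz
      · exact ha
      · exact U.mul_mem hz ha

theorem Four.isKleinFour {U : Subgroup X} {z a : X} (h : Four U z a) : IsKleinFour U := by
  classical
  have hset : (U : Set X) = ((({1, z, a, z * a} : Finset X)) : Set X) := by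
    ext v
    simp only [SetLike.mem_coe, h.mem v, Finset.coe_insert, Finset.coe_singleton,
      Set.mem_insert_iff, Set.mem_singleton_iff]
  have hza1 : z * a ≠ 1 := by
    intro e
    apply h.zs_ne
    calc z = z * (a * a) := by rw [h.s_sq, mul_one]
      _ = (z * a) * a := by group
      _ = a := by rw [e, one_mul]
  have hcard : Nat.card U = 4 := by
    have : Nat.card U = Nat.card ((({1, z, a, z * a} : Finset X)) : Set X) := by
      rw [← hset]; rfl
    rw [this, Nat.card_coe_set_eq, Set.ncard_coe_finset]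
    rw [Finset.card_insert_of_notMem, Finset.card_insert_of_notMem, Finset.card_insert_of_notMem,
      Finset.card_singleton]
    · simp only [Finset.mem_singleton]
      intro e
      exact h.z_ne (by simpa using e.symm)
    · simp only [Finset.mem_insert, Finset.mem_singleton, not_or]
      refine ⟨h.zs_ne, ?_⟩
      intro e
      exact h.s_ne (by simpa using e.symm)
    · simp only [Finset.mem_insert, Finset.mem_singleton, not_or]
      exact ⟨h.z_ne.symm, h.s_ne.symm, hza1.symm⟩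
  refine ⟨hcard, ?_⟩
  have hsq : ∀ x : U, x ^ 2 = 1 := by
    rintro ⟨x, hx⟩
    apply Subtype.ext
    show x ^ 2 = 1
    rw [pow_two]
    rcases (h.mem x).mp hx with rfl | rfl | rfl | rfl
    · simp
    · exact h.z_sq
    · exact h.s_sq
    · calc z * a * (z * a) = z * (a * z) * a := by group
        _ = z * (z * a) * a := by rw [h.comm]
        _ = (z * z) * (a * a) := by group
        _ = 1 := by rw [h.z_sq, h.s_sq, one_mul]
  have hd : Monoid.exponent U ∣ 2 := Monoid.exponent_dvd_of_forall_pow_eq_one hsq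
  rcases (Nat.dvd_prime Nat.prime_two).mp hd with h1 | h1
  · exfalso
    have : Subsingleton U := Monoid.exp_eq_one_iff.mp h1
    have := Nat.card_eq_one_iff_unique.mpr ⟨this, ⟨1⟩⟩
    omega
  · exact h1

/-- a four-subgroup of `S` is `{1, z, a, za}` with `a` a reflection. -/
theorem Pkg.exists_four (h : Pkg S z s t R Q1 Q2) {U : Subgroup X} (hUS : U ≤ S)
    (hU : IsKleinFour U) : ∃ a ∈ U, a ∉ R ∧ Four U z a := by
  have hz := h.z_mem_of_four hUS hU
  have : Finite U := IsKleinFour.instFinite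
  have hcard : Nat.card U = 4 := hU.card_four
  have h2 : ∃ b : U, b ≠ 1 ∧ b ≠ ⟨z, hz⟩ := by
    by_contra hcon
    push Not at hcon
    classical
    have := Fintype.ofFinite U
    have : (Finset.univ : Finset U) ⊆ {1, ⟨z, hz⟩} := by
      intro b _
      by_cases hb : b = 1
      · simp [hb]
      · simp [hcon b hb]
    have h3 := Finset.card_le_card this
    have h4 : ({1, ⟨z, hz⟩} : Finset U).card ≤ 2 := Finset.card_le_two
    rw [Finset.card_univ, ← Nat.card_eq_fintype_card] at h3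
    omega
  obtain ⟨b, hb1, hbz⟩ := h2
  have hb1' : (b : X) ≠ 1 := fun e => hb1 (Subtype.ext e)
  have hbz' : z ≠ (b : X) := fun e => hbz (Subtype.ext e.symm)
  refine ⟨b, b.2, ?_, four_of_isKleinFour hU hz b.2 (ne_one_of_order_two h.oz) hb1' hbz'⟩
  intro hbR
  exact hbz' (h.R_invol b hbR (klein_orderOf hU b.2 hb1')).symm

/-- the four-subgroup `{1, z, a, za}` of `S`, `a` a reflection. -/
theorem Pkg.four_of_nR (h : Pkg S z s t R Q1 Q2) {a : X} (ha : a ∈ S) (haR : a ∉ R) :
    ∃ U : Subgroup X, U ≤ S ∧ IsKleinFour U ∧ Four U z a := by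
  have hzz := sq_of_order_two h.oz
  have haa := sq_of_order_two (h.nR_invol a ha haR)
  have hc := h.z_comm a ha
  have hza : z ≠ a := fun e => haR (e ▸ h.z_mem_R)
  have hF : Four (fourSubgroup z a hzz haa hc) z a :=
    Four.of_le _ z a (ne_one_of_order_two h.oz) (ne_one_of_order_two (h.nR_invol a ha haR)) hza
      hzz haa hc.symm (Or.inr (Or.inl rfl)) (Or.inr (Or.inr (Or.inl rfl))) le_rfl
  refine ⟨_, ?_, Four.isKleinFour hF, hF⟩
  rintro v (rfl | rfl | rfl | rfl)
  · exact S.one_mem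
  · exact h.z_mem
  · exact ha
  · exact S.mul_mem h.z_mem ha

end PkgLemmas

section SylowPkg

variable [Finite X] {S : Sylow 2 X} {z s t : X} {R Q1 Q2 : Subgroup X}

theorem Pkg.isConj_cases (h : Pkg (S : Subgroup X) z s t R Q1 Q2) {x : X} (ho : orderOf x = 2) :
    IsConj x z ∨ IsConj x s ∨ IsConj x t := by
  obtain ⟨g, hg⟩ := exists_conj_mem_sylow S ho
  have ho' : orderOf (g * x * g⁻¹) = 2 := by rw [orderOf_conj, ho]
  rcases h.invol_cases hg ho' with h1 | ⟨u, -, h1⟩ | ⟨u, -, h1⟩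
  · exact Or.inl (isConj_iff.mpr ⟨g, h1⟩)
  · right; left
    exact (isConj_iff.mpr ⟨g, rfl⟩).trans (isConj_iff.mpr ⟨u, h1⟩).symm
  · right; right
    exact (isConj_iff.mpr ⟨g, rfl⟩).trans (isConj_iff.mpr ⟨u, h1⟩).symm

/-- Thompson transfer with respect to the cyclic maximal subgroup. -/
theorem Pkg.transfer_R (h : Pkg (S : Subgroup X) z s t R Q1 Q2) {a : X} (ha : a ∈ S) (haR : a ∉ R) :
    (∃ M : Subgroup X, M.Normal ∧ M.index = 2 ∧ a ∉ M) ∨ IsConj a z := by
  rcases Cfsg.Agent.S0111.result S R h.R_le h.R_idx a (h.nR_invol a ha haR) ha haR with h1 | ⟨g, hg⟩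
  · exact Or.inl h1
  · right
    have ho' : orderOf (g * a * g⁻¹) = 2 := by rw [orderOf_conj, h.nR_invol a ha haR]
    exact isConj_iff.mpr ⟨g, h.R_invol _ hg ho'⟩

/-- Thompson transfer with respect to the maximal subgroup `Q1`. -/
theorem Pkg.transfer_Q1 (h : Pkg (S : Subgroup X) z s t R Q1 Q2) :
    (∃ M : Subgroup X, M.Normal ∧ M.index = 2 ∧ t ∉ M) ∨ IsConj t z ∨ IsConj t s := by
  rcases Cfsg.Agent.S0111.result S Q1 h.Q1_le h.Q1_idx t h.ot h.t_mem h.t_nmem_Q1 with h1 | ⟨g, hg⟩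
  · exact Or.inl h1
  · right
    have ho' : orderOf (g * t * g⁻¹) = 2 := by rw [orderOf_conj, h.ot]
    by_cases hR : g * t * g⁻¹ ∈ R
    · exact Or.inl (isConj_iff.mpr ⟨g, h.R_invol _ hR ho'⟩)
    · obtain ⟨u, -, hu⟩ := h.nR_Q1 _ hg hR
      exact Or.inr ((isConj_iff.mpr ⟨g, rfl⟩).trans (isConj_iff.mpr ⟨u, hu⟩).symm)

omit [Finite X] in
theorem mem_of_isConj {N : Subgroup X} [N.Normal] {a b : X} (hab : IsConj a b) (ha : a ∈ N) :
    b ∈ N := by
  obtain ⟨g, rfl⟩ := isConj_iff.mp hab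
  exact Subgroup.Normal.conj_mem inferInstance a ha g

/-- if all involutions are fused there is no normal subgroup of index 2. -/
theorem Pkg.no_index_two (h : Pkg (S : Subgroup X) z s t R Q1 Q2) (hs : IsConj s z)
    (ht : IsConj t z) (N : Subgroup X) (hN : N.Normal) : N.index ≠ 2 := by
  intro hidx
  have : Fact (Nat.Prime 2) := ⟨Nat.prime_two⟩
  have hzN : z ∈ N := by
    by_contra hz
    have hsN : s ∉ N := fun hc => hz (mem_of_isConj hs hc)
    have hzs : z * s ∈ N := (Subgroup.mul_mem_iff_of_index_two hidx).mpr (by tauto)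
    have hzsS : z * s ∈ (S : Subgroup X) := Subgroup.mul_mem _ h.z_mem h.s_mem
    rcases h.nR_conj hzsS (h.zs_nmem_R h.s_nmem_R) with ⟨u, -, hu⟩ | ⟨u, -, hu⟩
    · exact hsN (mem_of_isConj (isConj_iff.mpr ⟨u, hu⟩).symm hzs)
    · exact hz (mem_of_isConj ((isConj_iff.mpr ⟨u, hu⟩).symm.trans ht) hzs)
  have hsN : s ∈ N := mem_of_isConj hs.symm hzN
  have htN : t ∈ N := mem_of_isConj ht.symm hzN
  have hSN : (S : Subgroup X) ≤ N := by
    refine h.gen.trans ?_
    rw [Subgroup.closure_le]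
    rintro x (rfl | rfl)
    · exact hsN
    · exact htN
  have h1 : N.index ∣ (S : Subgroup X).index := Subgroup.index_dvd_of_le hSN
  rw [hidx] at h1
  exact S.not_dvd_index h1

end SylowPkg

section Misc

theorem perm3_aux : ∀ σ : Equiv.Perm (Fin 3), σ ^ 3 = 1 → σ ≠ 1 → σ 0 = 1 ∨ σ 1 = 0 := by decide

/-- if `3` divides `|N(U):C(U)|` the involutions of the four-group `U` are fused. -/
theorem isConj_of_three_dvd [Finite X] {U : Subgroup X} {z a : X} (h : Four U z a)
    (h3 : 3 ∣ (Subgroup.centralizer (U : Set X)).relIndex (Subgroup.normalizer (U : Set X))) :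
    IsConj a z := by
  have : Fact (Nat.Prime 3) := ⟨Nat.prime_three⟩
  have h1 : (Subgroup.centralizer (U : Set X)).relIndex (Subgroup.normalizer (U : Set X))
      = Nat.card h.rho.range := by
    rw [Subgroup.relIndex, ← h.rho_ker, Subgroup.index_ker]
  rw [h1] at h3
  obtain ⟨σ, hσ⟩ := exists_prime_orderOf_dvd_card' 3 h3
  rw [← Subgroup.orderOf_coe] at hσ
  obtain ⟨n, hn⟩ := σ.2
  rw [← hn] at hσ
  have h4 : (h.rho n) ^ 3 = 1 := by
    have := pow_orderOf_eq_one (h.rho n)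
    rwa [hσ] at this
  have h5 : h.rho n ≠ 1 := by
    intro e; rw [e, orderOf_one] at hσ; omega
  rcases perm3_aux _ h4 h5 with h6 | h6
  · have := h.rho_spec n 0
    rw [h6] at this
    exact (isConj_iff.mpr ⟨(n : X), this.symm⟩).symm
  · have := h.rho_spec n 1
    rw [h6] at this
    exact isConj_iff.mpr ⟨(n : X), this.symm⟩

theorem exists_pow_of_sylow [Finite X] (S : Sylow 2 X) (m : ℕ) (hm : 1 ≤ m)
    (eS : (S : Subgroup X) ≃* DihedralGroup m) : ∃ j, m = 2 ^ j := by
  obtain ⟨n, hn⟩ := IsPGroup.iff_card.mp S.2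
  rw [Nat.card_congr eS.toEquiv, DihedralGroup.nat_card] at hn
  rcases n with _ | n
  · omega
  · exact ⟨n, by rw [pow_succ] at hn; omega⟩

end Misc

end Cfsg.Agent.Lib.Helper21.DihSyl
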