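import Mathlib
import Cfsg.Agent.Lib.Helper21.DihSylow2
import Cfsg.Agent.Lib.Lead.Residual

set_option autoImplicit false

namespace Cfsg.Agent.Lib.Helper21.DihSyl

open Cfsg.Agent.Lib.Helper90 (Four fourSubgroup)
open DihedralGroup

variable {X : Type*} [Group X]

/-- extra data when `4 ∣ m`. -/
structure Pkg4 (S : Subgroup X) (z : X) (R Q1 Q2 : Subgroup X) (w : X) : Prop where
  w_mem : w ∈ S
  w_conj : ∀ a ∈ S, a ∉ R → w * a * w⁻¹ = z * a
  z_mem_Q1 : z ∈ Q1
  z_mem_Q2 : z ∈ Q2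

theorem Pkg4.swap {S : Subgroup X} {z : X} {R Q1 Q2 : Subgroup X} {w : X} (h : Pkg4 S z R Q1 Q2 w) :
    Pkg4 S z R Q2 Q1 w := ⟨h.w_mem, h.w_conj, h.z_mem_Q2, h.z_mem_Q1⟩

theorem pkg4 {m : ℕ} [NeZero m] (S : Subgroup X) (eS : S ≃* DihedralGroup m) (k q : ℕ) (hm : m = 2 * k)
    (hk : k = 2 * q) :
    Pkg4 S (emb S eS (r (k : ZMod m)))
      ((phi ⟨k, hm⟩ 0 1).ker.map (emb S eS)) ((phi ⟨k, hm⟩ 1 0).ker.map (emb S eS))
      ((phi ⟨k, hm⟩ 1 1).ker.map (emb S eS)) (emb S eS (r (q : ZMod m))) where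
  w_mem := emb_mem _ _ _
  w_conj := by
    intro a ha haR
    obtain ⟨d, rfl⟩ := exists_emb S eS ha
    rw [emb_mem_map_iff] at haR
    rw [← map_inv, ← map_mul, ← map_mul, ← map_mul]
    rcases d with i | i
    · exfalso; apply haR; rw [mem_ker_phi_r]; simp
    congr 1
    simp only [inv_r, r_mul_sr, sr_mul_r]
    congr 1
    rw [hk]; push_cast; ring
  z_mem_Q1 := by
    rw [emb_mem_map_iff, mem_ker_phi_r, par, map_natCast, one_mul, hk]
    push_cast
    have : (2 : ZMod 2) = 0 := by decide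
    rw [this]; simp
  z_mem_Q2 := by
    rw [emb_mem_map_iff, mem_ker_phi_r, par, map_natCast, one_mul, hk]
    push_cast
    have : (2 : ZMod 2) = 0 := by decide
    rw [this]; simp

/-- fusion in a group with a normal complement to `S` is controlled by `S`. -/
theorem conj_in_of_complement {K S : Subgroup X} [K.Normal] (hc : K.IsComplement' S) {a b : X}
    (ha : a ∈ S) (hb : b ∈ S) (hab : IsConj a b) : ∃ u ∈ S, u * a * u⁻¹ = b := by
  obtain ⟨g, hg⟩ := isConj_iff.mp hab
  have hg' : g ∈ ((S ⊔ K : Subgroup X) : Set X) := by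
    rw [sup_comm, hc.sup_eq_top]; trivial
  rw [Subgroup.mul_normal] at hg'
  obtain ⟨u, hu, k, hk, rfl⟩ := Set.mem_mul.mp hg'
  refine ⟨u, hu, ?_⟩
  have h1 : k * a * k⁻¹ = u⁻¹ * b * u := by rw [← hg]; group
  have h2 : k * a * k⁻¹ * a⁻¹ ∈ S := by
    rw [h1]; exact S.mul_mem (S.mul_mem (S.mul_mem (S.inv_mem hu) hb) hu) (S.inv_mem ha)
  have h3 : k * a * k⁻¹ * a⁻¹ ∈ K := by
    have : k * a * k⁻¹ * a⁻¹ = k * (a * k⁻¹ * a⁻¹) := by group
    rw [this]
    exact K.mul_mem hk (Subgroup.Normal.conj_mem inferInstance _ (K.inv_mem hk) a)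
  have h4 : k * a * k⁻¹ * a⁻¹ = 1 := by
    have := hc.disjoint.le_bot (Subgroup.mem_inf.mpr ⟨h3, h2⟩)
    simpa using this
  have h5 : k * a * k⁻¹ = a := by
    rw [mul_inv_eq_one] at h4; exact h4
  rw [← hg]
  calc u * a * u⁻¹ = u * (k * a * k⁻¹) * u⁻¹ := by rw [h5]
    _ = u * k * a * (u * k)⁻¹ := by group

theorem card_classes (z s t : X) (hz : orderOf z = 2) (hs : orderOf s = 2) (ht : orderOf t = 2)
    (hall : ∀ x : X, orderOf x = 2 → IsConj x z ∨ IsConj x s ∨ IsConj x t) [DecidableEq (ConjClasses X)] :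
    Nat.card {C : ConjClasses X // ∃ g : X, ConjClasses.mk g = C ∧ orderOf g = 2} =
      ({ConjClasses.mk z, ConjClasses.mk s, ConjClasses.mk t} : Finset (ConjClasses X)).card := by
  apply Nat.subtype_card
  intro C
  simp only [Finset.mem_insert, Finset.mem_singleton]
  constructor
  · rintro (rfl | rfl | rfl)
    · exact ⟨z, rfl, hz⟩
    · exact ⟨s, rfl, hs⟩
    · exact ⟨t, rfl, ht⟩
  · rintro ⟨g, rfl, hg⟩
    rcases hall g hg with h | h | h
    · exact Or.inl (ConjClasses.mk_eq_mk_iff_isConj.mpr h)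
    · exact Or.inr (Or.inl (ConjClasses.mk_eq_mk_iff_isConj.mpr h))
    · exact Or.inr (Or.inr (ConjClasses.mk_eq_mk_iff_isConj.mpr h))

section SylowPkg

variable [Finite X] {S : Sylow 2 X} {z s t : X} {R Q1 Q2 : Subgroup X} {w : X}

/-- if `s` is fused to `z` there is no normal subgroup of index 4. -/
theorem Pkg.no_index_four (h : Pkg (S : Subgroup X) z s t R Q1 Q2)
    (h4 : Pkg4 (S : Subgroup X) z R Q1 Q2 w) (hs : IsConj s z)
    (N : Subgroup X) (hN : N.Normal) : N.index ≠ 4 := by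
  intro hidx
  have : Fact (Nat.Prime 2) := ⟨Nat.prime_two⟩
  have hcomm : IsMulCommutative (X ⧸ N) := by
    apply IsPGroup.isMulCommutative_of_card_eq_prime_sq (p := 2)
    rw [← Subgroup.index_eq_card, hidx]; norm_num
  have hzN : z ∈ N := by
    have e : z = w * s * w⁻¹ * s⁻¹ := by
      rw [h4.w_conj s h.s_mem h.s_nmem_R]; group
    rw [e, ← QuotientGroup.eq_one_iff]
    have := hcomm.is_comm.comm (w : X ⧸ N) (s : X ⧸ N)
    rw [QuotientGroup.mk_mul, QuotientGroup.mk_mul, QuotientGroup.mk_mul, this,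
      QuotientGroup.mk_inv, QuotientGroup.mk_inv]
    group
  have hsN : s ∈ N := mem_of_isConj hs.symm hzN
  have hnR : ∀ x ∈ Q1, x ∉ R → x ∈ N := by
    intro x hx hxR
    obtain ⟨u, -, rfl⟩ := h.nR_Q1 x hx hxR
    exact hN.conj_mem s hsN u
  have hQN : Q1 ≤ N := by
    intro x hx
    by_cases hxR : x ∈ R
    · have h1 : x * s ∈ N := by
        apply hnR _ (Q1.mul_mem hx h.s_mem_Q1)
        intro hc
        apply h.s_nmem_R
        have := R.mul_mem (R.inv_mem hxR) hc
        simpa using this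
      have := N.mul_mem h1 (N.inv_mem hsN)
      simpa using this
    · exact hnR x hx hxR
  have h1 : N.relIndex (S : Subgroup X) ∣ 2 := by
    have := Subgroup.relIndex_dvd_of_le_left (S : Subgroup X) hQN
    rwa [h.Q1_idx] at this
  have h2 : (N ⊔ (S : Subgroup X)).index = 1 := by
    have ha : (N ⊔ (S : Subgroup X)).index ∣ 4 := hidx ▸ Subgroup.index_dvd_of_le le_sup_left
    have hb : (N ⊔ (S : Subgroup X)).index ∣ (S : Subgroup X).index :=
      Subgroup.index_dvd_of_le le_sup_right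
    have hc : ¬ 2 ∣ (N ⊔ (S : Subgroup X)).index := fun hd => S.not_dvd_index (hd.trans hb)
    have hd : (N ⊔ (S : Subgroup X)).index ∈ Nat.divisors 4 := Nat.mem_divisors.mpr ⟨ha, by norm_num⟩
    rw [show Nat.divisors 4 = {1, 2, 4} by decide] at hd
    simp only [Finset.mem_insert, Finset.mem_singleton] at hd
    rcases hd with hd | hd | hd
    · exact hd
    · exact absurd (by rw [hd]) hc
    · exact absurd (by rw [hd]; exact ⟨2, rfl⟩) hc
  have h3 : N.relIndex (S : Subgroup X) = 4 := by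
    rw [← Subgroup.relIndex_sup_left, Subgroup.index_eq_one.mp h2, Subgroup.relIndex_top_right, hidx]
  rw [h3] at h1
  omega

/-- if `z` is not fused to `s` or `t`, the hypothesis of the normal complement criterion holds. -/
theorem Pkg.normalizer_eq (h : Pkg (S : Subgroup X) z s t R Q1 Q2)
    (h4 : Pkg4 (S : Subgroup X) z R Q1 Q2 w) (hs : ¬ IsConj s z) (ht : ¬ IsConj t z)
    (U : Subgroup X) (hUS : U ≤ S) (hU : IsKleinFour U) :
    Subgroup.normalizer (U : Set X) = Subgroup.centralizer (U : Set X) ⊔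
      ((S : Subgroup X) ⊓ Subgroup.normalizer (U : Set X)) := by
  apply le_antisymm _ (sup_le (Subgroup.centralizer_le_normalizer _) inf_le_right)
  obtain ⟨a, haU, haR, hF⟩ := h.exists_four hUS hU
  have haS := hUS haU
  have hnz : ∀ x ∈ (S : Subgroup X), x ∉ R → ¬ IsConj z x := by
    intro x hx hxR hc
    rcases h.nR_conj hx hxR with ⟨u, -, hu⟩ | ⟨u, -, hu⟩
    · exact hs ((isConj_iff.mpr ⟨u, hu⟩).trans hc.symm)
    · exact ht ((isConj_iff.mpr ⟨u, hu⟩).trans hc.symm)
  have hzaS : z * a ∈ (S : Subgroup X) := Subgroup.mul_mem _ h.z_mem haS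
  have hzaR := h.zs_nmem_R haR
  have hwz : w * z * w⁻¹ = z := by rw [h.z_comm w h4.w_mem]; group
  have hwa : w * a * w⁻¹ = z * a := h4.w_conj a haS haR
  have hwN : w ∈ Subgroup.normalizer (U : Set X) :=
    hF.mem_normalizer_of w (by rw [hwz]; exact (hF.mem z).mpr (by tauto))
      (by rw [hwa]; exact (hF.mem _).mpr (by tauto))
  intro g hg
  have hgU : ∀ x ∈ U, g * x * g⁻¹ ∈ U := fun x hx => (Subgroup.mem_normalizer_iff.mp hg x).mp hx
  have hgz : g * z * g⁻¹ = z := by
    rcases (hF.mem _).mp (hgU z ((hF.mem z).mpr (by tauto))) with h1 | h1 | h1 | h1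
    · exfalso
      apply hF.z_ne
      have := congrArg (fun v => g⁻¹ * v * g) h1
      simpa [mul_assoc] using this
    · exact h1
    · exact absurd (isConj_iff.mpr ⟨g, h1⟩) (hnz a haS haR)
    · exact absurd (isConj_iff.mpr ⟨g, h1⟩) (hnz _ hzaS hzaR)
  rcases (hF.mem _).mp (hgU a haU) with h1 | h1 | h1 | h1
  · exfalso
    apply hF.s_ne
    have := congrArg (fun v => g⁻¹ * v * g) h1
    simpa [mul_assoc] using this
  · exfalso
    apply hF.zs_ne
    have := congrArg (fun v => g⁻¹ * v * g) (hgz.trans h1.symm)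
    simpa [mul_assoc] using this
  · apply Subgroup.mem_sup_left
    rw [hF.mem_centralizer_iff]
    constructor
    · calc g * z = (g * z * g⁻¹) * g := by group
        _ = z * g := by rw [hgz]
    · calc g * a = (g * a * g⁻¹) * g := by group
        _ = a * g := by rw [h1]
  · have hc : w⁻¹ * g ∈ Subgroup.centralizer (U : Set X) := by
      rw [hF.mem_centralizer_iff]
      constructor
      · calc w⁻¹ * g * z = w⁻¹ * (g * z * g⁻¹) * g := by group
          _ = w⁻¹ * (w * z * w⁻¹) * g := by rw [hgz, hwz]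
          _ = z * (w⁻¹ * g) := by group
      · calc w⁻¹ * g * a = w⁻¹ * (g * a * g⁻¹) * g := by group
          _ = w⁻¹ * (w * a * w⁻¹) * g := by rw [h1, hwa]
          _ = a * (w⁻¹ * g) := by group
    have e : g = w * (w⁻¹ * g) := by group
    rw [e, sup_comm]
    exact Subgroup.mul_mem_sup (Subgroup.mem_inf.mpr ⟨h4.w_mem, hwN⟩) hc

end SylowPkg

end Cfsg.Agent.Lib.Helper21.DihSyl
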