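import Cfsg.Agent.Lib.Helper39.SLmin.Block
import Cfsg.Agent.Lib.Helper78.ClassAlg

/-! # S2332 farm, piece Bg: bookkeeping with block matrices -/

set_option autoImplicit false
set_option linter.unusedSectionVars false
set_option linter.unusedSimpArgs false

namespace Cfsg.Agent.Lib.Helper21.SLmin

open Matrix Cfsg Cfsg.Agent.Lib.Helper39.SLmin
open scoped LinearAlgebra.Projectivization

section
variable {F : Type*} [Field F] {κ : Type*} [Fintype κ] [DecidableEq κ]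

theorem tv_inl0 {ψ : Fin 2 ⊕ κ → F} (h : ψ (Sum.inl 0) = 0) :
    tv (ee (Sum.inl 0)) ψ = PP (xU (ψ (Sum.inl 1))) (Matrix.of ![ψ ∘ Sum.inr, 0]) := by
  apply sl_ext
  rw [tv_coe (by rw [dot_ee, h]), PP_coe, xU_coe]
  ext i j
  rcases i with i | i <;> rcases j with j | j
  · fin_cases i <;> fin_cases j <;> simp [vecMulVec_apply, ee_apply, h, Matrix.one_apply]
  · fin_cases i <;> simp [vecMulVec_apply, ee_apply, Matrix.one_apply]
  · simp [vecMulVec_apply, ee_apply, Matrix.one_apply]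
  · simp [vecMulVec_apply, ee_apply, Matrix.one_apply]

theorem tv_inl1 {ψ : Fin 2 ⊕ κ → F} (h : ψ (Sum.inl 1) = 0) :
    tv (ee (Sum.inl 1)) ψ = PP (xL (ψ (Sum.inl 0))) (Matrix.of ![0, ψ ∘ Sum.inr]) := by
  apply sl_ext
  rw [tv_coe (by rw [dot_ee, h]), PP_coe, xL_coe]
  ext i j
  rcases i with i | i <;> rcases j with j | j
  · fin_cases i <;> fin_cases j <;> simp [vecMulVec_apply, ee_apply, h, Matrix.one_apply]
  · fin_cases i <;> simp [vecMulVec_apply, ee_apply, Matrix.one_apply]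
  · simp [vecMulVec_apply, ee_apply, Matrix.one_apply]
  · simp [vecMulVec_apply, ee_apply, Matrix.one_apply]

theorem PP_prod (t t' : F) (a b : κ → F) :
    PP (xU t) (Matrix.of ![a, 0]) * PP (xL t') (Matrix.of ![0, b])
      = PP (xU t * xL t') (Matrix.of ![a + t • b, b]) := by
  rw [PP_mul]
  congr 1
  rw [xU_coe]
  ext i j
  fin_cases i <;> simp [Matrix.mul_apply, Fin.sum_univ_two, add_comm]

end

section
variable {F : Type*} [Field F] [Fintype F] [DecidableEq F] {κ : Type*} [Fintype κ] [DecidableEq κ]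

theorem sum_split (f : F → F → (κ → F) → ℂ) :
    ∑ φ : Fin 2 ⊕ κ → F, f (φ (Sum.inl 0)) (φ (Sum.inl 1)) (φ ∘ Sum.inr) = ∑ s, ∑ t, ∑ a, f s t a := by
  rw [← Fintype.sum_prod_type', ← Fintype.sum_prod_type' (f := fun (p : F × F) a => f p.1 p.2 a)]
  exact Fintype.sum_equiv ((Equiv.sumArrowEquivProdArrow (Fin 2) κ F).trans
    ((finTwoArrowEquiv F).prodCongr (Equiv.refl _))) _ _ (fun φ => rfl)

theorem sum_mat (f : Matrix (Fin 2) κ F → ℂ) :
    ∑ X, f X = ∑ a : κ → F, ∑ b : κ → F, f (Matrix.of ![a, b]) := by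
  rw [← Fintype.sum_prod_type']
  refine Fintype.sum_equiv (finTwoArrowEquiv (κ → F)) _ _ (fun X => ?_)
  congr 1
  ext i j
  fin_cases i <;> rfl

theorem sum_shear (f : Matrix (Fin 2) κ F → ℂ) (t : F) :
    ∑ a : κ → F, ∑ b : κ → F, f (Matrix.of ![a + t • b, b]) = ∑ X, f X := by
  rw [sum_mat, Finset.sum_comm, Finset.sum_comm (f := fun a b => f (Matrix.of ![a, b]))]
  refine Finset.sum_congr rfl (fun b _ => ?_)
  exact Fintype.sum_equiv (Equiv.addRight (t • b)) _ _ (fun a => rfl)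

end

theorem sum_tv_tv {F : Type*} [Field F] [Fintype F] [DecidableEq F] {κ : Type*} [Fintype κ] [DecidableEq κ] (χ : Matrix.SpecialLinearGroup (Fin 2 ⊕ κ) F → ℂ) :
    ∑ φ : Fin 2 ⊕ κ → F, ∑ φ' : Fin 2 ⊕ κ → F, χ (tv (ee (Sum.inl 0)) (pr (Sum.inl 0) φ) * tv (ee (Sum.inl 1)) (pr (Sum.inl 1) φ'))
      = (Fintype.card F : ℂ) ^ 2 * ∑ t : F, ∑ t' : F, ∑ X : Matrix (Fin 2) κ F, χ (PP (xU t * xL t') X) := by
  have h1 : ∀ φ φ' : Fin 2 ⊕ κ → F,
      χ (tv (ee (Sum.inl 0)) (pr (Sum.inl 0) φ) * tv (ee (Sum.inl 1)) (pr (Sum.inl 1) φ'))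
        = χ (PP (xU (φ (Sum.inl 1)) * xL (φ' (Sum.inl 0)))
            (Matrix.of ![φ ∘ Sum.inr + φ (Sum.inl 1) • (φ' ∘ Sum.inr), φ' ∘ Sum.inr])) := by
    intro φ φ'
    rw [tv_inl0 (by rw [pr_apply, if_pos rfl]), tv_inl1 (by rw [pr_apply, if_pos rfl])]
    have e1 : pr (Sum.inl 0) φ (Sum.inl 1) = φ (Sum.inl 1) := by
      rw [pr_apply, if_neg (by simp)]
    have e2 : pr (Sum.inl 1) φ' (Sum.inl 0) = φ' (Sum.inl 0) := by
      rw [pr_apply, if_neg (by simp)]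
    have e3 : pr (Sum.inl 0) φ ∘ Sum.inr = φ ∘ Sum.inr := by
      ext k
      rw [Function.comp_apply, pr_apply, if_neg (by simp), Function.comp_apply]
    have e4 : pr (Sum.inl 1) φ' ∘ Sum.inr = φ' ∘ Sum.inr := by
      ext k
      rw [Function.comp_apply, pr_apply, if_neg (by simp), Function.comp_apply]
    rw [e1, e2, e3, e4, PP_prod]
  simp_rw [h1]
  have h2 : ∀ φ : Fin 2 ⊕ κ → F, ∑ φ' : Fin 2 ⊕ κ → F,
      χ (PP (xU (φ (Sum.inl 1)) * xL (φ' (Sum.inl 0)))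
            (Matrix.of ![φ ∘ Sum.inr + φ (Sum.inl 1) • (φ' ∘ Sum.inr), φ' ∘ Sum.inr]))
      = ∑ t' : F, ∑ _s' : F, ∑ b : κ → F, χ (PP (xU (φ (Sum.inl 1)) * xL t')
            (Matrix.of ![φ ∘ Sum.inr + φ (Sum.inl 1) • b, b])) := by
    intro φ
    exact sum_split (fun t' _ b => χ (PP (xU (φ (Sum.inl 1)) * xL t')
            (Matrix.of ![φ ∘ Sum.inr + φ (Sum.inl 1) • b, b])))
  simp_rw [h2]
  rw [sum_split (fun _ t a => ∑ t' : F, ∑ _s' : F, ∑ b : κ → F, χ (PP (xU t * xL t')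
            (Matrix.of ![a + t • b, b])))]
  simp only [Finset.sum_const, Finset.card_univ, nsmul_eq_mul]
  rw [sq, mul_assoc]
  congr 1
  rw [Finset.mul_sum]
  refine Finset.sum_congr rfl (fun t _ => ?_)
  rw [Finset.sum_comm, Finset.mul_sum]
  refine Finset.sum_congr rfl (fun t' _ => ?_)
  rw [← Finset.mul_sum, sum_shear (fun X => χ (PP (xU t * xL t') X)) t]

theorem sum_tv_tv' {F : Type*} [Field F] [Fintype F] [DecidableEq F] {κ : Type*} [Fintype κ] [DecidableEq κ] (χ : Matrix.SpecialLinearGroup (Fin 2 ⊕ κ) F → ℂ) :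
    ∑ φ : Fin 2 ⊕ κ → F, ∑ φ' : Fin 2 ⊕ κ → F, χ (tv (ee (Sum.inl 0)) (pr (Sum.inl 0) φ) * tv (ee (Sum.inl 1)) (pr (Sum.inl 0) (pr (Sum.inl 1) φ')))
      = (Fintype.card F : ℂ) ^ 3 * ∑ t : F, ∑ X : Matrix (Fin 2) κ F, χ (PP (xU t) X) := by
  have hxL : (xL (0 : F)) = 1 := by
    apply sl_ext
    rw [xL_coe, Matrix.SpecialLinearGroup.coe_one]
    ext i j
    fin_cases i <;> fin_cases j <;> simp
  have h1 : ∀ φ φ' : Fin 2 ⊕ κ → F,
      χ (tv (ee (Sum.inl 0)) (pr (Sum.inl 0) φ) * tv (ee (Sum.inl 1)) (pr (Sum.inl 0) (pr (Sum.inl 1) φ')))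
        = χ (PP (xU (φ (Sum.inl 1)))
            (Matrix.of ![φ ∘ Sum.inr + φ (Sum.inl 1) • (φ' ∘ Sum.inr), φ' ∘ Sum.inr])) := by
    intro φ φ'
    rw [tv_inl0 (by rw [pr_apply, if_pos rfl]),
      tv_inl1 (by rw [pr_apply, if_neg (by simp), pr_apply, if_pos rfl])]
    have e1 : pr (Sum.inl 0) φ (Sum.inl 1) = φ (Sum.inl 1) := by
      rw [pr_apply, if_neg (by simp)]
    have e2 : pr (Sum.inl 0) (pr (Sum.inl 1) φ') (Sum.inl 0) = 0 := by
      rw [pr_apply, if_pos rfl]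
    have e3 : pr (Sum.inl 0) φ ∘ Sum.inr = φ ∘ Sum.inr := by
      ext k
      rw [Function.comp_apply, pr_apply, if_neg (by simp), Function.comp_apply]
    have e4 : pr (Sum.inl 0) (pr (Sum.inl 1) φ') ∘ Sum.inr = φ' ∘ Sum.inr := by
      ext k
      rw [Function.comp_apply, pr_apply, if_neg (by simp), pr_apply, if_neg (by simp),
        Function.comp_apply]
    rw [e1, e2, e3, e4, PP_prod, hxL, mul_one]
  simp_rw [h1]
  have h2 : ∀ φ : Fin 2 ⊕ κ → F, ∑ φ' : Fin 2 ⊕ κ → F,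
      χ (PP (xU (φ (Sum.inl 1)))
            (Matrix.of ![φ ∘ Sum.inr + φ (Sum.inl 1) • (φ' ∘ Sum.inr), φ' ∘ Sum.inr]))
      = ∑ _t' : F, ∑ _s' : F, ∑ b : κ → F, χ (PP (xU (φ (Sum.inl 1)))
            (Matrix.of ![φ ∘ Sum.inr + φ (Sum.inl 1) • b, b])) := by
    intro φ
    exact sum_split (fun _ _ b => χ (PP (xU (φ (Sum.inl 1)))
            (Matrix.of ![φ ∘ Sum.inr + φ (Sum.inl 1) • b, b])))
  simp_rw [h2]
  rw [sum_split (fun _ t a => ∑ _t' : F, ∑ _s' : F, ∑ b : κ → F, χ (PP (xU t)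
            (Matrix.of ![a + t • b, b])))]
  simp only [Finset.sum_const, Finset.card_univ, nsmul_eq_mul]
  have h3 : ∀ t : F, ∑ a : κ → F, (Fintype.card F : ℂ) * ((Fintype.card F : ℂ) *
      ∑ b : κ → F, χ (PP (xU t) (Matrix.of ![a + t • b, b])))
      = (Fintype.card F : ℂ) * ((Fintype.card F : ℂ) * ∑ X : Matrix (Fin 2) κ F, χ (PP (xU t) X)) := by
    intro t
    rw [← Finset.mul_sum, ← Finset.mul_sum, sum_shear (fun X => χ (PP (xU t) X)) t]
  simp_rw [h3]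
  rw [← Finset.mul_sum, ← Finset.mul_sum]
  ring

end Cfsg.Agent.Lib.Helper21.SLmin
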