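import Cfsg.Agent.Lib.Helper39.SLmin.Block
import Cfsg.Agent.Lib.Helper78.ClassAlg

/-! # S2332 farm, piece W: the indicator `wQ` of the transvections with a given centre -/

set_option autoImplicit false
set_option linter.unusedSectionVars false
set_option linter.unusedSimpArgs false

namespace Cfsg.Agent.Lib.Helper21.SLmin

open Matrix Cfsg Cfsg.Agent.Lib.Helper39.SLmin
open scoped LinearAlgebra.Projectivization

section
variable {F : Type*} [Field F] {ι : Type*} [Fintype ι] [DecidableEq ι]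

/-- `x` is a transvection with centre `v` -/
def QQ (v : ι → F) (x : Matrix.SpecialLinearGroup ι F) : Prop := ∃ φ : ι → F, φ ⬝ᵥ v = 0 ∧ x = tv v φ

theorem wQ_pos {p : ℙ F (ι → F)} {x : Matrix.SpecialLinearGroup ι F} (h : QQ p.rep x) : wQ p x = 1 :=
  if_pos h

theorem wQ_neg {p : ℙ F (ι → F)} {x : Matrix.SpecialLinearGroup ι F} (h : ¬ QQ p.rep x) : wQ p x = 0 :=
  if_neg h

theorem wQ_congr {p p' : ℙ F (ι → F)} {x x' : Matrix.SpecialLinearGroup ι F}
    (h : QQ p.rep x ↔ QQ p'.rep x') : wQ p x = wQ p' x' := by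
  by_cases h1 : QQ p.rep x
  · rw [wQ_pos h1, wQ_pos (h.1 h1)]
  · rw [wQ_neg h1, wQ_neg (fun h2 => h1 (h.2 h2))]

theorem QQ_smul_of {a : F} (ha : a ≠ 0) {v : ι → F} {x : Matrix.SpecialLinearGroup ι F}
    (h : QQ v x) : QQ (a • v) x := by
  obtain ⟨φ, h1, rfl⟩ := h
  refine ⟨a⁻¹ • φ, ?_, ?_⟩
  · rw [smul_dotProduct, dotProduct_smul, h1, smul_zero, smul_zero]
  · rw [tv_smul, smul_smul, mul_inv_cancel₀ ha, one_smul]

theorem QQ_smul {a : F} (ha : a ≠ 0) {v : ι → F} {x : Matrix.SpecialLinearGroup ι F} :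
    QQ (a • v) x ↔ QQ v x := by
  refine ⟨fun h => ?_, QQ_smul_of ha⟩
  have := QQ_smul_of (inv_ne_zero ha) h
  rwa [smul_smul, inv_mul_cancel₀ ha, one_smul] at this

theorem QQ_rep {v : ι → F} (hv : v ≠ 0) {x : Matrix.SpecialLinearGroup ι F} :
    QQ (Projectivization.mk F v hv).rep x ↔ QQ v x := by
  have h1 := Projectivization.mk_rep (Projectivization.mk F v hv)
  rw [Projectivization.mk_eq_mk_iff] at h1
  obtain ⟨a, ha⟩ := h1
  rw [← ha, Units.smul_def]
  exact QQ_smul a.ne_zero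

theorem QQ_conj_of (g : Matrix.SpecialLinearGroup ι F) {v : ι → F} {x : Matrix.SpecialLinearGroup ι F}
    (h : QQ v x) : QQ ((g : Matrix ι ι F) *ᵥ v) (g * x * g⁻¹) := by
  obtain ⟨φ, h1, rfl⟩ := h
  have hg' : ((g⁻¹ : Matrix.SpecialLinearGroup ι F) : Matrix ι ι F) * (g : Matrix ι ι F) = 1 := by
    have := sl_coe_congr (inv_mul_cancel g)
    rwa [Matrix.SpecialLinearGroup.coe_mul, Matrix.SpecialLinearGroup.coe_one] at this
  refine ⟨φ ᵥ* ((g⁻¹ : Matrix.SpecialLinearGroup ι F) : Matrix ι ι F), ?_, conj_tv g g⁻¹ (mul_inv_cancel g) h1⟩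
  rw [dotProduct_mulVec, vecMul_vecMul, hg', vecMul_one, h1]

theorem QQ_conj (g : Matrix.SpecialLinearGroup ι F) {v : ι → F} {x : Matrix.SpecialLinearGroup ι F} :
    QQ ((g : Matrix ι ι F) *ᵥ v) (g * x * g⁻¹) ↔ QQ v x := by
  refine ⟨fun h => ?_, QQ_conj_of g⟩
  have hg' : ((g⁻¹ : Matrix.SpecialLinearGroup ι F) : Matrix ι ι F) * (g : Matrix ι ι F) = 1 := by
    have := sl_coe_congr (inv_mul_cancel g)
    rwa [Matrix.SpecialLinearGroup.coe_mul, Matrix.SpecialLinearGroup.coe_one] at this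
  have := QQ_conj_of g⁻¹ h
  rw [mulVec_mulVec, hg', one_mulVec] at this
  have e : g⁻¹ * (g * x * g⁻¹) * g⁻¹⁻¹ = x := by group
  rwa [e] at this

end

theorem wQ_smul {F : Type*} [Field F] {ι : Type*} [Fintype ι] [DecidableEq ι] (g : Matrix.SpecialLinearGroup ι F) (p : ℙ F (ι → F)) (x : Matrix.SpecialLinearGroup ι F) : wQ (g • p) (g * x * g⁻¹) = wQ p x := by
  apply wQ_congr
  conv_lhs => rw [← Projectivization.mk_rep p, Projectivization.smul_mk]
  rw [QQ_rep, Matrix.SpecialLinearGroup.smul_def, Matrix.smul_eq_mulVec]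
  exact QQ_conj g

theorem card_proj {F : Type*} [Field F] [Fintype F] [DecidableEq F] {ι : Type*} [Fintype ι] [DecidableEq ι] [Fintype (ℙ F (ι → F))] :
    ((Fintype.card F : ℂ) - 1) * (Fintype.card (ℙ F (ι → F)) : ℂ) = (Fintype.card F : ℂ) ^ Fintype.card ι - 1 := by
  have h := Projectivization.card' F (ι → F)
  rw [Nat.card_eq_fintype_card, Nat.card_eq_fintype_card, Nat.card_eq_fintype_card, Fintype.card_fun] at h
  have h1 : 1 ≤ Fintype.card F := Fintype.card_pos
  have h2 : ((Fintype.card F ^ Fintype.card ι : ℕ) : ℂ)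
      = ((Fintype.card (ℙ F (ι → F)) * (Fintype.card F - 1) + 1 : ℕ) : ℂ) := by rw [h]
  push_cast [Nat.cast_sub h1] at h2
  rw [h2]
  ring

theorem tv_ee_inj {F : Type*} [Field F] {ι : Type*} [Fintype ι] [DecidableEq ι] {i : ι} {ψ ψ' : ι → F}
    (h : ψ i = 0) (h' : ψ' i = 0) (he : tv (ee i) ψ = tv (ee i) ψ') : ψ = ψ' := by
  have h1 := sl_coe_congr he
  rw [tv_coe (by rw [dot_ee, h]), tv_coe (by rw [dot_ee, h'])] at h1
  have h2 := add_left_cancel h1
  ext k
  have h3 := congrFun (congrFun h2 i) k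
  rwa [vecMulVec_apply, vecMulVec_apply, ee_apply, if_pos rfl, one_mul, one_mul] at h3

theorem card_fiber {F : Type*} [Field F] [Fintype F] [DecidableEq F] {ι : Type*} [Fintype ι] [DecidableEq ι] (i : ι)
    (x : Matrix.SpecialLinearGroup ι F) :
    ∑ φ : ι → F, (if x = tv (ee i) (pr i φ) then (1 : ℂ) else 0)
      = (Fintype.card F : ℂ) * wQ (Projectivization.mk F (ee i : ι → F) (ee_ne_zero i)) x := by
  classical
  by_cases hQ : QQ (ee i : ι → F) x
  · rw [wQ_pos ((QQ_rep _).2 hQ), mul_one]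
    obtain ⟨ψ, hψ, rfl⟩ := hQ
    rw [dot_ee] at hψ
    rw [Finset.sum_boole]
    congr 1
    have : (Finset.univ.filter (fun φ : ι → F => tv (ee i) ψ = tv (ee i) (pr i φ)))
        = Finset.univ.image (fun c : F => Function.update ψ i c) := by
      ext φ
      simp only [Finset.mem_filter, Finset.mem_univ, true_and, Finset.mem_image]
      constructor
      · intro h
        have h1 := tv_ee_inj hψ (by rw [pr_apply, if_pos rfl]) h
        refine ⟨φ i, ?_⟩
        ext k
        by_cases hk : k = i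
        · rw [hk, Function.update_self]
        · rw [Function.update_of_ne hk, h1, pr_apply, if_neg hk]
      · rintro ⟨c, rfl⟩
        congr 1
        ext k
        rw [pr_apply]
        by_cases hk : k = i
        · rw [if_pos hk, hk, hψ]
        · rw [if_neg hk, Function.update_of_ne hk]
    rw [this, Finset.card_image_of_injective, Finset.card_univ]
    intro c c' h
    have := congrFun h i
    simp only [Function.update_self] at this
    exact this
  · rw [wQ_neg (fun h => hQ ((QQ_rep _).1 h)), mul_zero]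
    apply Finset.sum_eq_zero
    intro φ _
    rw [if_neg]
    intro h
    exact hQ ⟨pr i φ, by rw [dot_ee, pr_apply, if_pos rfl], h⟩

theorem sum_wQ {F : Type*} [Field F] [Fintype F] [DecidableEq F] {ι : Type*} [Fintype ι] [DecidableEq ι] (i : ι) (h : Matrix.SpecialLinearGroup ι F → ℂ) :
    (Fintype.card F : ℂ) * ∑ x, wQ (Projectivization.mk F (ee i : ι → F) (ee_ne_zero i)) x * h x = ∑ φ : ι → F, h (tv (ee i) (pr i φ)) := by
  classical
  rw [Finset.mul_sum]
  simp_rw [← mul_assoc, ← card_fiber, Finset.sum_mul]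
  rw [Finset.sum_comm]
  refine Finset.sum_congr rfl (fun φ _ => ?_)
  simp

end Cfsg.Agent.Lib.Helper21.SLmin
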