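import Cfsg.Agent.Lib.Helper21.StronglyEmbedded

set_option autoImplicit false

namespace Cfsg.Agent.Lib.Helper21

open Subgroup

variable {G : Type*} [Group G]

namespace IsStronglyEmbedded

variable {H : Subgroup G}

open Classical in
/-- The involutions carrying the coset `x` to the coset `y`. -/
noncomputable def swapSet [Fintype G] (H : Subgroup G) (x y : G ⧸ H) : Finset G :=
  Finset.univ.filter (fun i => orderOf i = 2 ∧ i • x = y)

theorem mem_swapSet [Fintype G] {x y : G ⧸ H} {i : G} :
    i ∈ swapSet H x y ↔ orderOf i = 2 ∧ i • x = y := by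
  simp [swapSet]

theorem exists_invol_fixing [Finite G] (hH : Cfsg.IsStronglyEmbedded H) (x : G ⧸ H) :
    ∃ s : G, orderOf s = 2 ∧ s • x = x := by
  obtain ⟨t, htH, ht⟩ := exists_invol_mem hH
  obtain ⟨g, rfl⟩ := QuotientGroup.mk_surjective x
  refine ⟨g * t * g⁻¹, by rw [orderOf_conj_eq', ht], ?_⟩
  rw [smul_mk_eq_iff]
  have e : g⁻¹ * (g * t * g⁻¹) * g = t := by group
  rw [e]; exact htH

/-- The number of involutions fixing a coset does not depend on the coset. -/
theorem card_swapSet_self [Fintype G] (x : G ⧸ H) :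
    (swapSet H x x).card = (swapSet H ((1 : G) : G ⧸ H) ((1 : G) : G ⧸ H)).card := by
  obtain ⟨g, rfl⟩ := QuotientGroup.mk_surjective x
  apply Finset.card_nbij' (fun i => g⁻¹ * i * g) (fun i => g * i * g⁻¹)
  · intro i hi
    rw [Finset.mem_coe, mem_swapSet] at hi ⊢
    refine ⟨?_, ?_⟩
    · have := orderOf_conj_eq' g⁻¹ i
      rw [inv_inv] at this
      rw [this, hi.1]
    · rw [smul_mk_eq_iff]
      have := (smul_mk_eq_iff H i g).mp hi.2
      simpa using this
  · intro i hi
    rw [Finset.mem_coe, mem_swapSet] at hi ⊢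
    refine ⟨by rw [orderOf_conj_eq', hi.1], ?_⟩
    rw [smul_mk_eq_iff]
    have := (smul_mk_eq_iff H i 1).mp hi.2
    have e : g⁻¹ * (g * i * g⁻¹) * g = i := by group
    rw [e]
    simpa using this
  · intro i _
    group
  · intro i _
    group

theorem smul_eq_of_invol_smul_eq {u : G} (hu : orderOf u = 2) {x y : G ⧸ H} (h : u • x = y) :
    u • y = x := by
  rw [← h, ← mul_smul, sq_eq_one_of_orderOf_two hu, one_smul]

/-- The comparison map from involutions swapping `x, y` to involutions fixing `x`. -/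
theorem swap_map_mem [Fintype G] {x y : G ⧸ H} {u s i : G} (hu : u ∈ swapSet H x y)
    (hs : s ∈ swapSet H x x) (hi : i ∈ swapSet H x y) :
    (u * i) * s * (u * i)⁻¹ ∈ swapSet H x x := by
  rw [mem_swapSet] at hu hs hi ⊢
  refine ⟨by rw [orderOf_conj_eq', hs.1], ?_⟩
  have h1 : (u * i) • x = x := by
    rw [mul_smul, hi.2, smul_eq_of_invol_smul_eq hu.1 hu.2]
  have h2 : (u * i)⁻¹ • x = x := by
    rw [inv_smul_eq_iff, h1]
  rw [mul_smul, mul_smul, h2, hs.2, h1]

theorem swap_map_injOn [Fintype G] (hH : Cfsg.IsStronglyEmbedded H) {x y : G ⧸ H} (hxy : x ≠ y)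
    {u s : G} (hs : s ∈ swapSet H x x) :
    Set.InjOn (fun i => (u * i) * s * (u * i)⁻¹) (swapSet H x y : Set G) := by
  intro i1 h1 i2 h2 heq
  rw [Finset.mem_coe, mem_swapSet] at h1 h2
  rw [mem_swapSet] at hs
  simp only at heq
  have hi1 := inv_eq_self_of_orderOf_two h1.1
  have hi2 := inv_eq_self_of_orderOf_two h2.1
  set e := i2 * i1 with he
  have hse : Commute s e := by
    have h3 : e * s * e⁻¹ = s := by
      have e1 : e = (u * i2)⁻¹ * (u * i1) := by rw [he, mul_inv_rev, hi2]; group
      calc e * s * e⁻¹ = (u * i2)⁻¹ * ((u * i1) * s * (u * i1)⁻¹) * (u * i2) := by rw [e1]; group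
        _ = (u * i2)⁻¹ * ((u * i2) * s * (u * i2)⁻¹) * (u * i2) := by rw [heq]
        _ = s := by group
    exact (mul_inv_eq_iff_eq_mul.mp h3).symm
  have hinv : i2 * e * i2⁻¹ = e⁻¹ := by
    rw [he, mul_inv_rev, hi1, hi2]
    calc i2 * (i2 * i1) * i2 = (i2 * i2) * i1 * i2 := by group
      _ = i1 * i2 := by rw [sq_eq_one_of_orderOf_two h2.1, one_mul]
  have hodd := odd_orderOf_mul hH hs.1 h2.1 hs.2 (by rw [h2.2]; exact hxy.symm)
  have hsq := sq_eq_one_of_centralized_inverted hodd hse hinv
  have hex : e • x = x := by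
    rw [he, mul_smul, h1.2, smul_eq_of_invol_smul_eq h2.1 h2.2]
  have hey : e • y = y := by
    rw [he, mul_smul, smul_eq_of_invol_smul_eq h1.1 h1.2, h2.2]
  have he1 : e = 1 := by
    by_contra hne
    exact hxy (fixed_unique hH (orderOf_two_of_sq hsq hne) hex hey)
  calc i1 = i2⁻¹ * e := by rw [he]; group
    _ = i2 := by rw [he1, mul_one, hi2]

theorem card_swapSet_le [Fintype G] (hH : Cfsg.IsStronglyEmbedded H) {x y : G ⧸ H} (hxy : x ≠ y) :
    (swapSet H x y).card ≤ (swapSet H x x).card := by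
  rcases (swapSet H x y).eq_empty_or_nonempty with h | ⟨u, hu⟩
  · rw [h]; simp
  · obtain ⟨s, hs1, hs2⟩ := exists_invol_fixing hH x
    have hs : s ∈ swapSet H x x := mem_swapSet.mpr ⟨hs1, hs2⟩
    exact Finset.card_le_card_of_injOn _ (fun i hi => swap_map_mem hu hs hi)
      (swap_map_injOn hH hxy (u := u) hs)

open Classical in
/-- The number of involutions swapping two distinct cosets equals the number fixing a coset. -/
theorem card_swapSet_eq [Fintype G] (hH : Cfsg.IsStronglyEmbedded H) (x y : G ⧸ H) :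
    (swapSet H x y).card = (swapSet H ((1 : G) : G ⧸ H) ((1 : G) : G ⧸ H)).card := by
  set n := (swapSet H ((1 : G) : G ⧸ H) ((1 : G) : G ⧸ H)).card with hn
  let Inv : Finset G := Finset.univ.filter (fun i => orderOf i = 2)
  have hInv : ∀ i, i ∈ Inv ↔ orderOf i = 2 := fun i => by simp [Inv]
  -- first count
  have h1 : Inv.card = ∑ y : G ⧸ H, (swapSet H x y).card := by
    rw [Finset.card_eq_sum_card_fiberwise (f := fun i => i • x) (t := Finset.univ)
      (fun _ _ => Finset.mem_coe.mpr (Finset.mem_univ _))]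
    apply Finset.sum_congr rfl
    intro y _
    congr 1
    ext i
    simp [Inv, swapSet]
  -- second count
  let F : G → G ⧸ H := fun i => if h : orderOf i = 2 then (exists_fixed hH h).choose else x
  have hF : ∀ i, orderOf i = 2 → ∀ z, F i = z ↔ i • z = z := by
    intro i hi z
    have h2 : i • F i = F i := by
      simp only [F, dif_pos hi]
      exact (exists_fixed hH hi).choose_spec
    constructor
    · rintro rfl; exact h2
    · intro hz; exact fixed_unique hH hi h2 hz
  have h2 : Inv.card = ∑ z : G ⧸ H, (swapSet H z z).card := by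
    rw [Finset.card_eq_sum_card_fiberwise (f := F) (t := Finset.univ)
      (fun _ _ => Finset.mem_coe.mpr (Finset.mem_univ _))]
    apply Finset.sum_congr rfl
    intro z _
    congr 1
    ext i
    simp only [Finset.mem_filter, hInv, mem_swapSet]
    constructor
    · rintro ⟨hi, hz⟩; exact ⟨hi, (hF i hi z).mp hz⟩
    · rintro ⟨hi, hz⟩; exact ⟨hi, (hF i hi z).mpr hz⟩
  have h3 : ∑ y : G ⧸ H, (swapSet H x y).card = ∑ _y : G ⧸ H, n := by
    rw [← h1, h2]
    apply Finset.sum_congr rfl
    intro z _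
    exact card_swapSet_self z
  have hle : ∀ y ∈ (Finset.univ : Finset (G ⧸ H)), (swapSet H x y).card ≤ n := by
    intro y _
    by_cases hxy : x = y
    · subst hxy; exact (card_swapSet_self x).le
    · exact (card_swapSet_le hH hxy).trans (card_swapSet_self x).le
  exact (Finset.sum_eq_sum_iff_of_le hle).mp h3 y (Finset.mem_univ y)

/-- Transitivity: any involution fixing `x` is the image of a given one under the comparison map. -/
theorem exists_swap_map_eq [Fintype G] (hH : Cfsg.IsStronglyEmbedded H) {x y : G ⧸ H}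
    (hxy : x ≠ y) {u s t : G} (hu : u ∈ swapSet H x y) (hs : s ∈ swapSet H x x)
    (ht : t ∈ swapSet H x x) : ∃ i ∈ swapSet H x y, (u * i) * s * (u * i)⁻¹ = t := by
  have hcard : (swapSet H x x).card ≤ (swapSet H x y).card := by
    rw [card_swapSet_eq hH x y, card_swapSet_eq hH x x]
  have := Finset.surjOn_of_injOn_of_card_le (fun i => (u * i) * s * (u * i)⁻¹)
    (fun i hi => swap_map_mem hu hs hi) (swap_map_injOn hH hxy (u := u) hs) hcard
  obtain ⟨i, hi, hi'⟩ := this ht
  exact ⟨i, hi, hi'⟩

end IsStronglyEmbedded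

end Cfsg.Agent.Lib.Helper21
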