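import Mathlib

/-! General Sylow-counting lemmas used for the recognition of `PSL(2,17)`, `PGL(2,17)` by Sylow
numbers (helper21). -/

set_option autoImplicit false
set_option linter.unusedSectionVars false
set_option linter.style.haveILetI false

namespace Cfsg.Agent.Lib.Helper21.Syl17

open Subgroup MulAction
open scoped Pointwise

variable {G : Type*} [Group G]

theorem mem_smul_iff {p : ℕ} (g x : G) (X : Sylow p G) : x ∈ g • X ↔ g⁻¹ * x * g ∈ X := by
  have : x ∈ g • X ↔ x ∈ MulAut.conj g • (X : Subgroup G) := Iff.rfl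
  rw [this, Subgroup.mem_pointwise_smul_iff_inv_smul_mem]
  simp only [MulAut.smul_def, MulAut.conj_inv_apply]
  exact Iff.rfl

/-- the number of Sylow subgroups is monotone along injective homomorphisms -/
theorem card_sylow_le_of_injective {H : Type*} [Group H] (p : ℕ) [Finite (Sylow p G)]
    (f : H →* G) (hf : Function.Injective f) :
    Nat.card (Sylow p H) ≤ Nat.card (Sylow p G) := by
  classical
  choose Q hQ using fun P : Sylow p H => P.exists_comap_eq_of_injective hf
  apply Nat.card_le_card_of_injective Q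
  intro P P' h
  apply Sylow.ext
  rw [← hQ P, ← hQ P', h]

/-- if a quotient has as many Sylow subgroups as the group, the kernel normalises all of them -/
theorem ker_le_normalizer_of_card_le {G' : Type*} [Group G'] [Finite G] (p : ℕ) [Fact p.Prime]
    (ψ : G →* G') (hψ : Function.Surjective ψ)
    (hc : Nat.card (Sylow p G) ≤ Nat.card (Sylow p G')) (P : Sylow p G) :
    ψ.ker ≤ normalizer ((P : Subgroup G) : Set G) := by
  have hbij := (Sylow.mapSurjective_surjective hψ p).bijective_of_nat_card_le hc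
  intro k hk
  apply Sylow.smul_eq_iff_mem_normalizer.mp
  apply hbij.1
  apply Sylow.ext
  rw [Sylow.coe_mapSurjective, Sylow.coe_mapSurjective]
  have hk1 : ψ k = 1 := hk
  ext y
  simp only [Subgroup.mem_map]
  constructor
  · rintro ⟨x, hx, rfl⟩
    refine ⟨k⁻¹ * x * k, (mem_smul_iff k x P).mp hx, ?_⟩
    simp [hk1]
  · rintro ⟨x, hx, rfl⟩
    refine ⟨k * x * k⁻¹, (mem_smul_iff k _ P).mpr ?_, ?_⟩
    · have : k⁻¹ * (k * x * k⁻¹) * k = x := by group
      rw [this]; exact hx
    · simp [hk1]

theorem sylow_eq_of_fix' {p : ℕ} [Fact p.Prime] (W Q : Sylow p G) (hg : ∀ g ∈ W, g • Q = Q) :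
    Q = W := by
  have h1 : Q ∈ fixedPoints (W : Subgroup G) (Sylow p G) := by
    intro g
    exact hg g g.2
  have h2 : (W : Subgroup G) ≤ Q := W.2.sylow_mem_fixedPoints_iff.mp h1
  exact Sylow.ext (W.3 Q.2 h2)

/-- a `p`-subgroup normalising a Sylow `p`-subgroup lies in it -/
theorem le_sylow_of_le_normalizer {p : ℕ} [Fact p.Prime] (A : Subgroup G) (hA : IsPGroup p A)
    (Q : Sylow p G) (h : A ≤ normalizer ((Q : Subgroup G) : Set G)) : A ≤ Q := by
  rw [← hA.sylow_mem_fixedPoints_iff]
  intro a
  exact Sylow.smul_eq_iff_mem_normalizer.mpr (h a.2)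

/-- `|N(R) : C(R)|` divides `p - 1` for `|R| = p` -/
theorem relIndex_dvd_pred' {p : ℕ} [Fact p.Prime] (R : Subgroup G) (hR : Nat.card R = p) :
    (centralizer (R : Set G)).relIndex (normalizer (R : Set G)) ∣ p - 1 := by
  have hcyc : IsCyclic R := isCyclic_of_prime_card hR
  have hp : p.Prime := Fact.out
  haveI : Finite R := Nat.finite_of_card_ne_zero (by rw [hR]; exact hp.ne_zero)
  have key := card_dvd_of_injective _
    (QuotientGroup.kerLift_injective R.normalizerMonoidHom)
  rw [normalizerMonoidHom_ker, ← index, ← relIndex, hcyc.card_mulAut, hR,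
    Nat.totient_prime Fact.out] at key
  exact key

/-- a nontrivial normal subgroup of `G` inside a `p`-subgroup `Q` contains a nontrivial element
centralised by `Q` -/
theorem exists_central_of_normal [Finite G] {q : ℕ} [Fact q.Prime] (Q : Subgroup G)
    (hQ : IsPGroup q Q) (A : Subgroup G) [A.Normal] (hAQ : A ≤ Q) (hA : A ≠ ⊥) :
    ∃ z ∈ A, z ≠ 1 ∧ ∀ g ∈ Q, g * z = z * g := by
  letI : MulAction Q A := MulAction.compHom A ((MulAut.conjNormal (H := A)).comp Q.subtype)
  have hsm : ∀ (g : Q) (a : A), ((g • a : A) : G) = (g : G) * a * (g : G)⁻¹ := by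
    intro g a
    rfl
  have hAp : IsPGroup q A := hQ.to_le hAQ
  have hd : q ∣ Nat.card A := by
    rcases hAp.card_eq_or_dvd with h | h
    · exact absurd (Subgroup.card_eq_one.mp h) hA
    · exact h
  have h1 : (1 : A) ∈ fixedPoints Q A := by
    intro g
    apply Subtype.ext
    rw [hsm]
    simp
  obtain ⟨b, hb, hne⟩ := hQ.exists_fixed_point_of_prime_dvd_card_of_fixed_point A hd h1
  refine ⟨b, b.2, ?_, ?_⟩
  · intro h
    exact hne (Subtype.ext h.symm)
  · intro g hg
    have := congrArg (fun a : A => (a : G)) (hb ⟨g, hg⟩)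
    simp only [hsm] at this
    calc g * b = g * b * g⁻¹ * g := by group
      _ = b * g := by rw [this]

/-- The intersection of the normalisers of all Sylow subgroups of a centreless group is trivial -/
theorem eq_bot_of_le_normalizers [Finite G] (hZ : center G = ⊥) (K : Subgroup G) [K.Normal]
    (hK : ∀ (p : ℕ) [Fact p.Prime] (P : Sylow p G), K ≤ normalizer ((P : Subgroup G) : Set G)) :
    K = ⊥ := by
  by_contra hne
  have hcard : Nat.card K ≠ 1 := fun h => hne (Subgroup.card_eq_one.mp h)
  obtain ⟨q, hq, hqd⟩ := Nat.exists_prime_and_dvd hcard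
  haveI : Fact q.Prime := ⟨hq⟩
  obtain ⟨x, hx⟩ := exists_prime_orderOf_dvd_card' q hqd
  obtain ⟨Q₀⟩ : Nonempty (Sylow q G) := inferInstance
  set A : Subgroup G := K ⊓ Q₀ with hAdef
  have hAp : IsPGroup q A := Q₀.2.to_le inf_le_right
  have hAall : ∀ Q : Sylow q G, A ≤ Q := fun Q =>
    le_sylow_of_le_normalizer A hAp Q (inf_le_left.trans (hK q Q))
  have hxA : (x : G) ∈ A := by
    refine ⟨x.2, ?_⟩
    have hz : IsPGroup q (zpowers (x : G)) := by
      apply IsPGroup.of_card (n := 1)
      rw [Nat.card_zpowers, pow_one, Subgroup.orderOf_coe, hx]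
    have hle : zpowers (x : G) ≤ K := by
      rw [zpowers_le]; exact x.2
    exact le_sylow_of_le_normalizer _ hz Q₀ (hle.trans (hK q Q₀)) (mem_zpowers _)
  have hAne : A ≠ ⊥ := by
    intro h
    rw [h, mem_bot] at hxA
    have : x = 1 := Subtype.ext hxA
    rw [this, orderOf_one] at hx
    exact hq.one_lt.ne hx
  haveI hAn : A.Normal := by
    constructor
    intro a ha g
    refine ⟨(inferInstance : K.Normal).conj_mem a ha.1 g, ?_⟩
    have := (mem_smul_iff g⁻¹ a Q₀).mp (hAall (g⁻¹ • Q₀) ha)
    simpa using this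
  obtain ⟨z, hzA, hz1, hzQ⟩ := exists_central_of_normal (Q₀ : Subgroup G) Q₀.2 A inf_le_right hAne
  have hcomm : ∀ (p : ℕ) [Fact p.Prime], p ≠ q → ∀ P : Sylow p G, ∀ g ∈ P, g * z = z * g := by
    intro p _ hpq P g hg
    have h1 : g * z * g⁻¹ * z⁻¹ ∈ (Q₀ : Subgroup G) :=
      (inf_le_right : A ≤ Q₀) (A.mul_mem (hAn.conj_mem z hzA g) (A.inv_mem hzA))
    have h2 : g * z * g⁻¹ * z⁻¹ ∈ (P : Subgroup G) := by
      have hzN := hK p P hzA.1
      have h3 : z * g⁻¹ * z⁻¹ ∈ (P : Subgroup G) :=
        (mem_normalizer_iff.mp hzN g⁻¹).mp ((P : Subgroup G).inv_mem hg)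
      have : g * z * g⁻¹ * z⁻¹ = g * (z * g⁻¹ * z⁻¹) := by group
      rw [this]
      exact (P : Subgroup G).mul_mem hg h3
    have hdis := IsPGroup.disjoint_of_ne p q hpq (P : Subgroup G) (Q₀ : Subgroup G) P.2 Q₀.2
    have h4 : g * z * g⁻¹ * z⁻¹ = 1 := by
      have := hdis.le_bot ⟨h2, h1⟩
      simpa using this
    calc g * z = g * z * g⁻¹ * z⁻¹ * (z * g) := by group
      _ = z * g := by rw [h4, one_mul]
  have hidx : (centralizer ({z} : Set G)).index = 1 := by
    rw [Nat.eq_one_iff_not_exists_prime_dvd]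
    intro p hp hd
    haveI : Fact p.Prime := ⟨hp⟩
    have key : ∃ P : Sylow p G, (P : Subgroup G) ≤ centralizer ({z} : Set G) := by
      by_cases hpq : p = q
      · subst hpq
        exact ⟨Q₀, fun g hg => by
          rw [mem_centralizer_singleton_iff]; exact hzQ g hg⟩
      · obtain ⟨P⟩ : Nonempty (Sylow p G) := inferInstance
        exact ⟨P, fun g hg => by
          rw [mem_centralizer_singleton_iff]; exact hcomm p hpq P g hg⟩
    obtain ⟨P, hP⟩ := key
    exact P.not_dvd_index (hd.trans (index_dvd_of_le hP))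
  have htop : centralizer ({z} : Set G) = ⊤ := index_eq_one.mp hidx
  have hzc : z ∈ center G := by
    rw [mem_center_iff]
    intro g
    have : g ∈ centralizer ({z} : Set G) := htop ▸ mem_top g
    rw [mem_centralizer_singleton_iff] at this
    exact this
  rw [hZ, mem_bot] at hzc
  exact hz1 hzc

/-- If a Sylow `r`-subgroup normalises all Sylow `p`-subgroups and `p` exactly divides the number
of Sylow `r`-subgroups then `r ∣ p - 1`. -/
theorem dvd_pred_of_normalizes [Finite G] {p r : ℕ} [Fact p.Prime] [Fact r.Prime] (R : Sylow r G)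
    (hR : ∀ P : Sylow p G, (R : Subgroup G) ≤ normalizer ((P : Subgroup G) : Set G))
    {c : ℕ} (hn : Nat.card (Sylow r G) = p * c) (hc : ¬ p ∣ c) : r ∣ p - 1 := by
  have hp : p.Prime := Fact.out
  set N : Subgroup G := normalizer ((R : Subgroup G) : Set G) with hN
  have hidx : N.index = p * c := by rw [← hn, R.card_eq_index_normalizer]; rfl
  obtain ⟨P₀⟩ : Nonempty (Sylow p N) := inferInstance
  have hP₀' : IsPGroup p ((P₀ : Subgroup N).map N.subtype) := P₀.2.map _
  obtain ⟨P, hP⟩ := hP₀'.exists_le_sylow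
  set D : Subgroup G := (P : Subgroup G) ⊓ N with hD
  have hDN : D.subgroupOf N = P₀ := by
    apply P₀.3
    · exact (P.2.to_le inf_le_left).comap_subtype
    · intro x hx
      rw [mem_subgroupOf]
      exact ⟨hP (mem_map_of_mem _ hx), x.2⟩
  have hcD : Nat.card D = Nat.card P₀ := by
    rw [← Nat.card_congr (subgroupOfEquivOfLe (inf_le_right : D ≤ N)).toEquiv, hDN]
  have hc0 : c ≠ 0 := fun h => hc (h ▸ dvd_zero p)
  have hcP : Nat.card P = p * Nat.card D := by
    rw [hcD, Sylow.card_eq_multiplicity, Sylow.card_eq_multiplicity, ← N.card_mul_index, hidx,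
      Nat.factorization_mul Nat.card_pos.ne' (mul_ne_zero hp.ne_zero hc0),
      Nat.factorization_mul hp.ne_zero hc0]
    simp [hp.factorization_self, Nat.factorization_eq_zero_of_not_dvd hc, pow_succ, mul_comm]
  have hstab : stabilizer (P : Subgroup G) R = D.subgroupOf P := by
    ext x
    rw [mem_stabilizer_iff, mem_subgroupOf]
    constructor
    · intro h
      exact ⟨x.2, Sylow.smul_eq_iff_mem_normalizer.mp h⟩
    · intro h
      exact Sylow.smul_eq_iff_mem_normalizer.mpr h.2
  have horb : Nat.card (orbit (P : Subgroup G) R) = p := by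
    have h2 := Nat.card_congr (orbitProdStabilizerEquivGroup (P : Subgroup G) R)
    rw [Nat.card_prod, hstab,
      Nat.card_congr (subgroupOfEquivOfLe (inf_le_left : D ≤ P)).toEquiv] at h2
    have h3 : Nat.card (orbit (P : Subgroup G) R) * Nat.card D = p * Nat.card D := by
      rw [h2]; exact hcP
    exact Nat.eq_of_mul_eq_mul_right Nat.card_pos h3
  let Ω : SubMulAction (R : Subgroup G) (Sylow r G) :=
    { carrier := orbit (P : Subgroup G) R
      smul_mem' := by
        rintro y _ ⟨x, rfl⟩
        have hy : (y : G) * x * (y : G)⁻¹ ∈ (P : Subgroup G) :=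
          (mem_normalizer_iff.mp (hR P y.2) x).mp x.2
        refine ⟨⟨_, hy⟩, ?_⟩
        show ((y : G) * x * (y : G)⁻¹) • R = (y : G) • ((x : G) • R)
        have hyR : (y : G)⁻¹ • R = R :=
          Sylow.smul_eq_iff_mem_normalizer.mpr (le_normalizer ((R : Subgroup G).inv_mem y.2))
        rw [mul_smul, mul_smul, hyR] }
  have hΩ : Nat.card Ω = p := horb
  have hmod := R.2.card_modEq_card_fixedPoints Ω
  have hfix : Nat.card (fixedPoints (R : Subgroup G) Ω) = 1 := by
    rw [Nat.card_eq_one_iff_unique]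
    constructor
    · constructor
      rintro ⟨a, ha⟩ ⟨b, hb⟩
      have key : ∀ a : Ω, a ∈ fixedPoints (R : Subgroup G) Ω → (a : Sylow r G) = R := by
        intro a ha
        apply sylow_eq_of_fix'
        intro g hg
        exact congrArg (fun w : Ω => (w : Sylow r G)) (ha ⟨g, hg⟩)
      apply Subtype.ext
      apply Subtype.ext
      rw [key a ha, key b hb]
    · refine ⟨⟨⟨R, mem_orbit_self _⟩, ?_⟩⟩
      intro y
      apply Subtype.ext
      exact Sylow.smul_eq_iff_mem_normalizer.mpr (le_normalizer y.2)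
  rw [hΩ, hfix] at hmod
  exact (Nat.modEq_iff_dvd' hp.one_le).mp hmod.symm

/-- the normaliser of a subgroup of order 17 in the symmetric group of degree 18 -/
theorem card_normalizer_dvd {X : Type*} [Fintype X] [DecidableEq X] (hX : Fintype.card X = 18)
    (R : Subgroup (Equiv.Perm X)) (hR : Nat.card R = 17) :
    Nat.card (normalizer (R : Set (Equiv.Perm X))) ∣ 272 := by
  haveI : Fact (Nat.Prime 17) := ⟨by norm_num⟩
  obtain ⟨x, hx⟩ := exists_prime_orderOf_dvd_card' (G := R) 17 (by rw [hR])
  set σ : Equiv.Perm X := (x : Equiv.Perm X) with hσ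
  have ho : orderOf σ = 17 := by rw [hσ, Subgroup.orderOf_coe, hx]
  obtain ⟨n, hn⟩ := Equiv.Perm.cycleType_prime_order (σ := σ) (by rw [ho]; norm_num)
  rw [ho] at hn
  have hsum := Equiv.Perm.sum_cycleType σ
  have hle : σ.support.card ≤ 18 := by
    rw [← hX]; exact Finset.card_le_univ _
  rw [hn] at hsum
  simp at hsum
  have hn0 : n = 0 := by omega
  subst hn0
  have hcent : Nat.card (centralizer ({σ} : Set (Equiv.Perm X))) = 17 := by
    rw [Equiv.Perm.nat_card_centralizer, hn, hX]
    simp
  have hle2 : centralizer (R : Set (Equiv.Perm X)) ≤ centralizer ({σ} : Set (Equiv.Perm X)) := by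
    apply centralizer_le
    intro y hy
    rw [Set.mem_singleton_iff] at hy
    rw [hy]
    exact x.2
  have h1 : Nat.card (centralizer (R : Set (Equiv.Perm X))) ∣ 17 := by
    rw [← hcent]; exact card_dvd_of_le hle2
  have h2 := relIndex_dvd_pred' (p := 17) R hR
  have h3 : (centralizer (R : Set (Equiv.Perm X))).relIndex (normalizer (R : Set (Equiv.Perm X)))
      * Nat.card (centralizer (R : Set (Equiv.Perm X)))
      = Nat.card (normalizer (R : Set (Equiv.Perm X))) := by
    have h4 := (( centralizer (R : Set (Equiv.Perm X))).subgroupOf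
      (normalizer (R : Set (Equiv.Perm X)))).card_mul_index
    rw [Nat.card_congr (subgroupOfEquivOfLe (centralizer_le_normalizer _)).toEquiv] at h4
    rw [← h4, mul_comm]
    rfl
  rw [← h3]
  exact mul_dvd_mul h2 h1

end Cfsg.Agent.Lib.Helper21.Syl17
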