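import Cfsg.Agent.Lib.Helper41.Dickson.Cards
import Cfsg.Agent.Lib.Helper14.PGL2Sub
import Cfsg.Agent.Lib.Helper21.Syl17a

/-! Sylow numbers of `PSL(2,17)` and `PGL(2,17)` (lower bounds), via Dickson's theorem (helper21). -/

set_option autoImplicit false
set_option linter.unusedSectionVars false
set_option linter.style.haveILetI false

namespace Cfsg.Agent.Lib.Helper21.Syl17

open Subgroup

theorem normalizer_ne_top {S : Type*} [Group S] [IsSimpleGroup S] (Q : Subgroup S) (h1 : Q ≠ ⊥)
    (h2 : Q ≠ ⊤) : normalizer (Q : Set S) ≠ ⊤ := by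
  intro h
  have hn : Q.Normal := normalizer_eq_top_iff.mp h
  rcases hn.eq_bot_or_eq_top with h | h
  · exact h1 h
  · exact h2 h

theorem card_sylow_eq_pow {G : Type*} [Group G] [Finite G] {r k m : ℕ} [Fact r.Prime]
    (hG : Nat.card G = r ^ k * m) (hm : ¬ r ∣ m) (S : Sylow r G) : Nat.card S = r ^ k := by
  have hr : r.Prime := Fact.out
  have hm0 : m ≠ 0 := fun h => hm (h ▸ dvd_zero r)
  rw [Sylow.card_eq_multiplicity, hG, Nat.factorization_mul (pow_ne_zero _ hr.ne_zero) hm0]
  simp [hr.factorization_self, Nat.factorization_eq_zero_of_not_dvd hm]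

section PSL
variable {F : Type*} [Field F] [Fintype F]

local notation "S" => Matrix.ProjectiveSpecialLinearGroup (Fin 2) F

theorem card_S (hF : Fintype.card F = 17) : Nat.card S = 2448 := by
  have h := Cfsg.Agent.Lib.Helper41.Dickson.natCard_PSL2 F
  rw [Nat.card_eq_fintype_card, hF] at h
  norm_num at h
  omega

theorem simple_S (hF : Fintype.card F = 17) : IsSimpleGroup S :=
  Matrix.ProjectiveSpecialLinearGroup.rank_two_simple
    (by rw [Nat.card_eq_fintype_card, hF]; norm_num)

theorem ne_of_card (hF : Fintype.card F = 17) (Q : Subgroup S) {n : ℕ} (hQ : Nat.card Q = n)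
    (h1 : n ≠ 1) (h2 : n ≠ 2448) : Q ≠ ⊥ ∧ Q ≠ ⊤ := by
  constructor
  · rintro rfl
    rw [card_bot] at hQ
    exact h1 hQ.symm
  · rintro rfl
    rw [card_top, card_S hF] at hQ
    exact h2 hQ.symm

theorem divisors144 : ∀ n ∈ Nat.divisors 144, n % 17 = 1 → n = 1 ∨ n = 18 := by decide

theorem card_normalizer17 [Fact (Nat.Prime 17)] (hF : Fintype.card F = 17) (P : Sylow 17 S) :
    Nat.card (normalizer ((P : Subgroup S) : Set S)) = 136 := by
  haveI := simple_S hF
  have hP : Nat.card P = 17 := by
    have := card_sylow_eq_pow (r := 17) (k := 1) (m := 144) (by rw [card_S hF]; norm_num) (by norm_num) P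
    simpa using this
  have hidx : (P : Subgroup S).index = 144 := by
    have := (P : Subgroup S).card_mul_index
    rw [card_S hF] at this
    have h2 : Nat.card (P : Subgroup S) = 17 := hP
    rw [h2] at this
    omega
  have h1 := card_sylow_modEq_one 17 S
  have h2 := P.card_dvd_index
  rw [hidx] at h2
  have h3 := divisors144 _ (Nat.mem_divisors.mpr ⟨h2, by norm_num⟩) h1
  have h4 := (normalizer ((P : Subgroup S) : Set S)).card_mul_index
  have h5 : (normalizer ((P : Subgroup S) : Set S)).index = Nat.card (Sylow 17 S) :=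
    P.card_eq_index_normalizer.symm
  rw [card_S hF, h5] at h4
  rcases h3 with h3 | h3
  · exfalso
    rw [h3] at h5
    obtain ⟨ha, hb⟩ := ne_of_card hF (P : Subgroup S) hP (by norm_num) (by norm_num)
    exact normalizer_ne_top _ ha hb (index_eq_one.mp h5)
  · rw [h3] at h4
    omega

theorem proper_card [Fact (Nat.Prime 17)] [CharP F 17] (hF : Fintype.card F = 17) (H : Subgroup S)
    (hH : H ≠ ⊤) :
    Nat.card H ∣ 16 ∨ Nat.card H ∣ 18 ∨ Nat.card H ∣ 136 ∨ Nat.card H = 12 ∨ Nat.card H = 24 ∨
      Nat.card H = 60 := by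
  have hg : Nat.gcd 2 (17 - 1) = 2 := by norm_num
  rcases Cfsg.Agent.Lib.Helper41.Dickson.dickson_card 17 H with
    ⟨-, h⟩ | ⟨k, h, -, hk⟩ | ⟨P, hP⟩ | ⟨-, h⟩ | ⟨-, h⟩ | ⟨-, h⟩ | ⟨K, m, hm, hKm, hK2, h⟩
  · rw [hF, hg] at h
    rcases h with h | h
    · left; exact (Dvd.intro_left 2 rfl).trans h
    · right; left; exact (Dvd.intro_left 2 rfl).trans h
  · rw [hF, hg, ← hk] at h
    rcases h with h | h
    · left; exact h
    · right; left; exact h
  · right; right; left
    rw [← card_normalizer17 hF P]
    exact card_dvd_of_le hP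
  · right; right; right; left; exact h
  · right; right; right; right; left; exact h
  · right; right; right; right; right; exact h
  · exfalso
    rw [hF] at hKm
    have h17 : Nat.Prime 17 := by norm_num
    have hK : Nat.card K = 17 := ((Nat.Prime.pow_eq_iff h17).mp hKm.symm).1
    rw [hF, hg, hK] at h
    rcases h with ⟨-, h⟩ | ⟨-, h⟩
    · apply hH
      apply eq_top_of_card_eq
      rw [card_S hF]
      omega
    · have := card_le_card_group H
      rw [card_S hF] at this
      omega

theorem card_sylow3_S [Fact (Nat.Prime 17)] [CharP F 17] [Fact (Nat.Prime 3)]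
    (hF : Fintype.card F = 17) : 136 ≤ Nat.card (Sylow 3 S) := by
  haveI := simple_S hF
  obtain ⟨Q⟩ : Nonempty (Sylow 3 S) := inferInstance
  have hQ : Nat.card Q = 9 := by
    have := card_sylow_eq_pow (r := 3) (k := 2) (m := 272) (by rw [card_S hF]; norm_num) (by norm_num) Q
    simpa using this
  obtain ⟨ha, hb⟩ := ne_of_card hF (Q : Subgroup S) hQ (by norm_num) (by norm_num)
  have hM := normalizer_ne_top _ ha hb
  have h9 : 9 ∣ Nat.card (normalizer ((Q : Subgroup S) : Set S)) := by
    rw [← hQ]; exact card_dvd_of_le le_normalizer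
  have h4 := (normalizer ((Q : Subgroup S) : Set S)).card_mul_index
  have h5 : (normalizer ((Q : Subgroup S) : Set S)).index = Nat.card (Sylow 3 S) :=
    Q.card_eq_index_normalizer.symm
  rw [card_S hF, h5] at h4
  have hle : Nat.card (normalizer ((Q : Subgroup S) : Set S)) ≤ 18 := by
    rcases proper_card hF _ hM with h | h | h | h | h | h
    · exact absurd (h9.trans h) (by norm_num)
    · exact Nat.le_of_dvd (by norm_num) h
    · exact absurd (h9.trans h) (by norm_num)
    · rw [h] at h9; exact absurd h9 (by norm_num)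
    · rw [h] at h9; exact absurd h9 (by norm_num)
    · rw [h] at h9; exact absurd h9 (by norm_num)
  by_contra hcon
  push Not at hcon
  have : Nat.card (normalizer ((Q : Subgroup S) : Set S)) * Nat.card (Sylow 3 S) ≤ 18 * 135 :=
    Nat.mul_le_mul hle (by omega)
  omega

theorem card_sylow2_S [Fact (Nat.Prime 17)] [CharP F 17] [Fact (Nat.Prime 2)]
    (hF : Fintype.card F = 17) : 153 ≤ Nat.card (Sylow 2 S) := by
  haveI := simple_S hF
  obtain ⟨Q⟩ : Nonempty (Sylow 2 S) := inferInstance
  have hQ : Nat.card Q = 16 := by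
    have := card_sylow_eq_pow (r := 2) (k := 4) (m := 153) (by rw [card_S hF]; norm_num) (by norm_num) Q
    simpa using this
  obtain ⟨ha, hb⟩ := ne_of_card hF (Q : Subgroup S) hQ (by norm_num) (by norm_num)
  have hM := normalizer_ne_top _ ha hb
  have h9 : 16 ∣ Nat.card (normalizer ((Q : Subgroup S) : Set S)) := by
    rw [← hQ]; exact card_dvd_of_le le_normalizer
  have h4 := (normalizer ((Q : Subgroup S) : Set S)).card_mul_index
  have h5 : (normalizer ((Q : Subgroup S) : Set S)).index = Nat.card (Sylow 2 S) :=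
    Q.card_eq_index_normalizer.symm
  rw [card_S hF, h5] at h4
  have hle : Nat.card (normalizer ((Q : Subgroup S) : Set S)) ≤ 16 := by
    rcases proper_card hF _ hM with h | h | h | h | h | h
    · exact Nat.le_of_dvd (by norm_num) h
    · exact absurd (h9.trans h) (by norm_num)
    · exact absurd (h9.trans h) (by norm_num)
    · rw [h] at h9; exact absurd h9 (by norm_num)
    · rw [h] at h9; exact absurd h9 (by norm_num)
    · rw [h] at h9; exact absurd h9 (by norm_num)
  by_contra hcon
  push Not at hcon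
  have : Nat.card (normalizer ((Q : Subgroup S) : Set S)) * Nat.card (Sylow 2 S) ≤ 16 * 152 :=
    Nat.mul_le_mul hle (by omega)
  omega

theorem card_PGL (hF : Fintype.card F = 17) :
    Nat.card (Matrix.ProjGenLinGroup (Fin 2) F) = 4896 := by
  rw [Cfsg.Agent.Lib.Helper41.Dickson.natCard_PGL2 F, Nat.card_eq_fintype_card, hF]
  norm_num

theorem finite_PGL (L : Type*) [Field L] [Finite L] :
    Finite (Matrix.ProjGenLinGroup (Fin 2) L) :=
  Nat.finite_of_card_ne_zero (by
    rw [Cfsg.Agent.Lib.Helper41.Dickson.natCard_PGL2 L]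
    have : 2 ≤ Nat.card L := Finite.one_lt_card
    have h2 : 2 ^ 2 ≤ Nat.card L ^ 2 := Nat.pow_le_pow_left this 2
    have h3 : 0 < Nat.card L ^ 2 - 1 := by omega
    positivity)

theorem card_sylow_S_le_PGL (p : ℕ) :
    Nat.card (Sylow p S) ≤ Nat.card (Sylow p (Matrix.ProjGenLinGroup (Fin 2) F)) := by
  haveI := finite_PGL F
  exact card_sylow_le_of_injective p Matrix.ProjectiveSpecialLinearGroup.toPGL
    Matrix.ProjectiveSpecialLinearGroup.toPGL_injective

/-- `PGL₂` of isomorphic finite fields -/
theorem pglCongr {K K' : Type*} [Field K] [Field K'] [Finite K] (e : K ≃+* K') :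
    Nonempty (Matrix.ProjGenLinGroup (Fin 2) K ≃* Matrix.ProjGenLinGroup (Fin 2) K') := by
  classical
  haveI : Finite K' := Finite.of_equiv K e.toEquiv
  haveI := Fintype.ofFinite K
  haveI := Fintype.ofFinite K'
  haveI := finite_PGL K
  haveI := finite_PGL K'
  have hφ := Cfsg.Agent.Lib.Helper14.pgl2_map_injective (e : K →+* K')
  have hψ := Cfsg.Agent.Lib.Helper14.pgl2_map_injective (e.symm : K' →+* K)
  have hbij := hφ.bijective_of_nat_card_le (Nat.card_le_card_of_injective _ hψ)
  exact ⟨MulEquiv.ofBijective _ hbij⟩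

end PSL

end Cfsg.Agent.Lib.Helper21.Syl17
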