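import Mathlib

/-! Abstract analysis of a faithful, even action on 21 points in which a subgroup `P` of
order 5 has a unique fixed point `a` whose stabiliser is the normaliser of `P` (helper21).
Used for: no finite group has exactly 21 Sylow 5-subgroups. -/

set_option autoImplicit false
set_option linter.unusedSectionVars false

namespace Cfsg.Agent.Lib.Helper21.Syl21

open MulAction Subgroup Equiv.Perm

instance fact5 : Fact (Nat.Prime 5) := ⟨by norm_num⟩

/-- a nontrivial 2-element has a power of order two -/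
theorem exists_pow_orderOf_two {G : Type*} [Group G] (s : G) (k : ℕ) (hs : s ^ 2 ^ k = 1)
    (h1 : s ≠ 1) : ∃ m : ℕ, orderOf (s ^ m) = 2 := by
  have hd : orderOf s ∣ 2 ^ k := orderOf_dvd_of_pow_eq_one hs
  obtain ⟨j, _, hj⟩ := (Nat.dvd_prime_pow Nat.prime_two).mp hd
  have hj0 : j ≠ 0 := by
    rintro rfl
    rw [pow_zero, orderOf_eq_one_iff] at hj
    exact h1 hj
  have h2 : 2 ∣ orderOf s := by
    rw [hj]; exact dvd_pow_self 2 hj0
  have hpos : orderOf s ≠ 0 := by rw [hj]; positivity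
  exact ⟨orderOf s / 2, orderOf_pow_orderOf_div hpos h2⟩

/-- an element killed by a power of two and by five is trivial -/
theorem eq_one_of_pow_two_pow_five {G : Type*} [Group G] (s : G) (k : ℕ) (hs : s ^ 2 ^ k = 1)
    (h5 : s ^ 5 = 1) : s = 1 := by
  have h1 : orderOf s ∣ 2 ^ k := orderOf_dvd_of_pow_eq_one hs
  have h2 : orderOf s ∣ 5 := orderOf_dvd_of_pow_eq_one h5
  have hc : Nat.Coprime (2 ^ k) 5 := Nat.Coprime.pow_left k (by norm_num)
  exact orderOf_eq_one_iff.mp (Nat.eq_one_of_dvd_coprimes hc h1 h2)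

section Act
variable {G : Type*} [Group G] {Ω : Type*} [Fintype Ω] [DecidableEq Ω] [MulAction G Ω]

theorem pow_smul_fix (c : G) (x : Ω) (hx : c • x = x) (m : ℕ) : c ^ m • x = x := by
  induction m with
  | zero => simp
  | succ m ih => rw [pow_succ, mul_smul, hx, ih]

theorem card_fix_add_support (c : G) :
    Fintype.card {x : Ω // c • x = x} + (toPerm c : Equiv.Perm Ω).support.card
      = Fintype.card Ω := by
  rw [Fintype.card_subtype]
  have : (toPerm c : Equiv.Perm Ω).support = Finset.univ.filter (fun x : Ω => ¬ c • x = x) := by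
    ext x; simp
  rw [this]
  exact Finset.card_filter_add_card_filter_not _

theorem fix_mod (c z : G) (hcz : Commute c z) (hz : z ^ 5 = 1) (R : Ω)
    (hR : ∀ x : Ω, z • x = x ↔ x = R) : Fintype.card {x : Ω // c • x = x} % 5 = 1 := by
  have hcR : c • R = R := by
    rw [← hR, smul_smul, ← hcz.eq, mul_smul, (hR R).mpr rfl]
  let f : Function.End {x : Ω // c • x = x} := fun x =>
    ⟨z • x.1, by rw [smul_smul, hcz.eq, mul_smul, x.2]⟩
  have hfn : ∀ (n : ℕ) (x : {x : Ω // c • x = x}), ((f ^ n) x).1 = z ^ n • x.1 := by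
    intro n
    induction n with
    | zero => intro x; rw [pow_zero, pow_zero, one_smul]; rfl
    | succ n ih =>
      intro x
      rw [pow_succ']
      show z • ((f ^ n) x).1 = _
      rw [ih, smul_smul, ← pow_succ']
  have hf : f ^ 5 ^ 1 = 1 := by
    funext x
    apply Subtype.ext
    rw [pow_one, hfn, hz, one_smul]; rfl
  have h1 := Equiv.Perm.card_fixedPoints_modEq (p := 5) (n := 1) hf
  have h2 : Fintype.card (Function.fixedPoints f) = 1 := by
    rw [Fintype.card_eq_one_iff]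
    refine ⟨⟨⟨R, hcR⟩, ?_⟩, ?_⟩
    · show f _ = _
      apply Subtype.ext
      exact (hR R).mpr rfl
    · rintro ⟨⟨y, hy⟩, hy'⟩
      apply Subtype.ext
      apply Subtype.ext
      show y = R
      rw [← hR]
      exact congrArg Subtype.val hy'
  rw [h2] at h1
  exact h1

/-- an even permutation of order two moves a multiple of four points -/
theorem four_dvd_support (σ : Equiv.Perm Ω) (ho : orderOf σ = 2) (hs : Equiv.Perm.sign σ = 1) :
    4 ∣ σ.support.card := by
  obtain ⟨n, hn⟩ := cycleType_prime_order (σ := σ) (by rw [ho]; norm_num)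
  have hsum := sum_cycleType σ
  rw [hn, ho, Multiset.sum_replicate, smul_eq_mul] at hsum
  rw [sign_of_cycleType, hn, ho, Multiset.sum_replicate, Multiset.card_replicate,
    smul_eq_mul] at hs
  have hev : Even ((n + 1) * 2 + (n + 1)) := by
    by_contra hodd
    rw [Nat.not_even_iff_odd] at hodd
    rw [hodd.neg_one_pow] at hs
    exact absurd hs (by decide)
  have hev2 : Even (n + 1) := by
    rcases hev with ⟨r, hr⟩
    exact ⟨r - (n + 1), by omega⟩
  obtain ⟨r, hr⟩ := hev2
  exact ⟨r, by omega⟩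

structure Setup (G : Type*) [Group G] (Ω : Type*) [Fintype Ω] [DecidableEq Ω] [MulAction G Ω]
    (P : Subgroup G) (a : Ω) : Prop where
  card : Fintype.card Ω = 21
  faithful : ∀ g : G, (∀ x : Ω, g • x = x) → g = 1
  even : ∀ g : G, Equiv.Perm.sign (toPerm g : Equiv.Perm Ω) = 1
  stab : ∀ g : G, g • a = a ↔ g ∈ normalizer (P : Set G)
  cardP : Nat.card P = 5
  fix : ∀ x ∈ P, x ≠ 1 → ∀ ω : Ω, x • ω = ω → ω = a

variable {P : Subgroup G} {a : Ω}

theorem Setup.mem_zpowers (h : Setup G Ω P a) {x y : G} (hx : x ∈ P) (hy : y ∈ P) (hy1 : y ≠ 1) :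
    x ∈ zpowers y := by
  have h1 : (⟨x, hx⟩ : P) ∈ zpowers (⟨y, hy⟩ : P) :=
    mem_zpowers_of_prime_card h.cardP (fun h' => hy1 (congrArg Subtype.val h'))
  obtain ⟨k, hk⟩ := h1
  exact ⟨k, by simpa using congrArg Subtype.val hk⟩

theorem Setup.comm (h : Setup G Ω P a) {x y : G} (hx : x ∈ P) (hy : y ∈ P) : x * y = y * x := by
  by_cases hy1 : y = 1
  · rw [hy1]; simp
  · obtain ⟨k, rfl⟩ := h.mem_zpowers hx hy hy1
    exact ((Commute.refl y).zpow_left k).eq

theorem Setup.pow_five (h : Setup G Ω P a) {x : G} (hx : x ∈ P) : x ^ 5 = 1 := by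
  have : (⟨x, hx⟩ : P) ^ Nat.card P = 1 := pow_card_eq_one'
  rw [h.cardP] at this
  simpa using congrArg Subtype.val this

theorem Setup.smul_base (h : Setup G Ω P a) {x : G} (hx : x ∈ P) : x • a = a :=
  (h.stab x).mpr (le_normalizer hx)

theorem Setup.exists_ne_one (h : Setup G Ω P a) : ∃ z ∈ P, z ≠ 1 := by
  have : Nontrivial P := by
    have h1 : 1 < Nat.card P := by rw [h.cardP]; norm_num
    have := Nat.finite_of_card_ne_zero (α := P) (by rw [h.cardP]; norm_num)
    exact Finite.one_lt_card_iff_nontrivial.mp h1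
  obtain ⟨z, hz⟩ := exists_ne (1 : P)
  exact ⟨z, z.2, fun h' => hz (Subtype.ext h')⟩

theorem Setup.orderOf_toPerm (h : Setup G Ω P a) (z : G) :
    orderOf (toPerm z : Equiv.Perm Ω) = orderOf z := by
  refine orderOf_injective (toPermHom G Ω) ?_ z
  rw [injective_iff_map_eq_one]
  intro g hg
  apply h.faithful
  intro x
  have := congrArg (fun σ : Equiv.Perm Ω => σ x) hg
  simpa using this

theorem Setup.smul_base_of_central (h : Setup G Ω P a) {c : G} (hc : ∀ x ∈ P, c * x = x * c) :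
    c • a = a := by
  rw [h.stab, mem_normalizer_iff]
  intro x
  constructor
  · intro hx
    rw [hc x hx, mul_inv_cancel_right]; exact hx
  · intro hx
    have := hc _ hx
    have h2 : x = c * x * c⁻¹ := by
      have h3 : c * (c * x * c⁻¹) = c * x := by
        rw [this]; group
      exact (mul_left_cancel h3).symm
    rw [h2]; exact hx

theorem Setup.invol_fix_mod (h : Setup G Ω P a) (t : G) (ht : orderOf t = 2) :
    Fintype.card {x : Ω // t • x = x} % 4 = 1 := by
  have h1 := card_fix_add_support (Ω := Ω) t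
  have h2 := four_dvd_support (toPerm t : Equiv.Perm Ω) (by rw [h.orderOf_toPerm, ht]) (h.even t)
  rw [h.card] at h1
  omega

theorem Setup.central_fix_mod (h : Setup G Ω P a) (c : G) (hc : ∀ x ∈ P, c * x = x * c) :
    Fintype.card {x : Ω // c • x = x} % 5 = 1 := by
  obtain ⟨z, hz, hz1⟩ := h.exists_ne_one
  exact fix_mod c z (hc z hz) (h.pow_five hz) a
    (fun x => ⟨h.fix z hz hz1 x, fun hx => hx ▸ h.smul_base hz⟩)

theorem Setup.invol_central (h : Setup G Ω P a) (t : G) (ht : orderOf t = 2)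
    (hc : ∀ x ∈ P, t * x = x * t) (ω : Ω) (hω : t • ω = ω) : ω = a := by
  have h4 := h.invol_fix_mod t ht
  have h5 := h.central_fix_mod t hc
  have hle : Fintype.card {x : Ω // t • x = x} ≤ 21 := by
    rw [← h.card]; exact Fintype.card_subtype_le _
  have hne : Fintype.card {x : Ω // t • x = x} ≠ 21 := by
    intro h21
    have h1 := card_fix_add_support (Ω := Ω) t
    rw [h.card, h21] at h1
    have h0 : (toPerm t : Equiv.Perm Ω).support.card = 0 := by omega
    rw [Finset.card_eq_zero, support_eq_empty_iff] at h0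
    have : t = 1 := by
      apply h.faithful
      intro x
      have := congrArg (fun σ : Equiv.Perm Ω => σ x) h0
      simpa using this
    rw [this, orderOf_one] at ht
    norm_num at ht
  have h1 : Fintype.card {x : Ω // t • x = x} = 1 := by omega
  rw [Fintype.card_eq_one_iff] at h1
  obtain ⟨y, hy⟩ := h1
  have e1 := hy ⟨ω, hω⟩
  have e2 := hy ⟨a, h.smul_base_of_central hc⟩
  exact congrArg Subtype.val (e1.trans e2.symm)

theorem Setup.two_central (h : Setup G Ω P a) (s : G) (k : ℕ) (hs : s ^ 2 ^ k = 1) (h1 : s ≠ 1)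
    (hc : ∀ x ∈ P, s * x = x * s) (ω : Ω) (hω : s • ω = ω) : ω = a := by
  obtain ⟨m, hm⟩ := exists_pow_orderOf_two s k hs h1
  refine h.invol_central (s ^ m) hm ?_ ω (pow_smul_fix s ω hω m)
  intro x hx
  exact ((show Commute s x from hc x hx).pow_left m).eq

/-- an element of the point stabiliser whose square centralises `P` centralises or inverts -/
theorem Setup.inverts (h : Setup G Ω P a) (t : G) (hta : t • a = a)
    (ht2 : ∀ x ∈ P, (t * t) * x = x * (t * t)) (hnc : ¬ ∀ x ∈ P, t * x = x * t) :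
    ∀ x ∈ P, t * x * t⁻¹ = x⁻¹ := by
  intro x hx
  have hN := (h.stab t).mp hta
  have hx' : t * x * t⁻¹ ∈ P := (mem_normalizer_iff.mp hN x).mp hx
  set y := x * (t * x * t⁻¹) with hy
  have hyP : y ∈ P := P.mul_mem hx hx'
  have hty : t * y = y * t := by
    have e1 : t * y = (t * x * t⁻¹) * ((t * t) * x) * t⁻¹ := by rw [hy]; group
    rw [e1, ht2 x hx, hy, h.comm hx hx']
    group
  have hy1 : y = 1 := by
    by_contra hne
    apply hnc
    intro v hv
    obtain ⟨k, rfl⟩ := h.mem_zpowers hv hyP hne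
    exact ((show Commute t y from hty).zpow_right k).eq
  exact (eq_inv_of_mul_eq_one_right hy1)


theorem orderOf_conj' {G : Type*} [Group G] (g u : G) : orderOf (g * u * g⁻¹) = orderOf u :=
  orderOf_injective (MulAut.conj g).toMonoidHom (MulAut.conj g).injective u

theorem Setup.card_ne_base (h : Setup G Ω P a) : Nat.card {γ : Ω // γ ≠ a} = 20 := by
  rw [Nat.card_eq_fintype_card, Fintype.card_subtype_compl, h.card]
  simp

theorem Setup.card_fix_ne (h : Setup G Ω P a) (w : G) (hwa : w • a = a) :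
    Nat.card {β : Ω // w • β = β ∧ β ≠ a} + 1 = Fintype.card {x : Ω // w • x = x} := by
  rw [Nat.card_eq_fintype_card, Fintype.card_subtype, Fintype.card_subtype]
  have : Finset.univ.filter (fun x : Ω => w • x = x)
      = insert a (Finset.univ.filter (fun x : Ω => w • x = x ∧ x ≠ a)) := by
    ext x
    simp only [Finset.mem_filter, Finset.mem_univ, true_and, Finset.mem_insert]
    constructor
    · intro hx
      by_cases hxa : x = a
      · exact Or.inl hxa
      · exact Or.inr ⟨hx, hxa⟩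
    · rintro (rfl | hx)
      · exact hwa
      · exact hx.1
  rw [this, Finset.card_insert_of_notMem (by simp)]

/-- two involutions of the point stabiliser with further fixed points, whose product is a
2-element, coincide -/
theorem Setup.caseW (h : Setup G Ω P a) (w x : G) (hw : orderOf w = 2) (hx : orderOf x = 2)
    (hwa : w • a = a) (hxa : x • a = a) (β γ : Ω) (hβ : β ≠ a) (hγ : γ ≠ a)
    (hwβ : w • β = β) (hxγ : x • γ = γ) (k : ℕ) (hs : (x * w) ^ 2 ^ k = 1) : x = w := by
  have hww : w * w = 1 := by rw [← sq, ← hw, pow_orderOf_eq_one]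
  have hxx : x * x = 1 := by rw [← sq, ← hx, pow_orderOf_eq_one]
  have hwi : ∀ y ∈ P, w * y * w⁻¹ = y⁻¹ :=
    h.inverts w hwa (by intro y _; rw [hww]; simp)
      (fun hc => hβ (h.invol_central w hw hc β hwβ))
  have hxi : ∀ y ∈ P, x * y * x⁻¹ = y⁻¹ :=
    h.inverts x hxa (by intro y _; rw [hxx]; simp)
      (fun hc => hγ (h.invol_central x hx hc γ hxγ))
  have hwy : ∀ y ∈ P, w * y = y⁻¹ * w := fun y hy => by
    rw [← hwi y hy]; group
  have hxy : ∀ y ∈ P, x * y = y⁻¹ * x := fun y hy => by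
    rw [← hxi y hy]; group
  have hwsm : ∀ y ∈ P, ∀ δ : Ω, w • δ = δ → w • (y • δ) = y⁻¹ • δ := by
    intro y hy δ hδ
    rw [smul_smul, hwy y hy, mul_smul, hδ]
  have hfin : Finite P := Nat.finite_of_card_ne_zero (by rw [h.cardP]; norm_num)
  -- the counting map
  have hne : ∀ q : {β : Ω // w • β = β ∧ β ≠ a} × P, (q.2 : G) • q.1.1 ≠ a := by
    intro q e
    apply q.1.2.2
    have : (q.2 : G) • q.1.1 = (q.2 : G) • a := by rw [e, h.smul_base q.2.2]
    exact MulAction.injective _ this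
  have hinj : Function.Injective (fun q : {β : Ω // w • β = β ∧ β ≠ a} × P =>
      (⟨(q.2 : G) • q.1.1, hne q⟩ : {γ : Ω // γ ≠ a})) := by
    rintro ⟨⟨β₁, hβ₁w, hβ₁a⟩, ⟨y₁, hy₁⟩⟩ ⟨⟨β₂, hβ₂w, hβ₂a⟩, ⟨y₂, hy₂⟩⟩ e
    have e1 : y₁ • β₁ = y₂ • β₂ := congrArg Subtype.val e
    have hv : y₂⁻¹ * y₁ ∈ P := P.mul_mem (P.inv_mem hy₂) hy₁
    have e2 : (y₂⁻¹ * y₁) • β₁ = β₂ := by rw [mul_smul, e1, inv_smul_smul]
    have e3 : (y₂⁻¹ * y₁)⁻¹ • β₁ = β₂ := by
      rw [← hwsm _ hv β₁ hβ₁w, e2, hβ₂w]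
    have e4 : ((y₂⁻¹ * y₁) * (y₂⁻¹ * y₁)) • β₁ = β₁ := by
      rw [mul_smul, e2, ← e3, smul_inv_smul]
    have e5 : (y₂⁻¹ * y₁) * (y₂⁻¹ * y₁) = 1 := by
      by_contra hne1
      exact hβ₁a (h.fix _ (P.mul_mem hv hv) hne1 β₁ e4)
    have e6 : y₂⁻¹ * y₁ = 1 := by
      have h5 := h.pow_five hv
      have : (y₂⁻¹ * y₁) ^ 5 = ((y₂⁻¹ * y₁) * (y₂⁻¹ * y₁)) * ((y₂⁻¹ * y₁) * (y₂⁻¹ * y₁))
          * (y₂⁻¹ * y₁) := by
        simp only [pow_succ, pow_zero, one_mul, mul_assoc]
      rw [this, e5, one_mul, one_mul] at h5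
      exact h5
    have e7 : y₁ = y₂ := (inv_mul_eq_one.mp e6).symm
    subst e7
    have e8 : β₁ = β₂ := MulAction.injective _ e1
    subst e8
    rfl
  have hcle := Nat.card_le_card_of_injective _ hinj
  rw [Nat.card_prod, h.cardP, h.card_ne_base] at hcle
  have hF := h.card_fix_ne w hwa
  have h4 := h.invol_fix_mod w hw
  have hFpos : 0 < Nat.card {β : Ω // w • β = β ∧ β ≠ a} := by
    have : Nonempty {β : Ω // w • β = β ∧ β ≠ a} := ⟨⟨β, hwβ, hβ⟩⟩
    exact Nat.card_pos
  have hF4 : Nat.card {β : Ω // w • β = β ∧ β ≠ a} = 4 := by omega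
  have hbij := hinj.bijective_of_nat_card_le (by
    rw [Nat.card_prod, h.cardP, h.card_ne_base, hF4])
  obtain ⟨⟨⟨β', hβ'w, hβ'a⟩, ⟨y, hy⟩⟩, hq⟩ := hbij.2 ⟨γ, hγ⟩
  have hq' : y • β' = γ := congrArg Subtype.val hq
  -- s = x * w centralises P
  set s := x * w with hsdef
  have hsc : ∀ v ∈ P, s * v = v * s := by
    intro v hv
    rw [hsdef, mul_assoc, hwy v hv, ← mul_assoc, hxy _ (P.inv_mem hv), inv_inv, mul_assoc]
  have hsβ : s • β' = x • β' := by rw [hsdef, mul_smul, hβ'w]
  have e1 : y⁻¹ • (s • β') = y • β' := by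
    rw [hsβ, smul_smul, ← hxy y hy, mul_smul, hq', hxγ]
  have hyy : (y * y)⁻¹ ∈ P := P.inv_mem (P.mul_mem hy hy)
  have e2 : ((y * y)⁻¹ * s) • β' = β' := by
    have : (y * y)⁻¹ = y⁻¹ * y⁻¹ := by group
    rw [this, mul_smul, mul_smul, e1, inv_smul_smul]
  have e3 : ((y * y)⁻¹ * s) ^ 5 = s ^ 5 := by
    have hcm : Commute ((y * y)⁻¹) s := (hsc _ hyy).symm
    rw [hcm.mul_pow, h.pow_five hyy, one_mul]
  have e4 : s ^ 5 • β' = β' := by
    rw [← e3]; exact pow_smul_fix _ _ e2 5
  have hs1 : s = 1 := by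
    by_contra hs1
    have h51 : s ^ 5 ≠ 1 := fun h5 => hs1 (eq_one_of_pow_two_pow_five s k hs h5)
    apply hβ'a
    refine h.two_central (s ^ 5) k ?_ h51 ?_ β' e4
    · rw [← pow_mul, mul_comm, pow_mul, hs, one_pow]
    · intro v hv
      exact ((show Commute s v from hsc v hv).pow_left 5).eq
  have : x = w⁻¹ := eq_inv_of_mul_eq_one_left hs1
  rw [this]
  exact inv_eq_of_mul_eq_one_left hww


/-- a finite group acting with a common unique fixed point for all nontrivial elements has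
order dividing the number of remaining points -/
theorem Setup.card_dvd_of_free (h : Setup G Ω P a) (S : Subgroup G) [Finite S]
    (hSa : ∀ s ∈ S, s • a = a)
    (hfree : ∀ s ∈ S, s ≠ 1 → ∀ ω : Ω, s • ω = ω → ω = a) : Nat.card S ∣ 20 := by
  classical
  have := Fintype.ofFinite S
  have hB := MulAction.sum_card_fixedBy_eq_card_orbits_mul_card_group S Ω
  have hterm : ∀ g : S, Fintype.card (fixedBy Ω g) = 1 + (if g = 1 then 20 else 0) := by
    intro g
    by_cases hg : g = 1
    · subst hg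
      rw [if_pos rfl]
      have : Fintype.card (fixedBy Ω (1 : S)) = Fintype.card Ω := by
        apply Fintype.card_of_subtype Finset.univ
        intro x
        simp
      rw [this, h.card]
    · rw [if_neg hg, add_zero, Fintype.card_eq_one_iff]
      refine ⟨⟨a, hSa g g.2⟩, ?_⟩
      rintro ⟨y, hy⟩
      apply Subtype.ext
      exact hfree g g.2 (fun h' => hg (Subtype.ext h')) y hy
  rw [Finset.sum_congr rfl (fun g _ => hterm g), Finset.sum_add_distrib, Finset.sum_ite_eq'] at hB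
  simp only [Finset.sum_const, Finset.card_univ, smul_eq_mul, mul_one, Finset.mem_univ,
    if_true] at hB
  rw [Nat.card_eq_fintype_card]
  have h1 : Fintype.card S ∣ Fintype.card S + 20 := ⟨_, by rw [hB]; ring⟩
  exact (Nat.dvd_add_right (dvd_refl _)).mp h1

theorem Setup.exists_isolated [Finite G] (h : Setup G Ω P a) (S : Subgroup G) (hS : IsPGroup 2 S)
    (hSa : ∀ s ∈ S, s • a = a) (hnc : ¬ ∀ s ∈ S, ∀ x ∈ P, s * x = x * s) :
    ∃ u ∈ S, orderOf u = 2 ∧ ∀ g : G, g * u * g⁻¹ ∈ S → g * u * g⁻¹ = u := by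
  have h2 : ∀ s ∈ S, ∃ k : ℕ, s ^ 2 ^ k = 1 := by
    intro s hs
    obtain ⟨k, hk⟩ := hS ⟨s, hs⟩
    exact ⟨k, by simpa using congrArg Subtype.val hk⟩
  by_cases hW : ∃ w ∈ S, orderOf w = 2 ∧ ∃ β : Ω, β ≠ a ∧ w • β = β
  · obtain ⟨w, hwS, hw, β, hβ, hwβ⟩ := hW
    refine ⟨w, hwS, hw, fun g hg => ?_⟩
    obtain ⟨k, hk⟩ := h2 _ (S.mul_mem hg hwS)
    have hfixg : ∀ δ : Ω, w • δ = δ → (g * w * g⁻¹) • (g • δ) = g • δ := by
      intro δ hδ
      rw [smul_smul, inv_mul_cancel_right, mul_smul, hδ]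
    by_cases hgβ : g • β = a
    · have hga : g • a ≠ a := by
        intro e
        apply hβ
        exact MulAction.injective g (hgβ.trans e.symm)
      exact h.caseW w _ hw (by rw [orderOf_conj', hw]) (hSa w hwS) (hSa _ hg) β (g • a) hβ hga hwβ
        (hfixg a (hSa w hwS)) k hk
    · exact h.caseW w _ hw (by rw [orderOf_conj', hw]) (hSa w hwS) (hSa _ hg) β (g • β) hβ hgβ hwβ
        (hfixg β hwβ) k hk
  · push Not at hW
    have hfree : ∀ s ∈ S, s ≠ 1 → ∀ ω : Ω, s • ω = ω → ω = a := by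
      intro s hs hs1 ω hω
      obtain ⟨k, hk⟩ := h2 s hs
      obtain ⟨m, hm⟩ := exists_pow_orderOf_two s k hk hs1
      by_contra hωa
      exact hW (s ^ m) (S.pow_mem hs m) hm ω hωa (pow_smul_fix s ω hω m)
    have hd20 := h.card_dvd_of_free S hSa hfree
    obtain ⟨n, hn⟩ := hS.exists_card_eq
    have hn2 : n ≤ 2 := by
      by_contra hlt
      have : 2 ^ 3 ∣ 2 ^ n := pow_dvd_pow 2 (by omega)
      rw [← hn] at this
      have := this.trans hd20
      norm_num at this
    set S₀ : Subgroup G := S ⊓ centralizer (P : Set G) with hS₀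
    have hmem₀ : ∀ s, s ∈ S₀ ↔ s ∈ S ∧ ∀ x ∈ P, s * x = x * s := by
      intro s
      rw [hS₀, mem_inf, mem_centralizer_iff]
      constructor
      · rintro ⟨h1, h2⟩
        exact ⟨h1, fun x hx => (h2 x hx).symm⟩
      · rintro ⟨h1, h2⟩
        exact ⟨h1, fun x hx => (h2 x hx).symm⟩
    have hle : S₀ ≤ S := inf_le_left
    have hP₀ : IsPGroup 2 S₀ := hS.to_le hle
    obtain ⟨m, hm⟩ := hP₀.exists_card_eq
    have hcardne : Nat.card S₀ ≠ Nat.card S := by
      intro e
      have : S₀ = S := Subgroup.eq_of_le_of_card_ge hle e.ge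
      apply hnc
      intro s hs
      rw [← this] at hs
      exact ((hmem₀ s).mp hs).2
    have hm1 : m ≤ 1 := by
      have h1 : Nat.card S₀ ∣ Nat.card S := Subgroup.card_dvd_of_le hle
      rw [hm, hn] at h1
      have h3 : m ≤ n := (Nat.pow_dvd_pow_iff_le_right (by norm_num)).mp h1
      have h4 : m ≠ n := by
        intro e; apply hcardne; rw [hm, hn, e]
      omega
    by_cases hS0 : ∃ z₀ ∈ S₀, z₀ ≠ 1
    · obtain ⟨z₀, hz₀, hz₀1⟩ := hS0
      have hm' : m = 1 := by
        by_contra hne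
        have hm0 : m = 0 := by omega
        rw [hm0, pow_zero, Nat.card_eq_one_iff_unique] at hm
        have := hm.1.elim (⟨z₀, hz₀⟩ : S₀) 1
        exact hz₀1 (congrArg Subtype.val this)
      rw [hm', pow_one] at hm
      obtain ⟨y, _, hy⟩ := (Nat.card_eq_two_iff' (1 : S₀)).mp hm
      have huniq : ∀ s ∈ S₀, s ≠ 1 → s = z₀ := by
        intro s hs hs1
        have e1 := hy ⟨s, hs⟩ (fun h' => hs1 (congrArg Subtype.val h'))
        have e2 := hy ⟨z₀, hz₀⟩ (fun h' => hz₀1 (congrArg Subtype.val h'))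
        exact congrArg Subtype.val (e1.trans e2.symm)
      have hz₀S := ((hmem₀ z₀).mp hz₀).1
      have hz₀c := ((hmem₀ z₀).mp hz₀).2
      have ho : orderOf z₀ = 2 := by
        have h1 : orderOf (⟨z₀, hz₀⟩ : S₀) ∣ 2 := hm ▸ orderOf_dvd_natCard _
        rw [Subgroup.orderOf_mk] at h1
        rcases (Nat.dvd_prime Nat.prime_two).mp h1 with h1 | h1
        · exact absurd (orderOf_eq_one_iff.mp h1) hz₀1
        · exact h1
      refine ⟨z₀, hz₀S, ho, fun g hg => ?_⟩
      have hx1 : g * z₀ * g⁻¹ ≠ 1 := by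
        intro e
        apply hz₀1
        have : orderOf (g * z₀ * g⁻¹) = 1 := by rw [e, orderOf_one]
        rw [orderOf_conj'] at this
        exact orderOf_eq_one_iff.mp this
      have hga : g • a = a := by
        apply hfree _ hg hx1
        rw [smul_smul, inv_mul_cancel_right, mul_smul, hSa z₀ hz₀S]
      have hgN := (h.stab g).mp hga
      apply huniq _ _ hx1
      rw [hmem₀]
      refine ⟨hg, fun v hv => ?_⟩
      have hv' : g⁻¹ * v * g ∈ P := by
        have := (mem_normalizer_iff.mp (inv_mem hgN) v).mp hv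
        simpa using this
      have e := hz₀c _ hv'
      calc g * z₀ * g⁻¹ * v = g * (z₀ * (g⁻¹ * v * g)) * g⁻¹ := by group
        _ = g * ((g⁻¹ * v * g) * z₀) * g⁻¹ := by rw [e]
        _ = v * (g * z₀ * g⁻¹) := by group
    · push Not at hS0
      have hex : ∃ a₀ ∈ S, a₀ ≠ 1 := by
        by_contra hall
        push Not at hall
        apply hnc
        intro s hs x _
        rw [hall s hs]; simp
      obtain ⟨a₀, ha₀, ha₀1⟩ := hex
      obtain ⟨k, hk⟩ := h2 a₀ ha₀
      obtain ⟨j, hj⟩ := exists_pow_orderOf_two a₀ k hk ha₀1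
      set u := a₀ ^ j with hu
      have huS : u ∈ S := S.pow_mem ha₀ j
      have hinv : ∀ t ∈ S, orderOf t = 2 → ∀ y ∈ P, t * y * t⁻¹ = y⁻¹ := by
        intro t htS ht
        have htt : t * t = 1 := by rw [← sq, ← ht, pow_orderOf_eq_one]
        refine h.inverts t (hSa t htS) (by intro y _; rw [htt]; simp) ?_
        intro hc
        have : t = 1 := hS0 t ((hmem₀ t).mpr ⟨htS, hc⟩)
        rw [this, orderOf_one] at ht
        norm_num at ht
      refine ⟨u, huS, hj, fun g hg => ?_⟩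
      have hxi := hinv _ hg (by rw [orderOf_conj', hj])
      have hui := hinv u huS hj
      set x := g * u * g⁻¹ with hx
      have hxu : x * u = 1 := by
        apply hS0
        rw [hmem₀]
        refine ⟨S.mul_mem hg huS, fun v hv => ?_⟩
        have e1 : u * v = v⁻¹ * u := by rw [← hui v hv]; group
        have e2 : x * v⁻¹ = v * x := by
          have := hxi _ (P.inv_mem hv)
          rw [inv_inv] at this
          exact mul_inv_eq_iff_eq_mul.mp this
        rw [mul_assoc, e1, ← mul_assoc, e2, mul_assoc]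
      have huu : u * u = 1 := by rw [← sq, ← hj, pow_orderOf_eq_one]
      have : x = u⁻¹ := eq_inv_of_mul_eq_one_left hxu
      rw [this]
      exact inv_eq_of_mul_eq_one_left huu

end Act

end Cfsg.Agent.Lib.Helper21.Syl21
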