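import Mathlib

/-! Geometry of index-3 intersections of Sylow 3-subgroups when there are 22 of them (helper21).
Main result: in a simple group with 22 Sylow 3-subgroups these have order 3. -/

set_option autoImplicit false
set_option linter.unusedSectionVars false

namespace Cfsg.Agent.Lib.Helper21.Syl22

open MulAction Subgroup
open scoped Pointwise

/-- if all orbits have size divisible by `m`, so has the set -/
theorem dvd_card_of_orbits {P X : Type*} [Group P] [MulAction P X] [Finite X] (m : ℕ)
    (h : ∀ x : X, m ∣ Nat.card (orbit P x)) : m ∣ Nat.card X := by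
  classical
  have := Fintype.ofFinite (orbitRel.Quotient P X)
  rw [Nat.card_congr (selfEquivSigmaOrbits P X), Nat.card_sigma]
  exact Finset.dvd_sum (fun ω _ => h _)

theorem dvd_card_subtype_of_orbits {P X : Type*} [Group P] [MulAction P X] [Finite X] (m : ℕ)
    (p : X → Prop) (hinv : ∀ (u : P) (x : X), p x → p (u • x))
    (h : ∀ x : X, p x → m ∣ Nat.card (orbit P x)) : m ∣ Nat.card {x // p x} := by
  let S : SubMulAction P X := ⟨{x | p x}, fun u {x} hx => hinv u x hx⟩
  have hS : Finite S := Subtype.finite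
  refine dvd_card_of_orbits (P := P) (X := S) m ?_
  intro x
  have h1 : Nat.card (orbit P x) = Nat.card (orbit P (x : X)) := by
    rw [Nat.card_coe_set_eq, Nat.card_coe_set_eq, ← SubMulAction.val_image_orbit,
      Set.ncard_image_of_injective _ Subtype.val_injective]
  rw [h1]
  exact h x x.2

section
variable {G : Type*} [Group G] [Finite G]

theorem mem_smul_iff (g x : G) (X : Sylow 3 G) : x ∈ g • X ↔ g⁻¹ * x * g ∈ X := by
  have : x ∈ g • X ↔ x ∈ MulAut.conj g • (X : Subgroup G) := Iff.rfl
  rw [this, Subgroup.mem_pointwise_smul_iff_inv_smul_mem]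
  simp only [MulAut.smul_def, MulAut.conj_inv_apply]
  exact Iff.rfl

/-- order of the intersection -/
noncomputable def inter (X Y : Sylow 3 G) : ℕ :=
  Nat.card ((X : Subgroup G) ⊓ (Y : Subgroup G) : Subgroup G)

theorem inter_comm (X Y : Sylow 3 G) : inter X Y = inter Y X := by
  unfold inter; rw [inf_comm]

theorem inter_pos (X Y : Sylow 3 G) : 0 < inter X Y := Nat.card_pos

theorem inter_smul (g : G) (X Y : Sylow 3 G) : inter (g • X) (g • Y) = inter X Y := by
  unfold inter
  rw [Sylow.coe_subgroup_smul, Sylow.coe_subgroup_smul, ← Subgroup.smul_inf]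
  exact (Nat.card_congr (Subgroup.equivSMul (MulAut.conj g) _).toEquiv).symm

theorem card_eq (X Y : Sylow 3 G) : Nat.card X = Nat.card Y := by
  rw [Sylow.card_eq_multiplicity, Sylow.card_eq_multiplicity]

theorem card_orbit_mul_inter (X Y : Sylow 3 G) :
    Nat.card (orbit (X : Subgroup G) Y) * inter X Y = Nat.card X := by
  classical
  have hst : stabilizer (X : Subgroup G) Y
      = ((X : Subgroup G) ⊓ (Y : Subgroup G)).subgroupOf (X : Subgroup G) := by
    ext u
    rw [mem_stabilizer_iff, Subgroup.mem_subgroupOf]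
    have h1 : u • Y = Y ↔ (u : G) ∈ normalizer (Y : Set G) := Sylow.smul_eq_iff_mem_normalizer
    rw [h1]
    have h2 := X.2.inf_normalizer_sylow Y
    constructor
    · intro hu
      rw [← h2]
      exact ⟨u.2, hu⟩
    · intro hu
      rw [← h2] at hu
      exact hu.2
  have h1 : Nat.card (stabilizer (X : Subgroup G) Y) = inter X Y := by
    rw [hst]
    exact Nat.card_congr (Subgroup.subgroupOfEquivOfLe inf_le_left).toEquiv
  rw [← h1, ← Nat.card_prod]
  exact Nat.card_congr (orbitProdStabilizerEquivGroup (X : Subgroup G) Y)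

theorem eq_of_inter_eq (X Y : Sylow 3 G) (h : inter X Y = Nat.card X) : X = Y := by
  have h1 : (X : Subgroup G) ⊓ Y = X := Subgroup.eq_of_le_of_card_ge inf_le_left h.ge
  have h2 : (X : Subgroup G) ≤ Y := inf_eq_left.mp h1
  exact (Sylow.ext (X.3 Y.2 h2)).symm

/-- adjacency: the intersection has index three -/
def adj (X Y : Sylow 3 G) : Prop := inter X Y * 3 = Nat.card X

theorem adj_symm {X Y : Sylow 3 G} (h : adj X Y) : adj Y X := by
  unfold adj at *
  rw [inter_comm, h, card_eq X Y]

theorem adj_smul (g : G) {X Y : Sylow 3 G} (h : adj X Y) : adj (g • X) (g • Y) := by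
  unfold adj at *
  rw [inter_smul, h, card_eq X (g • X)]

theorem adj_smul_iff (g : G) (X Y : Sylow 3 G) : adj (g • X) (g • Y) ↔ adj X Y := by
  refine ⟨fun h => ?_, adj_smul g⟩
  have := adj_smul g⁻¹ h
  rwa [inv_smul_smul, inv_smul_smul] at this

theorem adj_ne {X Y : Sylow 3 G} (h : adj X Y) : X ≠ Y := by
  rintro rfl
  unfold adj inter at h
  rw [inf_idem] at h
  have : 0 < Nat.card (X : Subgroup G) := Nat.card_pos
  have h' : Nat.card (X : Subgroup G) * 3 = Nat.card (X : Subgroup G) := h
  omega

theorem inter_cases (h22 : Nat.card (Sylow 3 G) = 22) {X Y : Sylow 3 G} (hne : X ≠ Y) :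
    inter X Y * 3 = Nat.card X ∨ inter X Y * 9 = Nat.card X := by
  obtain ⟨n, hn⟩ := X.2.card_orbit Y
  have h1 := card_orbit_mul_inter X Y
  have hle : Nat.card (orbit (X : Subgroup G) Y) ≤ 22 := by
    rw [← h22]
    exact Nat.card_le_card_of_injective _ Subtype.val_injective
  rw [hn] at hle h1
  have hn2 : n ≤ 2 := by
    by_contra hlt
    have : 3 ^ 3 ≤ 3 ^ n := Nat.pow_le_pow_right (by norm_num) (by omega)
    omega
  interval_cases n
  · exfalso
    apply hne
    apply eq_of_inter_eq
    rw [← h1]; ring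
  · left; rw [← h1]; ring
  · right; rw [← h1]; ring

theorem card_orbit_of_adj {X Y : Sylow 3 G} (h : adj X Y) :
    Nat.card (orbit (X : Subgroup G) Y) = 3 := by
  have h1 := card_orbit_mul_inter X Y
  unfold adj at h
  rw [← h, mul_comm] at h1
  exact Nat.eq_of_mul_eq_mul_left (inter_pos X Y) h1

theorem card_orbit_of_not_adj (h22 : Nat.card (Sylow 3 G) = 22) {X Y : Sylow 3 G} (hne : X ≠ Y)
    (h : ¬ adj X Y) : Nat.card (orbit (X : Subgroup G) Y) = 9 := by
  have h1 := card_orbit_mul_inter X Y
  rcases inter_cases h22 hne with h2 | h2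
  · exact absurd h2 h
  · rw [← h2, mul_comm] at h1
    exact Nat.eq_of_mul_eq_mul_left (inter_pos X Y) h1

/-- an intersection of index three is normalised by both Sylow subgroups -/
theorem adj_normal {X Y : Sylow 3 G} (h : adj X Y) (u d : G) (hu : u ∈ X)
    (hd : d ∈ (X : Subgroup G) ⊓ Y) : u * d * u⁻¹ ∈ (X : Subgroup G) ⊓ Y := by
  set K := ((X : Subgroup G) ⊓ (Y : Subgroup G)).subgroupOf (X : Subgroup G) with hK
  have hcK : Nat.card K = inter X Y :=
    Nat.card_congr (Subgroup.subgroupOfEquivOfLe inf_le_left).toEquiv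
  have hidx : K.index = 3 := by
    have h1 := K.card_mul_index
    rw [hcK] at h1
    unfold adj at h
    have h2 : inter X Y * K.index = inter X Y * 3 := by rw [h1]; exact h.symm
    exact Nat.eq_of_mul_eq_mul_left (inter_pos X Y) h2
  obtain ⟨n, hn⟩ := X.2.exists_card_eq
  have hn0 : n ≠ 0 := by
    rintro rfl
    have : K.index ∣ Nat.card (X : Subgroup G) := Subgroup.index_dvd_card K
    rw [hn, pow_zero, hidx] at this
    norm_num at this
  have hN : K.Normal :=
    Subgroup.normal_of_index_eq_minFac_card (by rw [hidx, hn, Nat.prime_three.pow_minFac hn0])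
  have := hN.conj_mem ⟨d, hd.1⟩ (by rw [hK, Subgroup.mem_subgroupOf]; exact hd) ⟨u, hu⟩
  rw [hK, Subgroup.mem_subgroupOf] at this
  exact this

theorem inf_eq_of_le {X Y Z : Sylow 3 G} (h1 : adj X Y) (h2 : adj X Z)
    (hle : (X : Subgroup G) ⊓ Y ≤ Z) : (X : Subgroup G) ⊓ Y = (X : Subgroup G) ⊓ Z := by
  apply Subgroup.eq_of_le_of_card_ge (le_inf inf_le_left hle)
  unfold adj inter at h1 h2
  omega

/-- if `D` of index three lies in two distinct Sylow subgroups it is their intersection -/
theorem adj_of_le (h22 : Nat.card (Sylow 3 G) = 22) {X Y : Sylow 3 G} (hne : X ≠ Y)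
    (D : Subgroup G) (hD : Nat.card D * 3 = Nat.card X) (hX : D ≤ X) (hY : D ≤ Y) :
    adj X Y ∧ (X : Subgroup G) ⊓ Y = D := by
  have hle : D ≤ (X : Subgroup G) ⊓ Y := le_inf hX hY
  have hc : Nat.card D ≤ inter X Y := Subgroup.card_le_of_le hle
  have hadj : adj X Y := by
    rcases inter_cases h22 hne with h | h
    · exact h
    · exfalso
      have := inter_pos X Y
      omega
  refine ⟨hadj, (Subgroup.eq_of_le_of_card_ge hle ?_).symm⟩
  unfold adj inter at hadj
  omega

/-- pairwise adjacent Sylow subgroups are collinear -/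
theorem triangle (h22 : Nat.card (Sylow 3 G) = 22) {P Q R : Sylow 3 G} (hPQ : adj P Q)
    (hPR : adj P R) (hQR : adj Q R) : (P : Subgroup G) ⊓ Q ≤ R := by
  by_contra hnot
  obtain ⟨u, hu, huR⟩ := SetLike.not_le_iff_exists.mp hnot
  have hne : R ≠ u • R := by
    intro e
    have h1 : u ∈ normalizer (R : Set G) := Sylow.smul_eq_iff_mem_normalizer.mp e.symm
    have h2 : u ∈ (P : Subgroup G) ⊓ normalizer (R : Set G) := ⟨hu.1, h1⟩
    rw [P.2.inf_normalizer_sylow R] at h2
    exact huR h2.2
  have hD' : (P : Subgroup G) ⊓ R ≤ (u • R : Sylow 3 G) := by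
    intro d hd
    show d ∈ u • R
    rw [mem_smul_iff]
    have := adj_normal hPR u⁻¹ d (P.inv_mem hu.1) hd
    rw [inv_inv] at this
    exact this.2
  have hD'' : (Q : Subgroup G) ⊓ R ≤ (u • R : Sylow 3 G) := by
    intro d hd
    show d ∈ u • R
    rw [mem_smul_iff]
    have := adj_normal hQR u⁻¹ d (Q.inv_mem hu.2) hd
    rw [inv_inv] at this
    exact this.2
  have e1 := (adj_of_le h22 hne ((P : Subgroup G) ⊓ R)
    (by have := hPR; unfold adj inter at this; rw [this]; exact card_eq P R) inf_le_right hD').2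
  have e2 := (adj_of_le h22 hne ((Q : Subgroup G) ⊓ R)
    (by have := hQR; unfold adj inter at this; rw [this]; exact card_eq Q R) inf_le_right hD'').2
  have e3 : (P : Subgroup G) ⊓ R = (Q : Subgroup G) ⊓ R := e1.symm.trans e2
  have e4 : (P : Subgroup G) ⊓ R ≤ (P : Subgroup G) ⊓ Q :=
    le_inf inf_le_left (e3 ▸ inf_le_left)
  have e5 : (P : Subgroup G) ⊓ R = (P : Subgroup G) ⊓ Q := by
    apply Subgroup.eq_of_le_of_card_ge e4
    unfold adj inter at hPQ hPR
    omega
  rw [← e5] at hu
  exact huR hu.2


/-- number of neighbours -/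
noncomputable def val (X : Sylow 3 G) : ℕ := Nat.card {Y : Sylow 3 G // adj X Y}

theorem val_smul (g : G) (X : Sylow 3 G) : val (g • X) = val X := by
  unfold val
  refine (Nat.card_congr ?_).symm
  exact (MulAction.toPerm g).subtypeEquiv (fun Y => (adj_smul_iff g X Y).symm)

theorem val_const (X Y : Sylow 3 G) : val X = val Y := by
  obtain ⟨g, rfl⟩ := exists_smul_eq G X Y
  exact (val_smul g X).symm

theorem smul_self_of_mem {P : Sylow 3 G} {u : G} (hu : u ∈ P) : u • P = P :=
  Sylow.smul_eq_iff_mem_normalizer.mpr (le_normalizer hu)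

theorem val_cases (h22 : Nat.card (Sylow 3 G) = 22) (P : Sylow 3 G) :
    val P = 3 ∨ val P = 12 ∨ val P = 21 := by
  classical
  have := Fintype.ofFinite (Sylow 3 G)
  have h9 : 9 ∣ Nat.card {R : Sylow 3 G // R ≠ P ∧ ¬ adj P R} := by
    refine dvd_card_subtype_of_orbits (P := (P : Subgroup G)) 9 _ ?_ ?_
    · rintro u R ⟨h1, h2⟩
      constructor
      · intro e
        apply h1
        have : (u : G) • R = (u : G) • P := by rw [smul_self_of_mem u.2]; exact e
        exact MulAction.injective _ this
      · intro e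
        apply h2
        have e' : adj ((u : G) • P) ((u : G) • R) := by rw [smul_self_of_mem u.2]; exact e
        exact (adj_smul_iff _ _ _).mp e'
    · rintro R ⟨h1, h2⟩
      rw [card_orbit_of_not_adj h22 (Ne.symm h1) h2]
  have hsum : val P + (Nat.card {R : Sylow 3 G // R ≠ P ∧ ¬ adj P R} + 1) = 22 := by
    unfold val
    rw [Nat.card_eq_fintype_card, Nat.card_eq_fintype_card, Fintype.card_subtype,
      Fintype.card_subtype]
    have h1 : Finset.univ.filter (fun R : Sylow 3 G => ¬ adj P R)
        = insert P (Finset.univ.filter (fun R : Sylow 3 G => R ≠ P ∧ ¬ adj P R)) := by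
      ext R
      simp only [Finset.mem_filter, Finset.mem_univ, true_and, Finset.mem_insert]
      constructor
      · intro hR
        by_cases hRP : R = P
        · exact Or.inl hRP
        · exact Or.inr ⟨hRP, hR⟩
      · rintro (rfl | hR)
        · exact fun h => adj_ne h rfl
        · exact hR.2
    have h2 := Finset.card_filter_add_card_filter_not (s := (Finset.univ : Finset (Sylow 3 G)))
      (fun R => adj P R)
    rw [h1, Finset.card_insert_of_notMem (by simp), Finset.card_univ,
      ← Nat.card_eq_fintype_card, h22] at h2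
    exact h2
  obtain ⟨m, hm⟩ := h9
  omega

/-- all neighbours of a point lie on one line -/
theorem collinear (h22 : Nat.card (Sylow 3 G) = 22) {P Q Q' : Sylow 3 G} (hQ : adj P Q)
    (hQ' : adj P Q') : (P : Subgroup G) ⊓ Q ≤ Q' := by
  classical
  by_contra hnot
  have := Fintype.ofFinite (Sylow 3 G)
  set D := (P : Subgroup G) ⊓ Q with hD
  have hDcard : ∀ X : Sylow 3 G, Nat.card D * 3 = Nat.card X := fun X => by
    have := hQ
    unfold adj inter at this
    rw [← card_eq P X]; exact this
  set ℓ := Finset.univ.filter (fun X : Sylow 3 G => D ≤ X) with hℓ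
  have hmemℓ : ∀ X : Sylow 3 G, X ∈ ℓ ↔ D ≤ X := by
    intro X; rw [hℓ]; simp
  let A : Sylow 3 G → Finset (Sylow 3 G) :=
    fun X => Finset.univ.filter (fun Y => adj X Y ∧ ¬ D ≤ Y)
  have hA : ∀ X ∈ ℓ, (A X).card + ℓ.card = val P + 1 := by
    intro X hX
    rw [val_const P X]
    unfold val
    rw [Nat.card_eq_fintype_card, Fintype.card_subtype]
    have h2 := Finset.card_filter_add_card_filter_not
      (s := Finset.univ.filter (fun Y : Sylow 3 G => adj X Y))
      (fun Y : Sylow 3 G => D ≤ (Y : Subgroup G))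
    have h3 : (Finset.univ.filter (fun Y : Sylow 3 G => adj X Y)).filter
        (fun Y : Sylow 3 G => D ≤ (Y : Subgroup G)) = ℓ.erase X := by
      ext Y
      simp only [Finset.mem_filter, Finset.mem_univ, true_and, Finset.mem_erase, hmemℓ]
      constructor
      · rintro ⟨h4, h5⟩
        exact ⟨(adj_ne h4).symm, h5⟩
      · rintro ⟨h4, h5⟩
        exact ⟨(adj_of_le h22 (Ne.symm h4) D (hDcard X) ((hmemℓ X).mp hX) h5).1, h5⟩
    have h4 : (Finset.univ.filter (fun Y : Sylow 3 G => adj X Y)).filter
        (fun Y : Sylow 3 G => ¬ D ≤ (Y : Subgroup G)) = A X := by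
      ext Y
      simp only [A, Finset.mem_filter, Finset.mem_univ, true_and]
    rw [h3, h4, Finset.card_erase_of_mem hX] at h2
    have hpos : 0 < ℓ.card := Finset.card_pos.mpr ⟨X, hX⟩
    omega
  have hdisj : ∀ X ∈ ℓ, ∀ Y ∈ ℓ, X ≠ Y → Disjoint (A X) (A Y) := by
    intro X hX Y hY hXY
    rw [Finset.disjoint_left]
    intro Z hZX hZY
    simp only [A, Finset.mem_filter, Finset.mem_univ, true_and] at hZX hZY
    obtain ⟨h1, h2⟩ := adj_of_le h22 hXY D (hDcard X) ((hmemℓ X).mp hX) ((hmemℓ Y).mp hY)
    have := triangle h22 h1 hZX.1 hZY.1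
    rw [h2] at this
    exact hZX.2 this
  have hsub : ℓ.biUnion A ⊆ ℓᶜ := by
    intro Z hZ
    rw [Finset.mem_biUnion] at hZ
    obtain ⟨X, _, hZX⟩ := hZ
    simp only [A, Finset.mem_filter, Finset.mem_univ, true_and] at hZX
    rw [Finset.mem_compl, hmemℓ]
    exact hZX.2
  have hcard := Finset.card_le_card hsub
  rw [Finset.card_biUnion hdisj, Finset.card_compl, ← Nat.card_eq_fintype_card, h22] at hcard
  have hPℓ : P ∈ ℓ := (hmemℓ P).mpr inf_le_left
  have hsumc : ∑ X ∈ ℓ, (A X).card = ℓ.card * (A P).card := by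
    apply Finset.sum_const_nat
    intro X hX
    have h1 := hA X hX
    have h2 := hA P hPℓ
    omega
  rw [hsumc] at hcard
  have hAP : 0 < (A P).card := by
    apply Finset.card_pos.mpr
    exact ⟨Q', by simp only [A, Finset.mem_filter, Finset.mem_univ, true_and]; exact ⟨hQ', hnot⟩⟩
  -- the line has at least four points
  have hL4 : 4 ≤ ℓ.card := by
    have hO : (orbit (P : Subgroup G) Q).toFinset.card = 3 := by
      rw [Set.toFinset_card, ← Nat.card_eq_fintype_card, card_orbit_of_adj hQ]
    have hPO : P ∉ (orbit (P : Subgroup G) Q).toFinset := by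
      rw [Set.mem_toFinset]
      rintro ⟨u, hu⟩
      have hu' : (u : G) • Q = P := hu
      have : (u : G) • Q = (u : G) • P := by rw [smul_self_of_mem u.2]; exact hu'
      exact adj_ne hQ (MulAction.injective _ this).symm
    have hsubO : insert P (orbit (P : Subgroup G) Q).toFinset ⊆ ℓ := by
      intro Y hY
      rw [Finset.mem_insert] at hY
      rcases hY with rfl | hY
      · exact hPℓ
      · rw [Set.mem_toFinset] at hY
        obtain ⟨u, rfl⟩ := hY
        rw [hmemℓ]
        intro d hd
        show d ∈ (u : G) • Q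
        rw [mem_smul_iff]
        have := adj_normal hQ (u : G)⁻¹ d (P.inv_mem u.2) hd
        rw [inv_inv] at this
        exact this.2
    have := Finset.card_le_card hsubO
    rw [Finset.card_insert_of_notMem hPO, hO] at this
    exact this
  have hAPeq := hA P hPℓ
  have hLle : ℓ.card ≤ 22 := by
    have := Finset.card_le_univ ℓ
    rwa [← Nat.card_eq_fintype_card, h22] at this
  generalize ℓ.card = L at *
  generalize (A P).card = c at *
  rcases val_cases h22 P with hk | hk | hk <;> rw [hk] at hAPeq
  · omega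
  · have hc : c = 13 - L := by omega
    subst hc
    interval_cases L <;> omega
  · have hc : c = 22 - L := by omega
    subst hc
    interval_cases L <;> omega

/-- the normaliser of a Sylow 3-subgroup is maximal -/
theorem normalizer_maximal (h22 : Nat.card (Sylow 3 G) = 22) (P : Sylow 3 G) (M : Subgroup G)
    (hM : normalizer (P : Set G) ≤ M) (hne : ¬ M ≤ normalizer (P : Set G)) : M = ⊤ := by
  have hPM : (P : Subgroup G) ≤ M := le_normalizer.trans hM
  have h1 := card_sylow_modEq_one 3 M
  rw [(P.subtype hPM).card_eq_index_normalizer] at h1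
  have h2 : normalizer ((P.subtype hPM : Sylow 3 M) : Set M)
      = (normalizer ((P : Subgroup G) : Set G)).subgroupOf M :=
    (subgroupOf_normalizer_eq hPM).symm
  rw [h2] at h1
  have h3 : (normalizer ((P : Subgroup G) : Set G)).relIndex M * M.index = 22 := by
    have hM' : normalizer ((P : Subgroup G) : Set G) ≤ M := hM
    rw [Subgroup.relIndex_mul_index hM', ← h22]
    exact (P.card_eq_index_normalizer).symm
  have h4 : ((normalizer ((P : Subgroup G) : Set G)).subgroupOf M).index
      = (normalizer ((P : Subgroup G) : Set G)).relIndex M := rfl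
  rw [h4] at h1
  have h5 : (normalizer ((P : Subgroup G) : Set G)).relIndex M ≠ 1 := by
    intro e
    exact hne (relIndex_eq_one.mp e)
  have h6 : (normalizer ((P : Subgroup G) : Set G)).relIndex M ∣ 22 := Dvd.intro _ h3
  have h7 : (normalizer ((P : Subgroup G) : Set G)).relIndex M ≤ 22 :=
    Nat.le_of_dvd (by norm_num) h6
  rw [← Subgroup.index_eq_one]
  generalize (normalizer ((P : Subgroup G) : Set G)).relIndex M = r at *
  unfold Nat.ModEq at h1
  interval_cases r <;> omega

theorem card_sylow_three [IsSimpleGroup G] (h22 : Nat.card (Sylow 3 G) = 22) (P : Sylow 3 G) :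
    Nat.card P = 3 := by
  have hpos : 0 < val P := by
    rcases val_cases h22 P with h | h | h <;> omega
  obtain ⟨⟨Q, hQ⟩⟩ : Nonempty {Y : Sylow 3 G // adj P Y} := (Nat.card_pos_iff.mp hpos).1
  set D := (P : Subgroup G) ⊓ Q with hD
  have hHM : normalizer (P : Set G) ≤ normalizer (D : Set G) := by
    have key : ∀ h ∈ normalizer (P : Set G), ∀ d ∈ D, h * d * h⁻¹ ∈ D := by
      intro h hh d hd
      have hP : h • P = P := Sylow.smul_eq_iff_mem_normalizer.mpr hh
      have hadj : adj P (h • Q) := by
        have := adj_smul h hQ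
        rwa [hP] at this
      have e : (P : Subgroup G) ⊓ (h • Q : Sylow 3 G) = D :=
        inf_eq_of_le hadj hQ (collinear h22 hadj hQ)
      rw [← e]
      constructor
      · have : h * d * h⁻¹ ∈ h • P := by
          rw [mem_smul_iff]
          have e2 : h⁻¹ * (h * d * h⁻¹) * h = d := by group
          rw [e2]; exact hd.1
        rw [hP] at this
        exact this
      · show h * d * h⁻¹ ∈ h • Q
        rw [mem_smul_iff]
        have e2 : h⁻¹ * (h * d * h⁻¹) * h = d := by group
        rw [e2]; exact hd.2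
    intro h hh
    rw [mem_normalizer_iff]
    intro d
    constructor
    · exact key h hh d
    · intro hd
      have := key h⁻¹ (inv_mem hh) _ hd
      have e2 : h⁻¹ * (h * d * h⁻¹) * h⁻¹⁻¹ = d := by group
      rwa [e2] at this
  have hQM : (Q : Subgroup G) ≤ normalizer (D : Set G) := by
    have key : ∀ u ∈ Q, ∀ d ∈ D, u * d * u⁻¹ ∈ D := by
      intro u hu d hd
      have := adj_normal (adj_symm hQ) u d hu (by rw [inf_comm]; exact hd)
      rw [inf_comm] at this
      exact this
    intro u hu
    rw [mem_normalizer_iff]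
    intro d
    constructor
    · exact key u hu d
    · intro hd
      have := key u⁻¹ (inv_mem hu) _ hd
      have e2 : u⁻¹ * (u * d * u⁻¹) * u⁻¹⁻¹ = d := by group
      rwa [e2] at this
  have htop : normalizer (D : Set G) = ⊤ := by
    apply normalizer_maximal h22 P _ hHM
    intro hle
    have h1 : (Q : Subgroup G) ≤ normalizer (P : Set G) := hQM.trans hle
    have h2 : (Q : Subgroup G) ⊓ normalizer (P : Set G) = (Q : Subgroup G) ⊓ P :=
      Q.2.inf_normalizer_sylow P
    rw [inf_eq_left.mpr h1] at h2
    have h3 : (Q : Subgroup G) ≤ P := by rw [h2]; exact inf_le_right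
    exact adj_ne hQ (Sylow.ext (Q.3 P.2 h3))
  have hDn : D.Normal := normalizer_eq_top_iff.mp htop
  have hQ' := hQ
  unfold adj inter at hQ'
  rcases hDn.eq_bot_or_eq_top with hb | ht
  · rw [← hD, hb, Subgroup.card_bot] at hQ'
    omega
  · exfalso
    have h1 : (P : Subgroup G) = ⊤ := top_le_iff.mp (ht ▸ inf_le_left)
    have h2 : Nat.card D = Nat.card (P : Subgroup G) := by rw [ht, h1]
    rw [← hD, h2] at hQ'
    have : 0 < Nat.card (P : Subgroup G) := Nat.card_pos
    have hQ'' : Nat.card (P : Subgroup G) * 3 = Nat.card (P : Subgroup G) := hQ'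
    omega

end

end Cfsg.Agent.Lib.Helper21.Syl22
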