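import Cfsg.Agent.Lib.Helper21.Syl21
import Cfsg.Agent.Lib.Helper21.Syl22a

/-! A simple group cannot have exactly 22 Sylow 3-subgroups (helper21): the case `|P| = 3`. -/

set_option autoImplicit false
set_option linter.unusedSectionVars false

namespace Cfsg.Agent.Lib.Helper21.Syl22

open MulAction Subgroup Equiv.Perm
open Cfsg.Agent.Lib.Helper21.Syl21 (card_fix_add_support four_dvd_support pow_smul_fix)

section Act
variable {G : Type*} [Group G] {Ω : Type*} [Fintype Ω] [DecidableEq Ω] [MulAction G Ω]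

theorem fix_mod_p (p : ℕ) [hp : Fact p.Prime] (c z : G) (hcz : Commute c z) (hz : z ^ p = 1)
    (R : Ω) (hR : ∀ x : Ω, z • x = x ↔ x = R) : Fintype.card {x : Ω // c • x = x} % p = 1 := by
  have hcR : c • R = R := by
    rw [← hR, smul_smul, ← hcz.eq, mul_smul, (hR R).mpr rfl]
  let f : Function.End {x : Ω // c • x = x} := fun x =>
    ⟨z • x.1, by rw [smul_smul, hcz.eq, mul_smul, x.2]⟩
  have hfn : ∀ (n : ℕ) (x : {x : Ω // c • x = x}), ((f ^ n) x).1 = z ^ n • x.1 := by
    intro n
    induction n with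
    | zero => intro x; rw [pow_zero, pow_zero, one_smul]; rfl
    | succ n ih =>
      intro x
      rw [pow_succ']
      show z • ((f ^ n) x).1 = _
      rw [ih, smul_smul, ← pow_succ']
  have hf : f ^ p ^ 1 = 1 := by
    funext x
    apply Subtype.ext
    rw [pow_one, hfn, hz, one_smul]; rfl
  have h1 := Equiv.Perm.card_fixedPoints_modEq (p := p) (n := 1) hf
  have h2 : Fintype.card (Function.fixedPoints f) = 1 := by
    rw [Fintype.card_eq_one_iff]
    refine ⟨⟨⟨R, hcR⟩, ?_⟩, ?_⟩
    · show f _ = _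
      apply Subtype.ext
      exact (hR R).mpr rfl
    · rintro ⟨⟨y, hy⟩, hy'⟩
      apply Subtype.ext
      apply Subtype.ext
      show y = R
      rw [← hR]
      exact congrArg Subtype.val hy'
  rw [h2] at h1
  have h3 : Fintype.card {x : Ω // c • x = x} % p = 1 % p := h1
  rw [h3]
  exact Nat.mod_eq_of_lt hp.out.one_lt

theorem prime_mul_support (σ : Equiv.Perm Ω) (r : ℕ) (hr : r.Prime) (ho : orderOf σ = r) :
    ∃ m : ℕ, σ.support.card = (m + 1) * r := by
  obtain ⟨n, hn⟩ := cycleType_prime_order (σ := σ) (by rw [ho]; exact hr)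
  have hsum := sum_cycleType σ
  rw [hn, ho, Multiset.sum_replicate, smul_eq_mul] at hsum
  exact ⟨n, hsum.symm⟩

/-- a finite group all of whose nontrivial elements have the same unique fixed point -/
theorem card_dvd_of_free (S : Subgroup G) [Finite S] (a : Ω) (hSa : ∀ s ∈ S, s • a = a)
    (hfree : ∀ s ∈ S, s ≠ 1 → ∀ ω : Ω, s • ω = ω → ω = a) :
    Nat.card S ∣ Fintype.card Ω - 1 := by
  classical
  have := Fintype.ofFinite S
  have hB := MulAction.sum_card_fixedBy_eq_card_orbits_mul_card_group S Ω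
  have hpos : 0 < Fintype.card Ω := Fintype.card_pos_iff.mpr ⟨a⟩
  have hterm : ∀ g : S, Fintype.card (fixedBy Ω g)
      = 1 + (if g = 1 then Fintype.card Ω - 1 else 0) := by
    intro g
    by_cases hg : g = 1
    · subst hg
      rw [if_pos rfl]
      have : Fintype.card (fixedBy Ω (1 : S)) = Fintype.card Ω := by
        apply Fintype.card_of_subtype Finset.univ
        intro x
        simp
      rw [this]; omega
    · rw [if_neg hg, add_zero, Fintype.card_eq_one_iff]
      refine ⟨⟨a, hSa g g.2⟩, ?_⟩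
      rintro ⟨y, hy⟩
      apply Subtype.ext
      exact hfree g g.2 (fun h' => hg (Subtype.ext h')) y hy
  rw [Finset.sum_congr rfl (fun g _ => hterm g), Finset.sum_add_distrib, Finset.sum_ite_eq'] at hB
  simp only [Finset.sum_const, Finset.card_univ, smul_eq_mul, mul_one, Finset.mem_univ,
    if_true] at hB
  rw [Nat.card_eq_fintype_card]
  have h1 : Fintype.card S ∣ Fintype.card S + (Fintype.card Ω - 1) := ⟨_, by rw [hB]; ring⟩
  exact (Nat.dvd_add_right (dvd_refl _)).mp h1

/-- an element inverting a subgroup `P` of odd order acting semiregularly off `a` has few fixed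
points -/
theorem card_fix_le_of_inverts (P : Subgroup G) [Finite P] (a : Ω) (w : G) (hwa : w • a = a)
    (hPa : ∀ x ∈ P, x • a = a) (hfix : ∀ x ∈ P, x ≠ 1 → ∀ ω : Ω, x • ω = ω → ω = a)
    (hodd : ∀ v ∈ P, v * v = 1 → v = 1) (hwi : ∀ y ∈ P, w * y * w⁻¹ = y⁻¹) :
    (Fintype.card {x : Ω // w • x = x} - 1) * Nat.card P ≤ Fintype.card Ω - 1 := by
  have hwy : ∀ y ∈ P, w * y = y⁻¹ * w := fun y hy => by
    rw [← hwi y hy]; group
  have hwsm : ∀ y ∈ P, ∀ δ : Ω, w • δ = δ → w • (y • δ) = y⁻¹ • δ := by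
    intro y hy δ hδ
    rw [smul_smul, hwy y hy, mul_smul, hδ]
  have hne : ∀ q : {β : Ω // w • β = β ∧ β ≠ a} × P, (q.2 : G) • q.1.1 ≠ a := by
    intro q e
    apply q.1.2.2
    have : (q.2 : G) • q.1.1 = (q.2 : G) • a := by rw [e, hPa _ q.2.2]
    exact MulAction.injective _ this
  have hinj : Function.Injective (fun q : {β : Ω // w • β = β ∧ β ≠ a} × P =>
      (⟨(q.2 : G) • q.1.1, hne q⟩ : {γ : Ω // γ ≠ a})) := by
    rintro ⟨⟨β₁, hβ₁w, hβ₁a⟩, ⟨y₁, hy₁⟩⟩ ⟨⟨β₂, hβ₂w, hβ₂a⟩, ⟨y₂, hy₂⟩⟩ e
    have e1 : y₁ • β₁ = y₂ • β₂ := congrArg Subtype.val e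
    have hv : y₂⁻¹ * y₁ ∈ P := P.mul_mem (P.inv_mem hy₂) hy₁
    have e2 : (y₂⁻¹ * y₁) • β₁ = β₂ := by rw [mul_smul, e1, inv_smul_smul]
    have e3 : (y₂⁻¹ * y₁)⁻¹ • β₁ = β₂ := by
      rw [← hwsm _ hv β₁ hβ₁w, e2, hβ₂w]
    have e4 : ((y₂⁻¹ * y₁) * (y₂⁻¹ * y₁)) • β₁ = β₁ := by
      rw [mul_smul, e2, ← e3, smul_inv_smul]
    have e5 : (y₂⁻¹ * y₁) * (y₂⁻¹ * y₁) = 1 := by
      by_contra hne1
      exact hβ₁a (hfix _ (P.mul_mem hv hv) hne1 β₁ e4)
    have e6 : y₂⁻¹ * y₁ = 1 := hodd _ hv e5
    have e7 : y₁ = y₂ := (inv_mul_eq_one.mp e6).symm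
    subst e7
    have e8 : β₁ = β₂ := MulAction.injective _ e1
    subst e8
    rfl
  have hcle := Nat.card_le_card_of_injective _ hinj
  have h1 : Nat.card {γ : Ω // γ ≠ a} = Fintype.card Ω - 1 := by
    rw [Nat.card_eq_fintype_card, Fintype.card_subtype_compl]
    simp
  have h2 : Nat.card {β : Ω // w • β = β ∧ β ≠ a} + 1 = Fintype.card {x : Ω // w • x = x} := by
    rw [Nat.card_eq_fintype_card, Fintype.card_subtype, Fintype.card_subtype]
    have : Finset.univ.filter (fun x : Ω => w • x = x)
        = insert a (Finset.univ.filter (fun x : Ω => w • x = x ∧ x ≠ a)) := by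
      ext x
      simp only [Finset.mem_filter, Finset.mem_univ, true_and, Finset.mem_insert]
      constructor
      · intro hx
        by_cases hxa : x = a
        · exact Or.inl hxa
        · exact Or.inr ⟨hx, hxa⟩
      · rintro (rfl | hx)
        · exact hwa
        · exact hx.1
    rw [this, Finset.card_insert_of_notMem (by simp)]
  rw [Nat.card_prod, h1] at hcle
  have h3 : Fintype.card {x : Ω // w • x = x} - 1 = Nat.card {β : Ω // w • β = β ∧ β ≠ a} := by
    omega
  rw [h3]
  exact hcle

end Act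

section Sylow
variable {G : Type*} [Group G] [Finite G] {p : ℕ} [Fact p.Prime]

omit [Finite G] in
theorem sylow_eq_of_fix (W Q : Sylow p G) (hg : ∀ g ∈ W, g • Q = Q) : Q = W := by
  have h1 : Q ∈ fixedPoints (W : Subgroup G) (Sylow p G) := by
    intro g
    exact hg g g.2
  have h2 : (W : Subgroup G) ≤ Q := W.2.sylow_mem_fixedPoints_iff.mp h1
  exact Sylow.ext (W.3 Q.2 h2)

theorem faithful [IsSimpleGroup G] (h1 : 1 < Nat.card (Sylow p G)) (g : G)
    (hg : ∀ Q : Sylow p G, g • Q = Q) : g = 1 := by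
  have hK : (toPermHom G (Sylow p G)).ker.Normal := inferInstance
  rcases hK.eq_bot_or_eq_top with hb | ht
  · have : g ∈ (toPermHom G (Sylow p G)).ker := by
      rw [MonoidHom.mem_ker]
      ext Q : 1
      exact hg Q
    rw [hb] at this
    exact Subgroup.mem_bot.mp this
  · exfalso
    have hfix : ∀ (g : G) (Q : Sylow p G), g • Q = Q := by
      intro g Q
      have : g ∈ (toPermHom G (Sylow p G)).ker := ht ▸ Subgroup.mem_top g
      rw [MonoidHom.mem_ker] at this
      exact congrArg (fun σ : Equiv.Perm (Sylow p G) => σ Q) this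
    have : Subsingleton (Sylow p G) := ⟨fun Q R => by
      obtain ⟨g, rfl⟩ := exists_smul_eq G Q R
      exact (hfix g Q).symm⟩
    have := Finite.card_le_one_iff_subsingleton.mpr this
    omega

theorem card_sylow_dvd_card : Nat.card (Sylow p G) ∣ Nat.card G := by
  obtain ⟨P⟩ : Nonempty (Sylow p G) := inferInstance
  rw [P.card_eq_index_normalizer]
  exact Subgroup.index_dvd_card _

theorem even_action [IsSimpleGroup G] [Fintype (Sylow p G)] [DecidableEq (Sylow p G)]
    (h2 : 2 < Nat.card (Sylow p G)) (g : G) :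
    Equiv.Perm.sign (toPerm g : Equiv.Perm (Sylow p G)) = 1 := by
  set φ : G →* ℤˣ := Equiv.Perm.sign.comp (toPermHom G (Sylow p G)) with hφ
  have hK : φ.ker.Normal := inferInstance
  rcases hK.eq_bot_or_eq_top with hb | ht
  · exfalso
    have h1 := Nat.card_le_card_of_injective φ ((MonoidHom.ker_eq_bot_iff φ).mp hb)
    rw [Nat.card_eq_fintype_card (α := ℤˣ), Fintype.card_units_int] at h1
    have h3 := Nat.le_of_dvd Nat.card_pos (card_sylow_dvd_card (G := G) (p := p))
    omega
  · have : g ∈ φ.ker := ht ▸ Subgroup.mem_top g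
    exact this

theorem orderOf_toPerm [IsSimpleGroup G] (h1 : 1 < Nat.card (Sylow p G)) (z : G) :
    orderOf (toPerm z : Equiv.Perm (Sylow p G)) = orderOf z := by
  refine orderOf_injective (toPermHom G (Sylow p G)) ?_ z
  rw [injective_iff_map_eq_one]
  intro g hg
  apply faithful h1
  intro x
  have := congrArg (fun σ : Equiv.Perm (Sylow p G) => σ x) hg
  simpa using this

/-- if `c` centralises every Sylow subgroup it normalises, their number divides `|C(c)|` -/
theorem card_fix_dvd_centralizer [Fintype (Sylow p G)] [DecidableEq (Sylow p G)] (c : G)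
    (P : Sylow p G) (hP : c • P = P)
    (hc : ∀ Q : Sylow p G, c • Q = Q → ∀ x ∈ Q, c * x = x * c) :
    Fintype.card {Q : Sylow p G // c • Q = Q} ∣ Nat.card (centralizer {c} : Subgroup G) := by
  set M : Subgroup G := centralizer {c} with hM
  have hle : ∀ Q : Sylow p G, c • Q = Q → (Q : Subgroup G) ≤ M := by
    intro Q hQ x hx
    rw [hM, Subgroup.mem_centralizer_singleton_iff]
    exact (hc Q hQ x hx).symm
  have horb : orbit M P = {Q : Sylow p G | c • Q = Q} := by
    ext Q
    constructor
    · rintro ⟨m, rfl⟩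
      show c • ((m : G) • P) = (m : G) • P
      have hm : (m : G) * c = c * m := Subgroup.mem_centralizer_singleton_iff.mp m.2
      rw [smul_smul, ← hm, mul_smul, hP]
    · intro hQ
      obtain ⟨m, hm⟩ := exists_smul_eq M (P.subtype (hle P hP)) (Q.subtype (hle Q hQ))
      rw [Sylow.smul_subtype] at hm
      exact ⟨m, Sylow.subtype_injective hm⟩
  have h1 : Fintype.card {Q : Sylow p G // c • Q = Q} = Nat.card (orbit M P) := by
    rw [← Nat.card_eq_fintype_card]
    exact (Nat.card_congr (Equiv.setCongr horb)).symm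
  rw [h1]
  have h2 := Nat.card_congr (orbitProdStabilizerEquivGroup M P)
  rw [Nat.card_prod] at h2
  exact Dvd.intro _ h2

/-- Sylow subgroup of order exactly `r`. -/
theorem card_sylow_eq_prime {r m : ℕ} [Fact r.Prime]
    (hG : Nat.card G = r * m) (hm : ¬ r ∣ m) (S : Sylow r G) : Nat.card S = r := by
  have hr : r.Prime := Fact.out
  have hm0 : m ≠ 0 := fun h => hm (h ▸ dvd_zero r)
  rw [Sylow.card_eq_multiplicity, hG, Nat.factorization_mul hr.ne_zero hm0]
  simp [hr.factorization_self, Nat.factorization_eq_zero_of_not_dvd hm]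

/-- Burnside: a simple group has no Sylow subgroup of prime order central in its normaliser,
unless the group itself has that order. -/
theorem burnside_false [IsSimpleGroup G] (R : Sylow p G) (hR : Nat.card R = p)
    (hG : Nat.card G ≠ p)
    (hNC : normalizer ((R : Subgroup G) : Set G) ≤ centralizer ((R : Subgroup G) : Set G)) :
    False := by
  have hp : p.Prime := Fact.out
  have hK : (MonoidHom.transferSylow R hNC).ker.Normal := inferInstance
  have hidx : (MonoidHom.transferSylow R hNC).ker.index = p := by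
    rw [(MonoidHom.ker_transferSylow_isComplement' R hNC).symm.index_eq_card, hR]
  rcases hK.eq_bot_or_eq_top with hb | ht
  · rw [hb, Subgroup.index_bot] at hidx
    exact hG hidx
  · rw [ht, Subgroup.index_top] at hidx
    exact hp.one_lt.ne hidx

/-- `|N(R) : C(R)|` divides `p - 1` for `|R| = p` -/
theorem relIndex_dvd_pred (R : Sylow p G) (hR : Nat.card R = p) :
    (centralizer ((R : Subgroup G) : Set G)).relIndex (normalizer ((R : Subgroup G) : Set G))
      ∣ p - 1 := by
  have hcyc : IsCyclic (R : Subgroup G) := isCyclic_of_prime_card hR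
  have key := card_dvd_of_injective _
    (QuotientGroup.kerLift_injective (R : Subgroup G).normalizerMonoidHom)
  rw [normalizerMonoidHom_ker, ← index, ← relIndex, hcyc.card_mulAut, hR,
    Nat.totient_prime Fact.out] at key
  exact key

end Sylow

section Three
variable {G : Type*} [Group G] [Finite G] [IsSimpleGroup G]
  [Fintype (Sylow 3 G)] [DecidableEq (Sylow 3 G)]

/-- number of fixed points -/
abbrev fx (g : G) : ℕ := Fintype.card {Q : Sylow 3 G // g • Q = Q}

theorem card22 (h22 : Nat.card (Sylow 3 G) = 22) : Fintype.card (Sylow 3 G) = 22 := by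
  rw [← Nat.card_eq_fintype_card]; exact h22

theorem mem_zpowers3 (h22 : Nat.card (Sylow 3 G) = 22) (P : Sylow 3 G) {x y : G} (hx : x ∈ P)
    (hy : y ∈ P) (hy1 : y ≠ 1) : x ∈ zpowers y := by
  have h1 : (⟨x, hx⟩ : (P : Subgroup G)) ∈ zpowers (⟨y, hy⟩ : (P : Subgroup G)) :=
    mem_zpowers_of_prime_card (card_sylow_three h22 P) (fun h' => hy1 (congrArg Subtype.val h'))
  obtain ⟨k, hk⟩ := h1
  exact ⟨k, by simpa using congrArg Subtype.val hk⟩

theorem pow_three (h22 : Nat.card (Sylow 3 G) = 22) (P : Sylow 3 G) {x : G} (hx : x ∈ P) :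
    x ^ 3 = 1 := by
  have : (⟨x, hx⟩ : (P : Subgroup G)) ^ Nat.card (P : Subgroup G) = 1 := pow_card_eq_one'
  rw [card_sylow_three h22 P] at this
  simpa using congrArg Subtype.val this

theorem exists_ne_one3 (h22 : Nat.card (Sylow 3 G) = 22) (P : Sylow 3 G) : ∃ z ∈ P, z ≠ 1 := by
  have : Nontrivial (P : Subgroup G) := by
    have h1 : 1 < Nat.card (P : Subgroup G) := by rw [card_sylow_three h22 P]; norm_num
    exact Finite.one_lt_card_iff_nontrivial.mp h1
  obtain ⟨z, hz⟩ := exists_ne (1 : (P : Subgroup G))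
  exact ⟨z, z.2, fun h' => hz (Subtype.ext h')⟩

theorem fix_of_mem (h22 : Nat.card (Sylow 3 G) = 22) (P : Sylow 3 G) {x : G} (hx : x ∈ P)
    (hx1 : x ≠ 1) (Q : Sylow 3 G) (hQ : x • Q = Q) : Q = P := by
  apply sylow_eq_of_fix
  intro g hg
  obtain ⟨k, rfl⟩ := mem_zpowers3 h22 P hg hx hx1
  have hst : x ∈ stabilizer G Q := hQ
  exact (stabilizer G Q).zpow_mem hst k

theorem sq_eq_one3 (h22 : Nat.card (Sylow 3 G) = 22) (P : Sylow 3 G) {v : G} (hv : v ∈ P)
    (h2 : v * v = 1) : v = 1 := by
  have h3 := pow_three h22 P hv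
  have : v ^ 3 = (v * v) * v := by simp only [pow_succ, pow_zero, one_mul]
  rw [this, h2, one_mul] at h3
  exact h3

/-- an element normalising `P` centralises or inverts it -/
theorem cent_or_inv (h22 : Nat.card (Sylow 3 G) = 22) (P : Sylow 3 G) (t : G) (ht : t • P = P) :
    (∀ x ∈ P, t * x = x * t) ∨ (∀ x ∈ P, t * x * t⁻¹ = x⁻¹) := by
  obtain ⟨z, hz, hz1⟩ := exists_ne_one3 h22 P
  have hN : t ∈ normalizer ((P : Subgroup G) : Set G) := Sylow.smul_eq_iff_mem_normalizer.mp ht
  have hz' : t * z * t⁻¹ ∈ P := (mem_normalizer_iff.mp hN z).mp hz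
  obtain ⟨k, hk⟩ := mem_zpowers3 h22 P hz' hz hz1
  have hk' : z ^ k = t * z * t⁻¹ := hk
  have h3 : z ^ (3 : ℤ) = 1 := by
    have := pow_three h22 P hz
    exact_mod_cast this
  have hkmod : z ^ k = z ^ (k % 3) := by
    conv_lhs => rw [← Int.emod_add_mul_ediv k 3]
    rw [zpow_add, zpow_mul, h3, one_zpow, mul_one]
  have hcases : k % 3 = 0 ∨ k % 3 = 1 ∨ k % 3 = 2 := by omega
  rcases hcases with h0 | h0 | h0
  · exfalso
    rw [h0, zpow_zero] at hkmod
    rw [hkmod] at hk'
    apply hz1
    have : z = t⁻¹ * (t * z * t⁻¹) * t := by group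
    rw [this, ← hk']; group
  · left
    rw [h0, zpow_one] at hkmod
    rw [hkmod] at hk'
    have hcz : Commute t z := by
      show t * z = z * t
      calc t * z = (t * z * t⁻¹) * t := by group
        _ = z * t := by rw [← hk']
    intro x hx
    obtain ⟨j, rfl⟩ := mem_zpowers3 h22 P hx hz hz1
    exact (hcz.zpow_right j).eq
  · right
    rw [h0] at hkmod
    have hz2 : z ^ (2 : ℤ) = z⁻¹ := by
      have : z ^ (2 : ℤ) * z = 1 := by
        rw [← zpow_add_one]; exact h3
      exact eq_inv_of_mul_eq_one_left this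
    rw [hz2] at hkmod
    rw [hkmod] at hk'
    intro x hx
    obtain ⟨j, rfl⟩ := mem_zpowers3 h22 P hx hz hz1
    show t * z ^ j * t⁻¹ = (z ^ j)⁻¹
    rw [← conj_zpow, ← hk', inv_zpow]

/-- elements of odd order normalising `P` centralise it -/
theorem cent_of_odd (h22 : Nat.card (Sylow 3 G) = 22) (P : Sylow 3 G) (w : G) (hw : w • P = P)
    (hodd : Odd (orderOf w)) : ∀ x ∈ P, w * x = x * w := by
  rcases cent_or_inv h22 P w hw with h | h
  · exact h
  · exfalso
    obtain ⟨z, hz, hz1⟩ := exists_ne_one3 h22 P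
    obtain ⟨m, hm⟩ := hodd
    have key : ∀ n : ℕ, w ^ (2 * n + 1) * z * (w ^ (2 * n + 1))⁻¹ = z⁻¹ := by
      intro n
      induction n with
      | zero => simpa using h z hz
      | succ n ih =>
        have e : w ^ (2 * (n + 1) + 1) * z * (w ^ (2 * (n + 1) + 1))⁻¹
            = w * (w * (w ^ (2 * n + 1) * z * (w ^ (2 * n + 1))⁻¹) * w⁻¹) * w⁻¹ := by
          have : w ^ (2 * (n + 1) + 1) = w * (w * w ^ (2 * n + 1)) := by
            rw [← pow_succ', ← pow_succ']
            congr 1
          rw [this]; group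
        rw [e, ih, h _ (P.inv_mem hz), inv_inv, h z hz]
    have h1 := key m
    rw [← hm, pow_orderOf_eq_one] at h1
    simp only [one_mul, inv_one, mul_one] at h1
    apply hz1
    apply sq_eq_one3 h22 P hz
    calc z * z = z * z⁻¹ := by rw [← h1]
      _ = 1 := mul_inv_cancel z

theorem fx_add (h22 : Nat.card (Sylow 3 G) = 22) (g : G) :
    fx g + (toPerm g : Equiv.Perm (Sylow 3 G)).support.card = 22 := by
  rw [← card22 h22]; exact card_fix_add_support g

theorem fx_prime (h22 : Nat.card (Sylow 3 G) = 22) (g : G) (r : ℕ) (hr : r.Prime)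
    (ho : orderOf g = r) : ∃ m : ℕ, fx g + (m + 1) * r = 22 := by
  obtain ⟨m, hm⟩ := prime_mul_support (toPerm g : Equiv.Perm (Sylow 3 G)) r hr
    (by rw [orderOf_toPerm (by rw [h22]; norm_num), ho])
  exact ⟨m, by rw [← hm]; exact fx_add h22 g⟩

theorem fx_cent (h22 : Nat.card (Sylow 3 G) = 22) (P : Sylow 3 G) (c : G)
    (hc : ∀ x ∈ P, c * x = x * c) : fx c % 3 = 1 := by
  obtain ⟨z, hz, hz1⟩ := exists_ne_one3 h22 P
  exact fix_mod_p 3 c z (hc z hz) (pow_three h22 P hz) P
    (fun x => ⟨fix_of_mem h22 P hz hz1 x, fun hx => hx ▸ smul_self_of_mem hz⟩)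

theorem exists_fix_of_pos (g : G) (h : 0 < fx g) : ∃ Q : Sylow 3 G, g • Q = Q := by
  obtain ⟨⟨Q, hQ⟩⟩ := Fintype.card_pos_iff.mp h
  exact ⟨Q, hQ⟩

theorem no_order_five (h22 : Nat.card (Sylow 3 G) = 22) (y : G) (hy : orderOf y = 5) : False := by
  obtain ⟨m, hm⟩ := fx_prime h22 y 5 (by norm_num) hy
  obtain ⟨Q, hQ⟩ := exists_fix_of_pos y (by omega)
  have hodd : Odd (orderOf y) := by rw [hy]; decide
  have h3 := fx_cent h22 Q y (cent_of_odd h22 Q y hQ hodd)
  have h7 : fx y = 7 := by omega
  have hdvd := card_fix_dvd_centralizer y Q hQ (fun R hR => cent_of_odd h22 R y hR hodd)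
  have h7' : 7 ∣ Nat.card (centralizer {y} : Subgroup G) := by
    have : fx y ∣ Nat.card (centralizer {y} : Subgroup G) := hdvd
    rwa [h7] at this
  have : Fact (Nat.Prime 7) := ⟨by norm_num⟩
  obtain ⟨w', hw'⟩ := exists_prime_orderOf_dvd_card' 7 h7'
  set w : G := (w' : G) with hwdef
  have hw : orderOf w = 7 := by rw [hwdef, Subgroup.orderOf_coe, hw']
  have hwy : w * y = y * w := Subgroup.mem_centralizer_singleton_iff.mp w'.2
  obtain ⟨m', hm'⟩ := fx_prime h22 w 7 (by norm_num) hw
  obtain ⟨R, hR⟩ := exists_fix_of_pos w (by omega)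
  have hoddw : Odd (orderOf w) := by rw [hw]; decide
  have h3w := fx_cent h22 R w (cent_of_odd h22 R w hR hoddw)
  have h1w : fx w = 1 := by omega
  obtain ⟨⟨R0, hR0⟩, huniq⟩ := Fintype.card_eq_one_iff.mp h1w
  have hfixw : ∀ x : Sylow 3 G, w • x = x ↔ x = R0 :=
    fun x => ⟨fun hx => congrArg Subtype.val (huniq ⟨x, hx⟩), fun hx => hx ▸ hR0⟩
  have := fix_mod_p 7 y w hwy.symm (by rw [← hw]; exact pow_orderOf_eq_one w) R0 hfixw
  have h7'' : fx y % 7 = 1 := this
  omega

theorem no_central_involution (h22 : Nat.card (Sylow 3 G) = 22) (P : Sylow 3 G) (k : G)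
    (hk : orderOf k = 2) (hc : ∀ x ∈ P, k * x = x * k) : False := by
  have h3 := fx_cent h22 P k hc
  have h4 := four_dvd_support (toPerm k : Equiv.Perm (Sylow 3 G))
    (by rw [orderOf_toPerm (by rw [h22]; norm_num), hk]) (even_action (by rw [h22]; norm_num) k)
  have hadd := fx_add h22 k
  obtain ⟨m, hm⟩ := fx_prime h22 k 2 Nat.prime_two hk
  have h10 : fx k = 10 := by omega
  have hkP : k • P = P := by
    rw [Sylow.smul_eq_iff_mem_normalizer]
    apply Subgroup.centralizer_le_normalizer
    rw [mem_centralizer_iff]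
    intro x hx
    exact (hc x hx).symm
  have hall : ∀ Q : Sylow 3 G, k • Q = Q → ∀ x ∈ Q, k * x = x * k := by
    intro Q hQ
    rcases cent_or_inv h22 Q k hQ with h | h
    · exact h
    · exfalso
      have := card_fix_le_of_inverts (Q : Subgroup G) Q k hQ (fun x hx => smul_self_of_mem hx)
        (fun x hx hx1 R hR => fix_of_mem h22 Q hx hx1 R hR)
        (fun v hv h2 => sq_eq_one3 h22 Q hv h2) h
      rw [card_sylow_three h22 Q, card22 h22] at this
      have h10' : Fintype.card {x : Sylow 3 G // k • x = x} = 10 := h10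
      rw [h10'] at this
      omega
  have hdvd := card_fix_dvd_centralizer k P hkP hall
  have h5 : 5 ∣ Nat.card (centralizer {k} : Subgroup G) := by
    have : fx k ∣ Nat.card (centralizer {k} : Subgroup G) := hdvd
    rw [h10] at this
    exact (by norm_num : 5 ∣ 10).trans this
  have : Fact (Nat.Prime 5) := ⟨by norm_num⟩
  obtain ⟨y', hy'⟩ := exists_prime_orderOf_dvd_card' 5 h5
  exact no_order_five h22 (y' : G) (by rw [Subgroup.orderOf_coe, hy'])

/-- the centraliser of `P` acts semiregularly off `P` -/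
theorem cent_free (h22 : Nat.card (Sylow 3 G) = 22) (P : Sylow 3 G) (c : G)
    (hc : ∀ x ∈ P, c * x = x * c) (hc1 : c ≠ 1) (β : Sylow 3 G) (hβ : c • β = β) : β = P := by
  by_contra hne
  have hoc : orderOf c ≠ 1 := fun h' => hc1 (orderOf_eq_one_iff.mp h')
  set r := (orderOf c).minFac with hr
  have hrp : r.Prime := Nat.minFac_prime hoc
  set w := c ^ (orderOf c / r) with hw
  have how : orderOf w = r :=
    orderOf_pow_orderOf_div (orderOf_pos c).ne' (Nat.minFac_dvd _)
  have hwc : ∀ x ∈ P, w * x = x * w := fun x hx =>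
    ((show Commute c x from hc x hx).pow_left _).eq
  have hwβ : w • β = β := pow_smul_fix c β hβ _
  have hwP : w • P = P := by
    rw [Sylow.smul_eq_iff_mem_normalizer]
    apply Subgroup.centralizer_le_normalizer
    rw [mem_centralizer_iff]
    intro x hx
    exact (hwc x hx).symm
  have h3 := fx_cent h22 P w hwc
  obtain ⟨m, hm⟩ := fx_prime h22 w r hrp how
  have hge : 1 < fx w := by
    rw [Fintype.one_lt_card_iff_nontrivial]
    exact ⟨⟨β, hwβ⟩, ⟨P, hwP⟩, fun h' => hne (congrArg Subtype.val h')⟩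
  have hr18 : r ≤ 20 := by nlinarith
  have hr235 : r = 2 ∨ r = 3 ∨ r = 5 := by
    generalize fx w = f at *
    clear_value r
    interval_cases r <;> first | omega | (exfalso; revert hrp; norm_num)
  rcases hr235 with h | h | h
  · exact no_central_involution h22 P w (by rw [how, h]) hwc
  · have hwmem : w ∈ P := by
      have hpg : IsPGroup 3 (zpowers w) := by
        rw [IsPGroup.iff_card]
        exact ⟨1, by rw [Nat.card_zpowers, how, h, pow_one]⟩
      have h1 := hpg.inf_normalizer_sylow P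
      have h2 : w ∈ zpowers w ⊓ normalizer (P : Set G) :=
        ⟨mem_zpowers w, Sylow.smul_eq_iff_mem_normalizer.mp hwP⟩
      rw [h1] at h2
      exact h2.2
    have hw1 : w ≠ 1 := by
      intro e
      rw [e, orderOf_one] at how
      omega
    exact hne (fix_of_mem h22 P hwmem hw1 β hwβ)
  · exact no_order_five h22 w (by rw [how, h])

theorem simple_false (h22 : Nat.card (Sylow 3 G) = 22) : False := by
  obtain ⟨P⟩ : Nonempty (Sylow 3 G) := inferInstance
  have hP3 := card_sylow_three h22 P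
  set C : Subgroup G := centralizer ((P : Subgroup G) : Set G) with hC
  set N : Subgroup G := normalizer ((P : Subgroup G) : Set G) with hN
  have hCmem : ∀ c ∈ C, ∀ x ∈ P, c * x = x * c := by
    intro c hc x hx
    exact ((mem_centralizer_iff.mp hc) x hx).symm
  have hCN : C ≤ N := Subgroup.centralizer_le_normalizer _
  have hC21 : Nat.card C ∣ 21 := by
    have := card_dvd_of_free (Ω := Sylow 3 G) C P
      (fun s hs => Sylow.smul_eq_iff_mem_normalizer.mpr (hCN hs))
      (fun s hs hs1 ω hω => cent_free h22 P s (hCmem s hs) hs1 ω hω)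
    rwa [card22 h22] at this
  have hPC : (P : Subgroup G) ≤ C := by
    intro x hx
    rw [hC, mem_centralizer_iff]
    intro y hy
    by_cases hx1 : x = 1
    · rw [hx1]; simp
    · obtain ⟨k, rfl⟩ := mem_zpowers3 h22 P hy hx hx1
      exact ((Commute.refl x).zpow_left k).eq
  have h3C : 3 ∣ Nat.card C := hP3 ▸ Subgroup.card_dvd_of_le hPC
  have hrel : C.relIndex N ∣ 2 := relIndex_dvd_pred P hP3
  have hG22 : N.index = 22 := by rw [← h22]; exact (P.card_eq_index_normalizer).symm
  have hGne : Nat.card G ≠ 3 := by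
    intro e
    have := Subgroup.index_dvd_card N
    rw [hG22, e] at this
    norm_num at this
  have hrel2 : C.relIndex N = 2 := by
    rcases (Nat.dvd_prime Nat.prime_two).mp hrel with h | h
    · exact (burnside_false P hP3 hGne (relIndex_eq_one.mp h)).elim
    · exact h
  have hcardN : Nat.card C * 2 = Nat.card N := by
    have := Subgroup.relIndex_mul_relIndex ⊥ C N bot_le hCN
    rwa [Subgroup.relIndex_bot_left, Subgroup.relIndex_bot_left, hrel2] at this
  have hcardG : Nat.card N * 22 = Nat.card G := by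
    rw [← hG22]; exact N.card_mul_index
  have hCcases : Nat.card C = 3 ∨ Nat.card C = 21 := by
    have hle : Nat.card C ≤ 21 := Nat.le_of_dvd (by norm_num) hC21
    generalize Nat.card C = n at *
    interval_cases n <;> omega
  have hGcases : Nat.card G = 11 * 12 ∨ Nat.card G = 11 * 84 := by
    rcases hCcases with h | h <;> rw [h] at hcardN <;> omega
  have : Fact (Nat.Prime 11) := ⟨by norm_num⟩
  obtain ⟨R⟩ : Nonempty (Sylow 11 G) := inferInstance
  have hR11 : Nat.card R = 11 := by
    rcases hGcases with h | h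
    · exact card_sylow_eq_prime h (by norm_num) R
    · exact card_sylow_eq_prime h (by norm_num) R
  have hRidx : Nat.card R * (R : Subgroup G).index = Nat.card G := (R : Subgroup G).card_mul_index
  have hn1 := card_sylow_modEq_one 11 G
  have hn2 : Nat.card (Sylow 11 G) ∣ (R : Subgroup G).index := R.card_dvd_index
  have hn3 := R.card_eq_index_normalizer
  set NR : Subgroup G := normalizer ((R : Subgroup G) : Set G) with hNR
  have hn3' : Nat.card (Sylow 11 G) = NR.index := hn3
  have hNRidx : Nat.card NR * NR.index = Nat.card G := NR.card_mul_index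
  have hrelR := relIndex_dvd_pred R hR11
  have hrelR2 : (centralizer ((R : Subgroup G) : Set G)).relIndex NR ∣ Nat.card NR :=
    Subgroup.relIndex_dvd_card _ _
  have hGne11 : Nat.card G ≠ 11 := by
    rcases hGcases with h | h <;> omega
  have hn12 : NR.index = 1 ∨ NR.index = 12 := by
    rw [hn3'] at hn1 hn2
    rw [hR11] at hRidx
    unfold Nat.ModEq at hn1
    generalize NR.index = n at *
    generalize (R : Subgroup G).index = i at *
    rcases hGcases with h | h
    · have hi : i = 12 := by omega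
      subst hi
      have hle : n ≤ 12 := Nat.le_of_dvd (by norm_num) hn2
      interval_cases n <;> omega
    · have hi : i = 84 := by omega
      subst hi
      have hle : n ≤ 84 := Nat.le_of_dvd (by norm_num) hn2
      interval_cases n <;> omega
  rcases hn12 with h1 | h12
  · have htop : NR = ⊤ := Subgroup.index_eq_one.mp h1
    have hRn : (R : Subgroup G).Normal := normalizer_eq_top_iff.mp htop
    rcases hRn.eq_bot_or_eq_top with hb | ht
    · rw [hb, Subgroup.card_bot] at hR11
      norm_num at hR11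
    · rw [ht, Subgroup.card_top] at hR11
      exact hGne11 hR11
  · rw [h12] at hNRidx
    have hNRcard : Nat.card NR = 11 ∨ Nat.card NR = 77 := by
      rcases hGcases with h | h <;> omega
    apply burnside_false R hR11 hGne11
    apply relIndex_eq_one.mp
    have hcop : Nat.Coprime (Nat.card NR) (11 - 1) := by
      rcases hNRcard with h | h <;> rw [h] <;> norm_num
    exact Nat.eq_one_of_dvd_coprimes hcop hrelR2 hrelR

end Three

end Cfsg.Agent.Lib.Helper21.Syl22
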