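import Mathlib
import Cfsg.Prelude.Def_Transfer

set_option autoImplicit false

namespace Cfsg.Agent.Lib.Helper21

open Subgroup

/-- Evaluation of the transfer at an element all of whose conjugate powers in `H` have the same
image as the power itself. -/
theorem transfer_eq_pow_of_conj {G A : Type*} [Group G] [CommGroup A] {H : Subgroup G}
    [H.FiniteIndex] (ϕ : H →* A) (g : H)
    (key : ∀ (k : ℕ) (g₀ : G) (hk : g₀⁻¹ * (g : G) ^ k * g₀ ∈ H),
      ϕ ⟨g₀⁻¹ * (g : G) ^ k * g₀, hk⟩ = ϕ g ^ k) :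
    MonoidHom.transfer ϕ (g : G) = ϕ g ^ H.index := by
  have : Fintype (Quotient (MulAction.orbitRel (zpowers (g : G)) (G ⧸ H))) :=
    Fintype.ofFinite _
  rw [index_eq_sum_minimalPeriod H (g : G), ← Finset.prod_pow_eq_pow_sum,
    MonoidHom.transfer_eq_prod_quotient_orbitRel_zpowers_quot]
  apply Finset.prod_congr rfl
  intros
  apply key

open scoped IsMulCommutative in
/-- The kernel `N` of the transfer into the commutative group `H/K`: it contains `G'`, it contains
all `p'`-elements when `H/K` is a `p`-group, and it avoids every `p`-element of `H \ K` with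
controlled powers. -/
theorem exists_normal_of_controlled_powers {G : Type*} [Group G] [Finite G] {p : ℕ}
    [Fact p.Prime] (H K : Subgroup G) (hHK : K ≤ H) (hKn : (K.subgroupOf H).Normal)
    (hab : ∀ x ∈ H, ∀ y ∈ H, x * y * x⁻¹ * y⁻¹ ∈ K) (hidx : Nat.Coprime p H.index) :
    ∃ N : Subgroup G, N.Normal ∧ commutator G ≤ N ∧
      ((∀ h ∈ H, ∃ k : ℕ, h ^ p ^ k ∈ K) → ∀ x : G, Nat.Coprime (orderOf x) p → x ∈ N) ∧
      ∀ g ∈ H, g ∉ K → (∃ k : ℕ, orderOf g = p ^ k) →
      (∀ (m : ℤ) (a : G), a * g ^ m * a⁻¹ ∈ H → (a * g ^ m * a⁻¹) * (g ^ m)⁻¹ ∈ K) →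
      g ∉ N := by
  have hcomm : IsMulCommutative (H ⧸ K.subgroupOf H) := by
    rw [Normal.quotient_commutative_iff_commutator_le, commutator_def, Subgroup.commutator_le]
    intro x _ y _
    rw [Subgroup.mem_subgroupOf]
    simpa [commutatorElement_def] using hab x x.2 y y.2
  refine ⟨(MonoidHom.transfer (QuotientGroup.mk' (K.subgroupOf H))).ker, inferInstance,
    Abelianization.commutator_subset_ker _, ?_, ?_⟩
  · intro hp x hx
    rw [MonoidHom.mem_ker]
    set V := MonoidHom.transfer (QuotientGroup.mk' (K.subgroupOf H)) with hV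
    obtain ⟨y, hy⟩ := QuotientGroup.mk'_surjective _ (V x)
    obtain ⟨k, hk⟩ := hp y y.2
    have h1 : (V x) ^ p ^ k = 1 := by
      rw [← hy, ← map_pow, QuotientGroup.mk'_apply, QuotientGroup.eq_one_iff,
        Subgroup.mem_subgroupOf]
      simpa using hk
    have h2 : (V x) ^ orderOf x = 1 := by
      rw [← map_pow, pow_orderOf_eq_one, map_one]
    have h3 : orderOf (V x) ∣ Nat.gcd (orderOf x) (p ^ k) :=
      Nat.dvd_gcd (orderOf_dvd_of_pow_eq_one h2) (orderOf_dvd_of_pow_eq_one h1)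
    rw [Nat.Coprime.pow_right k hx] at h3
    exact orderOf_eq_one_iff.mp (Nat.dvd_one.mp h3)
  intro g hgH hgK hgp hctrl
  rw [MonoidHom.mem_ker]
  have h1 := transfer_eq_pow_of_conj (QuotientGroup.mk' (K.subgroupOf H)) ⟨g, hgH⟩ (by
    intro k g₀ hk
    rw [← map_pow]
    apply QuotientGroup.eq.mpr
    rw [Subgroup.mem_subgroupOf]
    have h2 := hctrl k g₀⁻¹ (by simpa using hk)
    have h3 := inv_mem h2
    simp only [zpow_natCast, inv_inv] at h3
    simp only [Subgroup.coe_mul, Subgroup.coe_inv, Subgroup.coe_pow]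
    -- K normal in H: conjugate
    have h4 : (g₀⁻¹ * g ^ k * g₀)⁻¹ * g ^ k =
        (g ^ k)⁻¹ * ((g₀⁻¹ * g ^ k * g₀ * (g ^ k)⁻¹)⁻¹) * (g ^ k) := by group
    rw [h4]
    have hgk : g ^ k ∈ H := pow_mem hgH k
    have := hKn.conj_mem ⟨_, hHK h3⟩ (by simpa [Subgroup.mem_subgroupOf] using h3)
      ⟨(g ^ k)⁻¹, inv_mem hgk⟩
    simpa [Subgroup.mem_subgroupOf] using this)
  simp only at h1
  rw [h1]
  intro h5
  apply hgK
  rw [← map_pow, QuotientGroup.mk'_apply, QuotientGroup.eq_one_iff, Subgroup.mem_subgroupOf] at h5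
  simp only [Subgroup.coe_pow] at h5
  obtain ⟨k, hk⟩ := hgp
  have hcop : (H.index).Coprime (orderOf g) := by
    rw [hk]
    exact (Nat.Coprime.pow_left k hidx).symm
  obtain ⟨m, hm⟩ := exists_pow_eq_self_of_coprime hcop
  rw [← hm]
  exact pow_mem h5 m

end Cfsg.Agent.Lib.Helper21
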